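import Mathlib

/-!
Orbit-product bound for abelian permutation groups, and uniqueness of those of maximal order
inside the alternating group.
-/

namespace Cfsg.Agent.Lib.AbelianPerm

open Equiv MulAction

def fS : ℕ → ℕ
  | 0 => 1
  | 1 => 1
  | 2 => 2
  | 3 => 3
  | 4 => 4
  | n + 5 => 3 * fS (n + 2)

def gA : ℕ → ℕ
  | 0 => 1
  | 1 => 1
  | 2 => 1
  | 3 => 3
  | 4 => 4
  | 5 => 5
  | 6 => 9
  | 7 => 12
  | 8 => 16
  | n + 9 => 3 * gA (n + 6)

theorem fS_pos : ∀ n, 0 < fS n
  | 0 | 1 | 2 | 3 | 4 => by simp [fS]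
  | n + 5 => by have := fS_pos (n + 2); simp [fS]; omega

theorem gA_pos : ∀ n, 0 < gA n
  | 0 | 1 | 2 | 3 | 4 | 5 | 6 | 7 | 8 => by simp [gA]
  | n + 9 => by have := gA_pos (n + 6); simp [gA]; omega

theorem fS_small : ∀ a m, 1 ≤ a → a ≤ 4 → a * fS m ≤ fS (a + m)
  | a, 0, h1, h2 | a, 1, h1, h2 | a, 2, h1, h2 | a, 3, h1, h2 | a, 4, h1, h2 => by
    interval_cases a <;> simp [fS]
  | a, m + 5, h1, h2 => by
    have := fS_small a (m + 2) h1 h2
    rw [show a + (m + 5) = (a + m) + 5 by omega, fS, fS, show a + m + 2 = a + (m + 2) by omega]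
    nlinarith

theorem fS_mul : ∀ a m, 1 ≤ a → a * fS m ≤ fS (a + m) := by
  intro a
  induction a using Nat.strong_induction_on with
  | _ a ih =>
    intro m h1
    by_cases h4 : a ≤ 4
    · exact fS_small a m h1 h4
    · have h3 := fS_small 3 m (by norm_num) (by norm_num)
      have := ih (a - 3) (by omega) (3 + m) (by omega)
      rw [show a - 3 + (3 + m) = a + m by omega] at this
      have h5 : a ≤ (a - 3) * 3 := by omega
      calc a * fS m ≤ (a - 3) * 3 * fS m := Nat.mul_le_mul_right _ h5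
        _ ≤ (a - 3) * fS (3 + m) := by rw [mul_assoc]; exact Nat.mul_le_mul_left _ h3
        _ ≤ _ := this

theorem gA_small : ∀ a m, 1 ≤ a → a ≤ 5 → a ≠ 2 → a * gA m ≤ gA (a + m)
  | a, 0, h1, h2, h3 | a, 1, h1, h2, h3 | a, 2, h1, h2, h3 | a, 3, h1, h2, h3 | a, 4, h1, h2, h3
  | a, 5, h1, h2, h3 | a, 6, h1, h2, h3 | a, 7, h1, h2, h3 | a, 8, h1, h2, h3 => by
    interval_cases a <;> simp [gA] at *
  | a, m + 9, h1, h2, h3 => by
    have := gA_small a (m + 6) h1 h2 h3
    rw [show a + (m + 9) = (a + m) + 9 by omega, gA, gA, show a + m + 6 = a + (m + 6) by omega]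
    nlinarith

theorem gA_mul : ∀ a m, 1 ≤ a → a ≠ 2 → a * gA m ≤ gA (a + m) := by
  intro a
  induction a using Nat.strong_induction_on with
  | _ a ih =>
    intro m h1 h2
    by_cases h5 : a ≤ 5
    · exact gA_small a m h1 h5 h2
    · have h3 := gA_small 3 m (by norm_num) (by norm_num) (by norm_num)
      have := ih (a - 3) (by omega) (3 + m) (by omega) (by omega)
      rw [show a - 3 + (3 + m) = a + m by omega] at this
      have h6 : a ≤ (a - 3) * 3 := by omega
      calc a * gA m ≤ (a - 3) * 3 * gA m := Nat.mul_le_mul_right _ h6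
        _ ≤ (a - 3) * gA (3 + m) := by rw [mul_assoc]; exact Nat.mul_le_mul_left _ h3
        _ ≤ _ := this

theorem gA_lt_small : ∀ a m, (a = 1 ∨ a = 5) → 3 ≤ a + m → a + m ≠ 5 → a * gA m < gA (a + m)
  | a, 0, h, h1, h2 | a, 1, h, h1, h2 | a, 2, h, h1, h2 | a, 3, h, h1, h2 | a, 4, h, h1, h2
  | a, 5, h, h1, h2 | a, 6, h, h1, h2 | a, 7, h, h1, h2 | a, 8, h, h1, h2 => by
    rcases h with rfl | rfl <;> simp [gA] at *
  | a, m + 9, h, h1, h2 => by
    have := gA_lt_small a (m + 6) h (by omega) (by omega)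
    rw [show a + (m + 9) = (a + m) + 9 by omega, gA, gA, show a + m + 6 = a + (m + 6) by omega]
    nlinarith

theorem gA_lt (a m : ℕ) (h1 : 1 ≤ a) (h234 : a ≠ 2 ∧ a ≠ 3 ∧ a ≠ 4) (h3 : 3 ≤ a + m)
    (h5 : a + m ≠ 5) : a * gA m < gA (a + m) := by
  by_cases h : a ≤ 5
  · exact gA_lt_small a m (by omega) h3 h5
  · have e := gA_small 3 m (by norm_num) (by norm_num) (by norm_num)
    have e' := gA_mul (a - 3) (3 + m) (by omega) (by omega)
    rw [show a - 3 + (3 + m) = a + m by omega] at e'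
    calc a * gA m < (a - 3) * 3 * gA m := Nat.mul_lt_mul_of_pos_right (by omega) (gA_pos m)
      _ ≤ (a - 3) * gA (3 + m) := by rw [mul_assoc]; exact Nat.mul_le_mul_left _ e
      _ ≤ _ := e'

theorem fS_le_two_gA : ∀ n, fS n ≤ 2 * gA n ∧ (3 ≤ n → fS n < 2 * gA n)
  | 0 | 1 | 2 | 3 | 4 | 5 | 6 | 7 | 8 | 9 | 10 | 11 => by simp [fS, gA]
  | n + 12 => by
    have := fS_le_two_gA (n + 9)
    rw [show n + 12 = (n + 7) + 5 by omega, fS, show n + 7 + 2 = n + 9 by omega,
      show n + 7 + 5 = (n + 3) + 9 by omega, gA, show n + 3 + 6 = n + 9 by omega]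
    constructor
    · omega
    · intro _; have := this.2 (by omega); omega

theorem prod_le_fS {ι : Type*} (s : Finset ι) (a : ι → ℕ) (ha : ∀ i ∈ s, 1 ≤ a i) :
    ∏ i ∈ s, a i ≤ fS (∑ i ∈ s, a i) := by
  classical
  induction s using Finset.induction_on with
  | empty => simp [fS]
  | insert i s hi ih =>
    rw [Finset.prod_insert hi, Finset.sum_insert hi]
    exact le_trans (Nat.mul_le_mul_left _ (ih fun j hj => ha j (Finset.mem_insert_of_mem hj)))
      (fS_mul _ _ (ha i (Finset.mem_insert_self i s)))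

theorem prod_le_gA {ι : Type*} (s : Finset ι) (a : ι → ℕ) (ha : ∀ i ∈ s, 1 ≤ a i)
    (h2 : ∀ i ∈ s, a i ≠ 2) : ∏ i ∈ s, a i ≤ gA (∑ i ∈ s, a i) := by
  classical
  induction s using Finset.induction_on with
  | empty => simp [gA]
  | insert i s hi ih =>
    rw [Finset.prod_insert hi, Finset.sum_insert hi]
    exact le_trans (Nat.mul_le_mul_left _ (ih (fun j hj => ha j (Finset.mem_insert_of_mem hj))
      (fun j hj => h2 j (Finset.mem_insert_of_mem hj))))
      (gA_mul _ _ (ha i (Finset.mem_insert_self i s)) (h2 i (Finset.mem_insert_self i s)))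

/-- Parts of a partition attaining `gA`: only 3s and 4s, at most two 4s. -/
theorem parts_of_eq {ι : Type*} [Fintype ι] (a : ι → ℕ) (ha : ∀ i, 1 ≤ a i) (h2 : ∀ i, a i ≠ 2)
    (h3 : 3 ≤ ∑ i, a i) (h5 : ∑ i, a i ≠ 5) (heq : ∏ i, a i = gA (∑ i, a i)) :
    (∀ i, a i = 3 ∨ a i = 4) ∧ (Finset.univ.filter fun i => a i = 4).card ≤ 2 := by
  classical
  have h34 : ∀ i, a i = 3 ∨ a i = 4 := by
    intro i
    by_contra h
    push Not at h
    rw [← Finset.mul_prod_erase _ _ (Finset.mem_univ i),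
      ← Finset.add_sum_erase _ _ (Finset.mem_univ i)] at heq
    rw [← Finset.add_sum_erase _ _ (Finset.mem_univ i)] at h3 h5
    have e := prod_le_gA (Finset.univ.erase i) a (fun j _ => ha j) (fun j _ => h2 j)
    have e' := gA_lt (a i) (∑ j ∈ Finset.univ.erase i, a j) (ha i) ⟨h2 i, h.1, h.2⟩ h3 h5
    have := Nat.mul_le_mul_left (a i) e
    omega
  refine ⟨h34, ?_⟩
  by_contra h
  push Not at h
  obtain ⟨t, ht, htc⟩ := Finset.exists_subset_card_eq (show 3 ≤ (Finset.univ.filter fun i => a i = 4).card from h)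
  rw [← Finset.prod_sdiff (Finset.subset_univ t), ← Finset.sum_sdiff (Finset.subset_univ t)] at heq
  have e4 : ∀ i ∈ t, a i = 4 := fun i hi => (Finset.mem_filter.1 (ht hi)).2
  rw [Finset.prod_congr rfl e4, Finset.sum_congr rfl e4, Finset.prod_const, Finset.sum_const, htc] at heq
  set m := ∑ i ∈ Finset.univ \ t, a i
  have e := prod_le_gA (Finset.univ \ t) a (fun j _ => ha j) (fun j _ => h2 j)
  have g1 := gA_mul 3 m (by norm_num) (by norm_num)
  have g2 := gA_mul 3 (3 + m) (by norm_num) (by norm_num)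
  have g3 := gA_mul 3 (3 + (3 + m)) (by norm_num) (by norm_num)
  have g4 := gA_mul 3 (3 + (3 + (3 + m))) (by norm_num) (by norm_num)
  rw [show (3 : ℕ) • 4 = 12 by rfl, show m + 12 = 3 + (3 + (3 + (3 + m))) by omega] at heq
  have := gA_pos m
  change _ ≤ gA m at e
  omega

section
variable {α : Type*} [Fintype α] [DecidableEq α] (A : Subgroup (Perm α))

abbrev Orb := Quotient (orbitRel A α)

noncomputable instance : Fintype (Orb A) := Fintype.ofFinite _

noncomputable def sz (o : Orb A) : ℕ := Nat.card (orbit A o.out)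

theorem one_le_sz (o : Orb A) : 1 ≤ sz A o := by
  have : Nonempty (orbit A o.out) := ⟨⟨o.out, mem_orbit_self _⟩⟩
  exact Nat.card_pos

theorem sum_sz : ∑ o, sz A o = Fintype.card α := by
  rw [← Nat.card_eq_fintype_card, Nat.card_congr (selfEquivSigmaOrbits A α), Nat.card_sigma]
  rfl

theorem exists_smul_out (x : α) : ∃ b : A, b • (Quotient.mk (orbitRel A α) x).out = x :=
  (orbitRel_apply.1 ((orbitRel A α).symm (Quotient.mk_out (s := orbitRel A α) x)))

theorem orbit_eq_out (x : α) :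
    orbit A x = orbit A (Quotient.mk (orbitRel A α) x).out := by
  obtain ⟨b, hb⟩ := exists_smul_out A x
  exact orbit_eq_iff.2 ⟨b, hb⟩

theorem sz_mk (x : α) : sz A (Quotient.mk (orbitRel A α) x) = Nat.card (orbit A x) := by
  rw [sz, ← orbit_eq_out]

variable [hA : IsMulCommutative A]

theorem smul_comm' (a b : A) (x : α) : a • b • x = b • a • x := by
  rw [← mul_smul, ← mul_smul, mul_comm']

theorem fix_orbit {a : A} {x y : α} (h : a • x = x) (hy : y ∈ orbit A x) : a • y = y := by
  obtain ⟨b, rfl⟩ := hy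
  simp only []
  rw [smul_comm', h]

instance (x : α) : (stabilizer A x).Normal :=
  ⟨fun n hn g => by
    rw [mul_comm' g n, mul_inv_cancel_right]
    exact hn⟩

noncomputable def phi : A →* (∀ o : Orb A, A ⧸ stabilizer A o.out) :=
  MonoidHom.pi fun _ => QuotientGroup.mk' _

theorem phi_injective : Function.Injective (phi A) := by
  rw [injective_iff_map_eq_one]
  intro a ha
  apply Subtype.ext
  ext x
  obtain ⟨b, hb⟩ := exists_smul_out A x
  have := congrFun ha (Quotient.mk (orbitRel A α) x)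
  simp only [phi, MonoidHom.pi_apply, QuotientGroup.mk'_apply, Pi.one_apply, QuotientGroup.eq_one_iff,
    mem_stabilizer_iff] at this
  show a • x = x
  exact fix_orbit A this ⟨b, hb⟩

theorem card_pi : Nat.card (∀ o : Orb A, A ⧸ stabilizer A o.out) = ∏ o, sz A o := by
  rw [Nat.card_pi]
  exact Finset.prod_congr rfl fun o _ => (Nat.card_congr (orbitEquivQuotientStabilizer A o.out)).symm

theorem card_dvd : Nat.card A ∣ ∏ o, sz A o :=
  card_pi A ▸ Subgroup.card_dvd_of_injective (phi A) (phi_injective A)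

theorem card_le_fS : Nat.card A ≤ fS (Fintype.card α) := by
  rw [← sum_sz A]
  exact le_trans (Nat.le_of_dvd (Finset.prod_pos fun o _ => one_le_sz A o) (card_dvd A))
    (prod_le_fS _ _ fun o _ => one_le_sz A o)

theorem exists_component (hfull : Nat.card A = ∏ o, sz A o) (c : Orb A → A) :
    ∃ a : A, ∀ o : Orb A, a • o.out = c o • o.out := by
  have hb : Function.Bijective (phi A) :=
    (Nat.bijective_iff_injective_and_card _).2 ⟨phi_injective A, by rw [card_pi, hfull]⟩
  obtain ⟨a, ha⟩ := hb.2 (fun o => (c o : A ⧸ stabilizer A o.out))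
  refine ⟨a, fun o => ?_⟩
  have h : (a : A ⧸ stabilizer A o.out) = c o := congrFun ha o
  rw [QuotientGroup.eq, mem_stabilizer_iff, mul_smul, inv_smul_eq_iff] at h
  exact h.symm

/-- the component of `a` on the orbit of `x`. -/
theorem exists_single (hfull : Nat.card A = ∏ o, sz A o) (a : A) (x : α) :
    ∃ b : A, (∀ y ∈ orbit A x, b • y = a • y) ∧ ∀ y ∉ orbit A x, b • y = y := by
  classical
  obtain ⟨b, hb⟩ := exists_component A hfull
    (fun o => if o = Quotient.mk (orbitRel A α) x then a else 1)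
  refine ⟨b, fun y hy => ?_, fun y hy => ?_⟩
  · have h1 := hb (Quotient.mk (orbitRel A α) x)
    rw [if_pos rfl] at h1
    have hy' : y ∈ orbit A (Quotient.mk (orbitRel A α) x).out := orbit_eq_out A x ▸ hy
    obtain ⟨c, rfl⟩ := hy'
    simp only []
    rw [smul_comm', h1, smul_comm']
  · obtain ⟨c, hc⟩ := exists_smul_out A y
    have h1 := hb (Quotient.mk (orbitRel A α) y)
    rw [if_neg, one_smul] at h1
    · exact fix_orbit A h1 ⟨c, hc⟩
    · intro h
      apply hy
      rw [orbit_eq_out, ← h, ← orbit_eq_out]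
      exact mem_orbit_self _

theorem sz_ne_two (halt : A ≤ alternatingGroup α) (hfull : Nat.card A = ∏ o, sz A o) (o : Orb A) :
    sz A o ≠ 2 := by
  intro h
  obtain ⟨⟨u, hu⟩, ⟨v, hv⟩, huv, huniv⟩ := Nat.card_eq_two_iff.1 h
  have hne : u ≠ v := fun e => huv (Subtype.ext e)
  have hvu : v ∈ orbit A u := by rw [orbit_eq_iff.2 hu]; exact hv
  obtain ⟨a, ha⟩ := hvu
  obtain ⟨b, hb1, hb2⟩ := exists_single A hfull a u
  have horb : ∀ y ∈ orbit A u, y = u ∨ y = v := by
    intro y hy
    rw [orbit_eq_iff.2 hu] at hy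
    have := huniv.ge (Set.mem_univ (⟨y, hy⟩ : orbit A o.out))
    simpa [Subtype.ext_iff] using this
  have hbu : b • u = v := (hb1 u (mem_orbit_self _)).trans ha
  have hvu : v ∈ orbit A u := hbu ▸ mem_orbit _ b
  have hbv : b • v = u := by
    rcases horb (b • v) (by rw [← orbit_eq_iff.2 hvu]; exact mem_orbit _ b) with e | e
    · exact e
    · exact absurd (MulAction.injective b (e.trans hbu.symm)) hne.symm
  have : (b : Perm α) = swap u v := by
    ext y
    show b • y = swap u v y
    by_cases hy : y ∈ orbit A u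
    · rcases horb y hy with rfl | rfl
      · rw [hbu, swap_apply_left]
      · rw [hbv, swap_apply_right]
    · rw [hb2 y hy, swap_apply_of_ne_of_ne]
      · rintro rfl; exact hy (mem_orbit_self _)
      · rintro rfl; exact hy hvu
  have h1 := halt b.2
  rw [this, Perm.mem_alternatingGroup, Perm.sign_swap hne] at h1
  exact absurd h1 (by decide)

theorem card_le_gA (halt : A ≤ alternatingGroup α) : Nat.card A ≤ gA (Fintype.card α) := by
  obtain ⟨k, hk⟩ := card_dvd A
  have hpos : 0 < ∏ o, sz A o := Finset.prod_pos fun o _ => one_le_sz A o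
  have h1 := prod_le_fS Finset.univ (sz A) fun o _ => one_le_sz A o
  rw [sum_sz] at h1
  have h2 := (fS_le_two_gA (Fintype.card α)).1
  rcases Nat.lt_or_ge k 2 with hlt | hge
  · have : k = 1 := by
      rcases Nat.eq_zero_or_pos k with rfl | hp
      · simp at hk; omega
      · omega
    subst this
    rw [mul_one] at hk
    rw [← hk, ← sum_sz A]
    exact prod_le_gA _ _ (fun o _ => one_le_sz A o) fun o _ => sz_ne_two A halt hk.symm o
  · have : Nat.card A * 2 ≤ Nat.card A * k := Nat.mul_le_mul_left _ hge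
    omega

theorem full_of_eq (halt : A ≤ alternatingGroup α) (heq : Nat.card A = gA (Fintype.card α))
    (h3 : 3 ≤ Fintype.card α) : Nat.card A = ∏ o, sz A o := by
  obtain ⟨k, hk⟩ := card_dvd A
  have hpos : 0 < ∏ o, sz A o := Finset.prod_pos fun o _ => one_le_sz A o
  have h1 := prod_le_fS Finset.univ (sz A) fun o _ => one_le_sz A o
  rw [sum_sz] at h1
  have h2 := (fS_le_two_gA (Fintype.card α)).2 h3
  rcases Nat.lt_or_ge k 2 with hlt | hge
  · rcases Nat.eq_zero_or_pos k with rfl | hp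
    · simp at hk; omega
    · obtain rfl : k = 1 := by omega
      rw [mul_one] at hk
      exact hk.symm
  · have : Nat.card A * 2 ≤ Nat.card A * k := Nat.mul_le_mul_left _ hge
    omega

theorem shape_of_eq (halt : A ≤ alternatingGroup α) (heq : Nat.card A = gA (Fintype.card α))
    (h3 : 3 ≤ Fintype.card α) (h5 : Fintype.card α ≠ 5) :
    (∀ o, sz A o = 3 ∨ sz A o = 4) ∧ (Finset.univ.filter fun o => sz A o = 4).card ≤ 2 := by
  have hf := full_of_eq A halt heq h3
  refine parts_of_eq _ (one_le_sz A) (sz_ne_two A halt hf) ?_ ?_ ?_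
  · rwa [sum_sz]
  · rwa [sum_sz]
  · rw [← hf, heq, sum_sz]

theorem sq_of_four (halt : A ≤ alternatingGroup α) (hfull : Nat.card A = ∏ o, sz A o) (a : A)
    (x : α) (h4 : Nat.card (orbit A x) = 4) : a • a • x = x := by
  classical
  by_cases hx : a • x = x
  · rw [hx, hx]
  obtain ⟨b, hb1, hb2⟩ := exists_single A hfull a x
  have hsupp : (b : Perm α).support = (orbit A x).toFinset := by
    ext y
    rw [Perm.mem_support, Set.mem_toFinset]
    constructor
    · intro h
      by_contra hy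
      exact h (hb2 y hy)
    · intro hy h
      have h' : a • y = y := (hb1 y hy).symm.trans h
      exact hx (fix_orbit A h' (by rw [orbit_eq_iff.2 hy]; exact mem_orbit_self _))
  have hcard : (b : Perm α).support.card = 4 := by
    rw [hsupp, Set.toFinset_card, ← Nat.card_eq_fintype_card, h4]
  have hsum := Perm.sum_cycleType (b : Perm α)
  rw [hcard] at hsum
  have hsign : Perm.sign (b : Perm α) = 1 := halt b.2
  rw [Perm.sign_of_cycleType, hsum] at hsign
  have hcnt : (b : Perm α).cycleType.card * 2 ≤ 4 := by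
    rw [← hsum, ← smul_eq_mul]
    exact Multiset.card_nsmul_le_sum fun n hn => Perm.two_le_of_mem_cycleType hn
  have hc2 : (b : Perm α).cycleType.card = 2 := by
    rcases Nat.eq_zero_or_pos (b : Perm α).cycleType.card with h0 | hp
    · rw [Multiset.card_eq_zero] at h0; simp [h0] at hsum
    · rcases (show (b : Perm α).cycleType.card = 1 ∨ (b : Perm α).cycleType.card = 2 by omega) with h1 | h1
      · rw [h1] at hsign; exact absurd hsign (by decide)
      · exact h1
  have hsq : (b : Perm α) ^ 2 = 1 := by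
    rw [← orderOf_dvd_iff_pow_eq_one, ← Perm.lcm_cycleType, Multiset.lcm_dvd]
    obtain ⟨u, v, huv⟩ := Multiset.card_eq_two.1 hc2
    intro n hn
    have h2 : ∀ w ∈ (b : Perm α).cycleType, 2 ≤ w := fun w hw => Perm.two_le_of_mem_cycleType hw
    rw [huv] at hn hsum h2
    simp at hn hsum h2
    rcases hn with rfl | rfl <;> [rw [show n = 2 by omega]; rw [show n = 2 by omega]]
  have hax : a • x ∈ orbit A x := mem_orbit _ a
  rw [← hb1 x (mem_orbit_self _)] at hax ⊢
  rw [← hb1 _ hax]
  have := congrArg (fun f : Perm α => f x) hsq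
  show (b : Perm α) ((b : Perm α) x) = x
  simpa [pow_two] using this

end

theorem agree_on {α : Type*} [DecidableEq α] (a b : Perm α) (O : Finset α)
    (h : O.card = 3 ∨ O.card = 4) (hOa : ∀ y ∈ O, a y ∈ O) (hOb : ∀ y ∈ O, b y ∈ O)
    (ha : ∀ y ∈ O, a y = y → ∀ z ∈ O, a z = z) (hb : ∀ y ∈ O, b y = y → ∀ z ∈ O, b z = z)
    (ha2 : O.card = 4 → ∀ y ∈ O, a (a y) = y) (hb2 : O.card = 4 → ∀ y ∈ O, b (b y) = y)
    {x : α} (hx : x ∈ O) (hab : a x = b x) : ∀ z ∈ O, a z = b z := by
  intro z hz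
  by_cases hfix : a x = x
  · rw [ha x hx hfix z hz, hb x hx (hab ▸ hfix) z hz]
  have hbfix : b x ≠ x := hab ▸ hfix
  have hy : a x ∈ O := hOa x hx
  rcases eq_or_ne z x with rfl | hzx
  · exact hab
  rcases h with h3 | h4
  · have key : ∀ c : Perm α, (∀ y ∈ O, c y ∈ O) → (∀ y ∈ O, c y = y → ∀ z ∈ O, c z = z) →
        c x ≠ x → (c (c x) ∈ (O.erase x).erase (c x) ∧ (z ≠ c x → c z = x)) := by
      intro c hOc hc hcx
      have hcy := hOc x hx
      have hcxx : c (c x) ≠ c x := fun e => hcx (c.injective e)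
      have hT : ((O.erase x).erase (c x)).card = 1 := by
        rw [Finset.card_erase_of_mem (Finset.mem_erase.2 ⟨hcx, hcy⟩), Finset.card_erase_of_mem hx, h3]
      obtain ⟨w, hw⟩ := Finset.card_eq_one.1 hT
      have hwO : w ≠ c x ∧ w ≠ x ∧ w ∈ O := by
        have := hw.ge (Finset.mem_singleton_self w)
        simpa [Finset.mem_erase] using this
      have hall : ∀ u ∈ O, u = x ∨ u = c x ∨ u = w := by
        intro u hu
        by_cases h1 : u = x
        · exact Or.inl h1
        by_cases h2 : u = c x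
        · exact Or.inr (Or.inl h2)
        refine Or.inr (Or.inr ?_)
        have : u ∈ (O.erase x).erase (c x) := by simp [h1, h2, hu]
        rwa [hw, Finset.mem_singleton] at this
      have hccx : c (c x) ≠ x := by
        intro e
        rcases hall _ (hOc w hwO.2.2) with e' | e' | e'
        · exact hwO.1 (c.injective (e'.trans e.symm))
        · exact hwO.2.1 (c.injective e')
        · exact hcx (hc w hwO.2.2 e' x hx)
      refine ⟨by simp [hcxx, hccx, hOc _ hcy], fun hzc => ?_⟩
      rcases hall _ (hOc z hz) with e | e | e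
      · exact e
      · exact absurd (c.injective e) hzx
      · exfalso
        rcases hall z hz with e' | e' | e'
        · exact hzx e'
        · exact hzc e'
        · rw [e'] at e
          exact hcx (hc w hwO.2.2 e x hx)
    obtain ⟨ka, ka'⟩ := key a hOa ha hfix
    obtain ⟨kb, kb'⟩ := key b hOb hb hbfix
    rw [← hab] at kb kb'
    by_cases hzy : z = a x
    · subst hzy
      have hT : ((O.erase x).erase (a x)).card = 1 := by
        rw [Finset.card_erase_of_mem (Finset.mem_erase.2 ⟨hfix, hy⟩), Finset.card_erase_of_mem hx, h3]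
      exact Finset.card_le_one.1 hT.le _ ka _ kb
    · rw [ka' hzy, kb' hzy]
  · by_cases hzy : z = a x
    · subst hzy
      rw [ha2 h4 x hx]
      conv_rhs => rw [hab, hb2 h4 x hx]
    have hT : (((O.erase x).erase (a x)).erase z).card = 1 := by
      rw [Finset.card_erase_of_mem (by simp [hzy, hzx, hz]),
        Finset.card_erase_of_mem (Finset.mem_erase.2 ⟨hfix, hy⟩), Finset.card_erase_of_mem hx, h4]
    refine Finset.card_le_one.1 hT.le _ ?_ _ ?_
    · simp only [Finset.mem_erase]
      refine ⟨fun e => hfix (ha z hz e x hx), fun e => hzx (a.injective e), ?_, hOa z hz⟩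
      intro e
      exact hzy (by rw [← ha2 h4 z hz, e])
    · simp only [Finset.mem_erase]
      refine ⟨fun e => hbfix (hb z hz e x hx), fun e => hzx (b.injective (e.trans hab)), ?_, hOb z hz⟩
      intro e
      exact hzy (by rw [← hb2 h4 z hz, e, hab])

section
variable {α : Type*} [Fintype α] [DecidableEq α]

theorem eq_of_same_orbits (A B : Subgroup (Perm α)) [IsMulCommutative A] [IsMulCommutative B]
    (hA : A ≤ alternatingGroup α) (hB : B ≤ alternatingGroup α)
    (hAc : Nat.card A = gA (Fintype.card α)) (hBc : Nat.card B = gA (Fintype.card α))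
    (h3 : 3 ≤ Fintype.card α) (h5 : Fintype.card α ≠ 5)
    (horb : ∀ x : α, orbit A x = orbit B x) : A = B := by
  classical
  refine Subgroup.eq_of_le_of_card_ge ?_ (hAc.trans hBc.symm).ge
  intro a ha
  have hfA := full_of_eq A hA hAc h3
  have hfB := full_of_eq B hB hBc h3
  have hc : ∀ o : Orb B, ∃ c : B, c • o.out = a o.out := fun o => by
    have : a o.out ∈ orbit B o.out := horb o.out ▸ mem_orbit o.out (⟨a, ha⟩ : A)
    exact this
  choose c hc using hc
  obtain ⟨b, hb⟩ := exists_component B hfB c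
  suffices a = (b : Perm α) by rw [this]; exact b.2
  ext y
  set o := Quotient.mk (orbitRel B α) y
  have hy : y ∈ orbit B o.out := by rw [← orbit_eq_out]; exact mem_orbit_self _
  have hcard : (orbit B o.out).toFinset.card = sz B o := by
    rw [sz, Set.toFinset_card, Nat.card_eq_fintype_card]
  have hoo : ∀ u ∈ orbit B o.out, orbit A u = orbit B o.out := fun u hu => by
    rw [horb, orbit_eq_iff.2 hu]
  refine agree_on a b (orbit B o.out).toFinset ?_ ?_ ?_ ?_ ?_ ?_ ?_
    (x := o.out) ?_ ?_ y (Set.mem_toFinset.2 hy)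
  · rw [hcard]; exact (shape_of_eq B hB hBc h3 h5).1 o
  · intro u hu
    rw [Set.mem_toFinset] at hu ⊢
    rw [← hoo u hu]
    exact mem_orbit u (⟨a, ha⟩ : A)
  · intro u hu
    rw [Set.mem_toFinset] at hu ⊢
    rw [← orbit_eq_iff.2 hu]
    exact mem_orbit u b
  · intro u hu e z hz
    rw [Set.mem_toFinset] at hu hz
    exact fix_orbit A (a := ⟨a, ha⟩) e (hoo u hu ▸ hz)
  · intro u hu e z hz
    rw [Set.mem_toFinset] at hu hz
    exact fix_orbit B (a := b) e (by rw [orbit_eq_iff.2 hu]; exact hz)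
  · intro h4 u hu
    rw [Set.mem_toFinset] at hu
    rw [hcard] at h4
    exact sq_of_four A hA hfA ⟨a, ha⟩ u (by rw [hoo u hu]; exact h4)
  · intro h4 u hu
    rw [Set.mem_toFinset] at hu
    rw [hcard] at h4
    exact sq_of_four B hB hfB b u (by rw [orbit_eq_iff.2 hu]; exact h4)
  · exact Set.mem_toFinset.2 (mem_orbit_self _)
  · exact ((hb o).trans (hc o)).symm

theorem count_eq {A B : Subgroup (Perm α)} [IsMulCommutative A] [IsMulCommutative B]
    (hA : A ≤ alternatingGroup α) (hB : B ≤ alternatingGroup α)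
    (hAc : Nat.card A = gA (Fintype.card α)) (hBc : Nat.card B = gA (Fintype.card α))
    (h3 : 3 ≤ Fintype.card α) (h5 : Fintype.card α ≠ 5) (r : ℕ) :
    (Finset.univ.filter fun o => sz A o = r).card = (Finset.univ.filter fun o => sz B o = r).card := by
  classical
  have key : ∀ (C : Subgroup (Perm α)) [IsMulCommutative C], C ≤ alternatingGroup α →
      Nat.card C = gA (Fintype.card α) →
      (r ≠ 3 → r ≠ 4 → (Finset.univ.filter fun o => sz C o = r).card = 0) ∧
      (3 * (Finset.univ.filter fun o => sz C o = 3).card + 4 * (Finset.univ.filter fun o => sz C o = 4).card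
        = Fintype.card α) ∧ (Finset.univ.filter fun o => sz C o = 4).card ≤ 2 := by
    intro C _ hC hCc
    obtain ⟨h34, hle⟩ := shape_of_eq C hC hCc h3 h5
    refine ⟨fun h h' => ?_, ?_, hle⟩
    · rw [Finset.card_eq_zero, Finset.filter_eq_empty_iff]
      intro o _
      rcases h34 o with e | e <;> omega
    · rw [← sum_sz C, ← Finset.sum_filter_add_sum_filter_not Finset.univ (fun o => sz C o = 3)]
      have e : (Finset.univ.filter fun o => ¬ sz C o = 3) = Finset.univ.filter fun o => sz C o = 4 := by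
        ext o
        simp only [Finset.mem_filter, Finset.mem_univ, true_and]
        rcases h34 o with e | e <;> omega
      rw [e, Finset.sum_congr rfl (fun o ho => (Finset.mem_filter.1 ho).2),
        Finset.sum_congr rfl (fun o ho => (Finset.mem_filter.1 ho).2), Finset.sum_const, Finset.sum_const,
        smul_eq_mul, smul_eq_mul]
      ring
  obtain ⟨a1, a2, a3⟩ := key A hA hAc
  obtain ⟨b1, b2, b3⟩ := key B hB hBc
  by_cases hr3 : r = 3
  · subst hr3; omega
  by_cases hr4 : r = 4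
  · subst hr4; omega
  rw [a1 hr3 hr4, b1 hr3 hr4]

theorem exists_orbit_map {A B : Subgroup (Perm α)} [IsMulCommutative A] [IsMulCommutative B]
    (hA : A ≤ alternatingGroup α) (hB : B ≤ alternatingGroup α)
    (hAc : Nat.card A = gA (Fintype.card α)) (hBc : Nat.card B = gA (Fintype.card α))
    (h3 : 3 ≤ Fintype.card α) (h5 : Fintype.card α ≠ 5) :
    ∃ τ : Perm α, Perm.sign τ = 1 ∧ ∀ x y, y ∈ orbit A x ↔ τ y ∈ orbit B (τ x) := by
  classical
  have he : ∀ r, Nonempty ({o : Orb A // sz A o = r} ≃ {o : Orb B // sz B o = r}) := fun r =>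
    ⟨Fintype.equivOfCardEq (by rw [Fintype.card_subtype, Fintype.card_subtype]; exact count_eq hA hB hAc hBc h3 h5 r)⟩
  let σ : Orb A ≃ Orb B := Equiv.ofFiberEquiv (f := sz A) (g := sz B) fun r => (he r).some
  have hσ : ∀ o, sz B (σ o) = sz A o := fun o => Equiv.ofFiberEquiv_map _ o
  let e : ∀ o : Orb A, orbit A o.out ≃ orbit B (σ o).out := fun o => Classical.choice
    ((Finite.card_eq).1 (hσ o).symm)
  let τ : Perm α := ((selfEquivSigmaOrbits A α).trans
    ((Equiv.sigmaCongr σ e))).trans (selfEquivSigmaOrbits B α).symm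
  have hτ : ∀ x, τ x ∈ orbit B (σ (Quotient.mk (orbitRel A α) x)).out := fun x => by
    obtain ⟨o, y, hy, heq⟩ : ∃ (o : Orb A) (y : α) (hy : y ∈ orbit A o.out),
        selfEquivSigmaOrbits A α x = ⟨o, ⟨y, hy⟩⟩ := ⟨_, _, _, rfl⟩
    have hx : x = y := by
      have := congrArg (selfEquivSigmaOrbits A α).symm heq
      rw [Equiv.symm_apply_apply] at this
      exact this
    have ho : Quotient.mk (orbitRel A α) x = o := by
      rw [hx]
      exact (Quotient.sound (orbitRel_apply.2 hy)).trans (Quotient.out_eq o)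
    have : τ x = ((e o ⟨y, hy⟩ : orbit B (σ o).out) : α) := by
      simp only [τ, Equiv.trans_apply, heq]
      rfl
    rw [ho, this]
    exact (e o ⟨y, hy⟩).2
  have hmk : ∀ x, Quotient.mk (orbitRel B α) (τ x) = σ (Quotient.mk (orbitRel A α) x) := fun x =>
    (Quotient.sound (orbitRel_apply.2 (hτ x))).trans (Quotient.out_eq _)
  have hiff : ∀ x y, y ∈ orbit A x ↔ τ y ∈ orbit B (τ x) := fun x y => by
    rw [← orbitRel_apply, ← orbitRel_apply, ← Quotient.eq, ← Quotient.eq, hmk, hmk,
      σ.injective.eq_iff]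
  rcases Int.units_eq_one_or (Perm.sign τ) with h | h
  · exact ⟨τ, h, hiff⟩
  · obtain ⟨x₀⟩ : Nonempty α := Fintype.card_pos_iff.1 (by omega)
    obtain ⟨x₁, hx1, hne⟩ : ∃ x₁ ∈ orbit A x₀, x₁ ≠ x₀ := by
      by_contra hh
      push Not at hh
      have := (shape_of_eq A hA hAc h3 h5).1 (Quotient.mk (orbitRel A α) x₀)
      rw [sz_mk] at this
      have e1 : orbit A x₀ = {x₀} := Set.eq_singleton_iff_unique_mem.2 ⟨mem_orbit_self _, hh⟩
      rw [e1] at this
      simp at this
    refine ⟨τ * swap x₀ x₁, by rw [map_mul, h, Perm.sign_swap hne.symm]; decide, fun x y => ?_⟩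
    have hs : ∀ z, orbit A (swap x₀ x₁ z) = orbit A z := fun z => by
      rcases eq_or_ne z x₀ with rfl | h0
      · rw [swap_apply_left, orbit_eq_iff.2 hx1]
      rcases eq_or_ne z x₁ with rfl | h1
      · rw [swap_apply_right, orbit_eq_iff.2 hx1]
      · rw [swap_apply_of_ne_of_ne h0 h1]
    simp only [Perm.mul_apply]
    rw [← hiff, ← hs x, ← orbit_eq_iff, ← orbit_eq_iff, hs y]

/-- Abelian subgroups of order `gA n` of the alternating group are conjugate by an even permutation. -/
theorem conj_of_max (A B : Subgroup (Perm α)) [hcA : IsMulCommutative A] [IsMulCommutative B]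
    (hA : A ≤ alternatingGroup α) (hB : B ≤ alternatingGroup α)
    (hAc : Nat.card A = gA (Fintype.card α)) (hBc : Nat.card B = gA (Fintype.card α))
    (h3 : 3 ≤ Fintype.card α) (h5 : Fintype.card α ≠ 5) :
    ∃ τ ∈ alternatingGroup α, B = A.map (MulAut.conj τ).toMonoidHom := by
  obtain ⟨τ, hsign, hiff⟩ := exists_orbit_map hA hB hAc hBc h3 h5
  refine ⟨τ, hsign, ?_⟩
  set C := A.map (MulAut.conj τ).toMonoidHom with hC
  have : IsMulCommutative C := ⟨⟨fun ⟨_, u, hu, hu'⟩ ⟨_, v, hv, hv'⟩ => Subtype.ext (by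
    subst hu' hv'
    show _ * _ = _ * _
    rw [← map_mul, ← map_mul]
    exact congrArg _ (congrArg Subtype.val (mul_comm' (⟨u, hu⟩ : A) ⟨v, hv⟩)))⟩⟩
  have hCA : C ≤ alternatingGroup α := by
    rintro _ ⟨u, hu, rfl⟩
    simp only [MulEquiv.coe_toMonoidHom, MulAut.conj_apply, Perm.mem_alternatingGroup, map_mul, map_inv, hsign]
    simpa using hA hu
  have hCc : Nat.card C = gA (Fintype.card α) := by
    rw [hC, Subgroup.card_map_of_injective (MulEquiv.injective _), hAc]
  refine (eq_of_same_orbits C B hCA hB hCc hBc h3 h5 fun z => ?_).symm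
  ext w
  obtain ⟨z, rfl⟩ := τ.surjective z
  obtain ⟨w, rfl⟩ := τ.surjective w
  rw [← hiff]
  constructor
  · rintro ⟨⟨_, u, hu, rfl⟩, h⟩
    refine ⟨⟨u, hu⟩, τ.injective ?_⟩
    simpa [Subgroup.smul_def] using h
  · rintro ⟨⟨u, hu⟩, rfl⟩
    refine ⟨⟨_, u, hu, rfl⟩, ?_⟩
    simp [Subgroup.smul_def]

end

/-- There is an abelian subgroup of order `c` of even permutations on `n` points (`e = true`),
or of arbitrary permutations (`e = false`). -/
def Ex (e : Bool) (n c : ℕ) : Prop :=
  ∃ A : Subgroup (Perm (Fin n)), IsMulCommutative A ∧ Nat.card A = c ∧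
    (e = true → A ≤ alternatingGroup (Fin n))

theorem ex_prod {e : Bool} {a b c d : ℕ} (h1 : Ex e a c) (h2 : Ex e b d) : Ex e (a + b) (c * d) := by
  obtain ⟨A, hA, rfl, hAe⟩ := h1
  obtain ⟨B, hB, rfl, hBe⟩ := h2
  let f : Perm (Fin a) × Perm (Fin b) →* Perm (Fin (a + b)) :=
    (finSumFinEquiv.permCongrHom.toMonoidHom).comp (Perm.sumCongrHom (Fin a) (Fin b))
  have hf : Function.Injective f :=
    finSumFinEquiv.permCongrHom.injective.comp Perm.sumCongrHom_injective
  refine ⟨(A.prod B).map f, ⟨⟨?_⟩⟩, ?_, ?_⟩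
  · rintro ⟨_, ⟨u₁, u₂⟩, ⟨h1, h2⟩, rfl⟩ ⟨_, ⟨v₁, v₂⟩, ⟨h3, h4⟩, rfl⟩
    apply Subtype.ext
    show _ * _ = _ * _
    rw [← map_mul, ← map_mul, Prod.mk_mul_mk, Prod.mk_mul_mk]
    congr 1
    exact Prod.ext (congrArg Subtype.val (mul_comm' (⟨u₁, h1⟩ : A) ⟨v₁, h3⟩))
      (congrArg Subtype.val (mul_comm' (⟨u₂, h2⟩ : B) ⟨v₂, h4⟩))
  · rw [Subgroup.card_map_of_injective hf, Nat.card_congr (Subgroup.prodEquiv A B).toEquiv, Nat.card_prod]
  · intro he
    rintro _ ⟨⟨u, v⟩, ⟨hu, hv⟩, rfl⟩
    have h1 : Perm.sign u = 1 := hAe he hu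
    have h2 : Perm.sign v = 1 := hBe he hv
    simp [f, Perm.mem_alternatingGroup, Equiv.permCongrHom, h1, h2]

theorem ex_regular {n : ℕ} (G : Type) [CommGroup G] [Fintype G] [DecidableEq G] (e : G ≃ Fin n)
    (b : Bool) (hsign : b = true → ∀ g : G, Perm.sign (MulAction.toPermHom G G g) = 1) :
    Ex b n (Nat.card G) := by
  let f : G →* Perm (Fin n) := e.permCongrHom.toMonoidHom.comp (MulAction.toPermHom G G)
  have hf : Function.Injective f := e.permCongrHom.injective.comp MulAction.toPerm_injective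
  refine ⟨f.range, ⟨⟨?_⟩⟩, ?_, ?_⟩
  · rintro ⟨_, u, rfl⟩ ⟨_, v, rfl⟩
    apply Subtype.ext
    show _ * _ = _ * _
    rw [← map_mul, ← map_mul, mul_comm]
  · exact (Nat.card_congr (MonoidHom.ofInjective hf).toEquiv).symm
  · intro hb
    rintro _ ⟨u, rfl⟩
    have := hsign hb u
    simp only [f, Perm.mem_alternatingGroup, MonoidHom.comp_apply, MulEquiv.coe_toMonoidHom]
    rw [show e.permCongrHom (MulAction.toPermHom G G u) = e.permCongr (MulAction.toPermHom G G u) from rfl,
      Perm.sign_permCongr, this]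

theorem ex_zero (e : Bool) : Ex e 0 1 := ⟨⊥, inferInstance, by simp, fun _ => bot_le⟩

theorem ex_one (e : Bool) : Ex e 1 1 := ⟨⊥, inferInstance, by simp, fun _ => bot_le⟩

theorem ex_two : Ex false 2 2 := by
  have := ex_regular (n := 2) (Multiplicative (ZMod 2)) Multiplicative.toAdd false (by simp)
  simpa using this

theorem ex_three (e : Bool) : Ex e 3 3 := by
  have := ex_regular (n := 3) (Multiplicative (ZMod 3)) Multiplicative.toAdd e (fun _ => by decide)
  simpa using this

theorem ex_four (e : Bool) : Ex e 4 4 := by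
  have := ex_regular (n := 4) (Multiplicative (ZMod 2 × ZMod 2))
    (Multiplicative.toAdd.trans finProdFinEquiv) e (fun _ => by decide)
  simpa using this

theorem ex_pow (e : Bool) : ∀ k, Ex e (3 * k) (3 ^ k)
  | 0 => ex_zero e
  | k + 1 => by
    rw [mul_add, mul_one, pow_succ]
    exact ex_prod (ex_pow e k) (ex_three e)

theorem gA_three_mul : ∀ k, gA (3 * k) = 3 ^ k
  | 0 | 1 | 2 => by simp [gA]
  | k + 3 => by
    rw [show 3 * (k + 3) = 3 * k + 9 by ring, gA, show 3 * k + 6 = 3 * (k + 2) by ring,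
      gA_three_mul (k + 2)]
    ring

theorem gA_one_mod : ∀ k, gA (3 * (k + 1) + 1) = 4 * 3 ^ k
  | 0 | 1 => by simp [gA]
  | k + 2 => by
    rw [show 3 * (k + 2 + 1) + 1 = (3 * k + 1) + 9 by ring, gA,
      show 3 * k + 1 + 6 = 3 * (k + 1 + 1) + 1 by ring, gA_one_mod (k + 1)]
    ring

theorem gA_two_mod : ∀ k, gA (3 * (k + 2) + 2) = 16 * 3 ^ k
  | 0 => by simp [gA]
  | k + 1 => by
    rw [show 3 * (k + 1 + 2) + 2 = (3 * k + 2) + 9 by ring, gA,
      show 3 * k + 2 + 6 = 3 * (k + 2) + 2 by ring, gA_two_mod k]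
    ring

theorem fS_three_mul : ∀ k, fS (3 * k) = 3 ^ k
  | 0 | 1 => by simp [fS]
  | k + 2 => by
    rw [show 3 * (k + 2) = (3 * k + 1) + 5 by ring, fS, show 3 * k + 1 + 2 = 3 * (k + 1) by ring,
      fS_three_mul (k + 1)]
    ring

theorem fS_one_mod : ∀ k, fS (3 * (k + 1) + 1) = 4 * 3 ^ k
  | 0 => by simp [fS]
  | k + 1 => by
    rw [show 3 * (k + 1 + 1) + 1 = (3 * k + 2) + 5 by ring, fS,
      show 3 * k + 2 + 2 = 3 * (k + 1) + 1 by ring, fS_one_mod k]
    ring

theorem fS_two_mod : ∀ k, fS (3 * k + 2) = 2 * 3 ^ k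
  | 0 => by simp [fS]
  | k + 1 => by
    rw [show 3 * (k + 1) + 2 = 3 * k + 5 by ring, fS, fS_two_mod k]
    ring

theorem ex_gA (n : ℕ) (h2 : n ≠ 2) (h5 : n ≠ 5) : Ex true n (gA n) := by
  obtain ⟨k, rfl | rfl | rfl⟩ : ∃ k, n = 3 * k ∨ n = 3 * k + 1 ∨ n = 3 * k + 2 :=
    ⟨n / 3, by omega⟩
  · rw [gA_three_mul]; exact ex_pow true k
  · rcases k with _ | k
    · exact ex_one true
    · rw [gA_one_mod, mul_comm 4, show 3 * (k + 1) + 1 = 3 * k + 4 by ring]
      exact ex_prod (ex_pow true k) (ex_four true)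
  · rcases k with _ | _ | k
    · omega
    · omega
    · rw [gA_two_mod, show 16 * 3 ^ k = 3 ^ k * (4 * 4) by ring,
        show 3 * (k + 1 + 1) + 2 = 3 * k + (4 + 4) by ring]
      exact ex_prod (ex_pow true k) (ex_prod (ex_four true) (ex_four true))

theorem to_alternating {n c : ℕ} (h : Ex true n c) :
    ∃ A : Subgroup (alternatingGroup (Fin n)), IsMulCommutative A ∧ Nat.card A = c := by
  obtain ⟨A, hA, hc, hle⟩ := h
  refine ⟨A.subgroupOf _, ⟨⟨fun u v => ?_⟩⟩, by rw [Nat.card_congr (Subgroup.subgroupOfEquivOfLe (hle rfl)).toEquiv, hc]⟩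
  apply Subtype.ext; apply Subtype.ext
  show ((u : alternatingGroup (Fin n)) : Perm (Fin n)) * ((v : alternatingGroup (Fin n)) : Perm (Fin n)) =
    ((v : alternatingGroup (Fin n)) : Perm (Fin n)) * ((u : alternatingGroup (Fin n)) : Perm (Fin n))
  exact congrArg Subtype.val (mul_comm' (⟨((u : alternatingGroup (Fin n)) : Perm (Fin n)), u.2⟩ : A)
    ⟨((v : alternatingGroup (Fin n)) : Perm (Fin n)), v.2⟩)

theorem map_subtype {n : ℕ} (A : Subgroup (alternatingGroup (Fin n))) (hA : IsMulCommutative A) :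
    IsMulCommutative (A.map (alternatingGroup (Fin n)).subtype) := by
  refine ⟨⟨?_⟩⟩
  rintro ⟨_, u, hu, rfl⟩ ⟨_, v, hv, rfl⟩
  apply Subtype.ext
  show _ * _ = _ * _
  rw [← map_mul, ← map_mul]
  exact congrArg _ (congrArg Subtype.val (mul_comm' (⟨u, hu⟩ : A) ⟨v, hv⟩))

theorem card_alt_le {n : ℕ} (A : Subgroup (alternatingGroup (Fin n))) (hA : IsMulCommutative A) :
    Nat.card A ≤ gA n := by
  have := map_subtype A hA
  have h := card_le_gA (A.map (alternatingGroup (Fin n)).subtype) (Subgroup.map_subtype_le A)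
  rwa [Subgroup.card_subtype, Fintype.card_fin] at h

end Cfsg.Agent.Lib.AbelianPerm
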