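import Mathlib

/-! Square class of Gram determinants of explicit forms. -/

namespace Cfsg.Agent.Lib.FormDet

theorem isSquare_gram {κ ι F : Type*} [Field F] [Fintype κ] [DecidableEq κ] [Fintype ι] [DecidableEq ι]
    (f : (κ → F) → F) (G : Matrix κ κ F)
    (hG : ∀ x y : κ → F, QuadraticMap.polar f x y = dotProduct x (G.mulVec y))
    (b : Module.Basis ι F (κ → F)) :
    IsSquare (Matrix.of fun i j => QuadraticMap.polar f (b i) (b j)).det ↔ IsSquare G.det := by
  let e : ι ≃ κ := b.indexEquiv (Pi.basisFun F κ)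
  let P : Matrix κ κ F := (Pi.basisFun F κ).toMatrix (b.reindex e)
  have h : (Matrix.of fun i j => QuadraticMap.polar f (b i) (b j)) =
      (P.transpose * G * P).submatrix e e := by
    ext i j
    simp only [Matrix.of_apply, Matrix.submatrix_apply, hG, Matrix.mul_apply, dotProduct, Matrix.mulVec,
      P, Module.Basis.toMatrix_apply, Matrix.transpose_apply, Pi.basisFun_repr,
      Module.Basis.reindex_apply, Equiv.symm_apply_apply, Finset.mul_sum, Finset.sum_mul]
    rw [Finset.sum_comm]
    exact Finset.sum_congr rfl fun _ _ => Finset.sum_congr rfl fun _ _ => by ring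
  rw [h, Matrix.det_submatrix_equiv_self, Matrix.det_mul, Matrix.det_mul, Matrix.det_transpose]
  have hP : P.det ≠ 0 := by
    have := (Pi.basisFun F κ).invertibleToMatrix (b.reindex e)
    exact (Matrix.isUnit_det_of_invertible P).ne_zero
  constructor
  · rintro ⟨r, hr⟩
    refine ⟨r / P.det, ?_⟩
    field_simp
    linear_combination hr
  · rintro ⟨r, hr⟩
    exact ⟨r * P.det, by rw [hr]; ring⟩

theorem det_hyp (m : ℕ) (F : Type*) [Field F] :
    (Matrix.fromBlocks (0 : Matrix (Fin m) (Fin m) F) 1 1 (0 : Matrix (Fin m) (Fin m) F)).det = (-1) ^ m := by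
  have h : Matrix.fromBlocks (1 : Matrix (Fin m) (Fin m) F) 1 0 (1 : Matrix (Fin m) (Fin m) F) *
      Matrix.fromBlocks (0 : Matrix (Fin m) (Fin m) F) 1 1 (0 : Matrix (Fin m) (Fin m) F)
      = Matrix.fromBlocks (1 : Matrix (Fin m) (Fin m) F) 1 1 (0 : Matrix (Fin m) (Fin m) F) := by
    rw [Matrix.fromBlocks_multiply]
    simp
  have := congrArg Matrix.det h
  rw [Matrix.det_mul, Matrix.det_fromBlocks_zero₂₁, Matrix.det_fromBlocks_one₁₁] at this
  simp only [Matrix.det_one, one_mul, mul_one, zero_sub, Matrix.det_neg, Fintype.card_fin] at this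
  exact this

theorem isSquare_neg_one_pow {F : Type*} [Field F] [Fintype F] {q : ℕ} (hF : Fintype.card F = q)
    (hq : Odd q) (m : ℕ) : IsSquare ((-1 : F) ^ m) ↔ Even (m * (q - 1) / 2) := by
  have h1 : m * (q - 1) / 2 = m * ((q - 1) / 2) := by
    rw [Nat.mul_div_assoc]
    obtain ⟨k, rfl⟩ := hq
    exact ⟨k, by omega⟩
  rw [h1, Nat.even_mul]
  rcases Nat.even_or_odd m with he | ho
  · simp [he, he.neg_one_pow]
  · rw [ho.neg_one_pow, FiniteField.isSquare_neg_one_iff, hF]
    have : ¬ Even m := Nat.not_even_iff_odd.2 ho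
    simp only [this, false_or, Nat.even_iff]
    rw [Nat.odd_iff] at hq
    omega

theorem isSquare_mul_nonsquare {F : Type*} [Field F] [Fintype F] [DecidableEq F] {x d : F} (hx : x ≠ 0)
    (hd : ¬ IsSquare d) : IsSquare (x * d) ↔ ¬ IsSquare x := by
  have hd0 : d ≠ 0 := by rintro rfl; exact hd IsSquare.zero
  rw [← quadraticChar_one_iff_isSquare (mul_ne_zero hx hd0), map_mul,
    quadraticChar_neg_one_iff_not_isSquare.2 hd, ← quadraticChar_one_iff_isSquare hx]
  rcases quadraticChar_dichotomy hx with h | h <;> simp [h]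

end Cfsg.Agent.Lib.FormDet
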