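import Cfsg.Agent.Lib.Char.FrobSchur
import Cfsg.Agent.Lib.Char.Induced
import Mathlib.LinearAlgebra.FiniteDimensional.Lemmas

/-!
# The Frobenius–Schur indicator of an irreducible induced character
-/

set_option autoImplicit false

open Module Matrix
open scoped ComplexConjugate

namespace Cfsg.Agent.Lib.FSInduced

open Cfsg.Agent.Lib.Char

universe u

variable {G : Type u} [Group G] [Fintype G]

/-- Inducing a character of indicator one to an irreducible character gives indicator one. -/
theorem fsInd_indFun_eq_one (I : Subgroup G) [Fintype I] {ψ : I → ℂ} (hψ : IsIrrCharacter I ψ)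
    (hν : fsInd ψ = 1) (hirr : IsIrrCharacter G (indFun I ψ)) : fsInd (indFun I ψ) = 1 := by
  classical
  have hψreal : ∀ s, (ψ s).im = 0 := by
    intro s
    by_contra h
    have := (fsInd_irr hψ).2.2 ⟨s, h⟩
    rw [hν] at this
    exact one_ne_zero this
  have hχreal : ∀ g, (indFun I ψ g).im = 0 := by
    intro g
    rw [← Complex.conj_eq_iff_im]
    simp only [indFun, map_mul, map_inv₀, map_natCast, map_sum]
    congr 1
    refine Finset.sum_congr rfl fun x _ => ?_
    by_cases hx : x⁻¹ * g * x ∈ I
    · rw [extendByZero_mem I ψ hx, Complex.conj_eq_iff_im]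
      exact hψreal _
    · rw [extendByZero_not_mem I ψ hx, map_zero]
  obtain ⟨m, σ, hσ, hσψ⟩ := hψ
  subst hσψ
  obtain ⟨n, ρ, hρ, hρχ⟩ := hirr
  have := hσ
  have := hρ
  obtain ⟨-, ⟨M, hM0, hMinv⟩, hMsym⟩ := (fsInd_spec σ).2 hψreal
  have hMT : Mᵀ = M := by rw [hMsym M hMinv, hν, one_smul]
  rw [mem_invariants_formRep] at hMinv
  -- an intertwiner from the restriction
  let ρI : Representation ℂ I (Fin n → ℂ) := ρ.comp I.subtype
  have hfr : classInner σ.character ρI.character = 1 := by
    have hcl : IsClassFunction G ρ.character :=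
      isClassFunction_of_isCharacter (isCharacter_character ρ)
    rw [show ρI.character = fun t : I => ρ.character t from rfl, ← classInner_indFun I _ hcl,
      ← hρχ]
    exact classInner_irr_self (isIrrCharacter_character ρ)
  rw [classInner_character, Nat.cast_eq_one] at hfr
  obtain ⟨f, hf⟩ : ∃ f : Representation.IntertwiningMap ρI σ, f ≠ 0 := by
    by_contra hall
    push Not at hall
    have : Subsingleton (Representation.IntertwiningMap ρI σ) := ⟨fun a b => by rw [hall a, hall b]⟩
    rw [Module.finrank_zero_of_subsingleton] at hfr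
    exact zero_ne_one hfr
  let P : (Fin n → ℂ) →ₗ[ℂ] (Fin m → ℂ) := f.toLinearMap
  have hP0 : P ≠ 0 := fun h => hf (Representation.IntertwiningMap.toLinearMap_injective _ _ h)
  have hP : ∀ (h : I) x, P (ρ (h : G) x) = σ h (P x) := fun h x => Representation.IntertwiningMap.isIntertwining ρI σ f h x
  -- the block decomposition
  let Φ : (Fin n → ℂ) →ₗ[ℂ] (G ⧸ I → Fin m → ℂ) := LinearMap.pi fun q => P.comp (ρ q.out⁻¹)
  have hΦ : ∀ x q, Φ x q = P (ρ q.out⁻¹ x) := fun x q => rfl
  have hval : ∀ (g : G) x, ∃ h : I, P (ρ g x) = σ h (Φ x (g⁻¹ : G)) := by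
    intro g x
    obtain ⟨h, hh⟩ := QuotientGroup.mk_out_eq_mul I g⁻¹
    refine ⟨h, ?_⟩
    rw [hΦ, hh, ← hP, ← Module.End.mul_apply, ← map_mul, _root_.mul_inv_rev, inv_inv, mul_inv_cancel_left]
  have hinj : Function.Injective Φ := by
    rw [injective_iff_map_eq_zero]
    intro x hx
    let U : Subrepresentation ρ :=
      { toSubmodule :=
          { carrier := {y | ∀ g, P (ρ g y) = 0}
            add_mem' := fun {a b} ha hb g => by rw [map_add, map_add, ha g, hb g, add_zero]
            zero_mem' := fun g => by rw [map_zero, map_zero]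
            smul_mem' := fun c a ha g => by rw [map_smul, map_smul, ha g, smul_zero] }
        apply_mem_toSubmodule := fun g y hy g' => by
          rw [← Module.End.mul_apply, ← map_mul]; exact hy _ }
    have hxU : x ∈ U.toSubmodule := fun g => by
      obtain ⟨h, hh⟩ := hval g x
      rw [hh, hx]
      simp
    rcases eq_bot_or_eq_top U with hU | hU
    · rw [hU] at hxU
      exact (Submodule.mem_bot ℂ).1 hxU
    · exfalso
      refine hP0 (LinearMap.ext fun y => ?_)
      have : y ∈ U.toSubmodule := by rw [hU]; trivial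
      simpa using this 1
  have hdim : n = Nat.card (G ⧸ I) * m := by
    have h1 := congrFun hρχ 1
    rw [indFun_one, Representation.char_one, Representation.char_one, Module.finrank_fin_fun,
      Module.finrank_fin_fun] at h1
    unfold Subgroup.index at h1
    exact_mod_cast h1
  have hsurj : Function.Surjective Φ := by
    refine (LinearMap.injective_iff_surjective_of_finrank_eq_finrank ?_).1 hinj
    rw [Module.finrank_fin_fun, Module.finrank_pi_fintype]
    simp only [Module.finrank_fin_fun, Finset.sum_const, Finset.card_univ, smul_eq_mul]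
    rw [← Nat.card_eq_fintype_card]
    exact hdim
  -- the averaged form
  let A : G → Matrix (Fin m) (Fin n) ℂ := fun g => LinearMap.toMatrix' (P.comp (ρ g))
  let B : Matrix (Fin n) (Fin n) ℂ := ∑ g : G, (A g)ᵀ * M * A g
  have hBT : Bᵀ = B := by
    simp only [B, Matrix.transpose_sum, Matrix.transpose_mul, Matrix.transpose_transpose, hMT,
      Matrix.mul_assoc]
  have hBinv : B ∈ (formRep ρ).invariants := by
    rw [mem_invariants_formRep]
    intro g
    simp only [B, Matrix.mul_sum, Matrix.sum_mul]
    refine Fintype.sum_equiv (Equiv.mulRight g) _ _ fun g' => ?_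
    have : A (g' * g) = A g' * LinearMap.toMatrix' (ρ g) := by
      simp only [A]
      rw [map_mul, Module.End.mul_eq_comp, ← LinearMap.comp_assoc, LinearMap.toMatrix'_comp]
    simp [this, Matrix.transpose_mul, Matrix.mul_assoc]
  have hB0 : B ≠ 0 := by
    intro h0
    apply hM0
    let q₀ : G ⧸ I := (1 : G)
    have key : ∀ a b : Fin m → ℂ, a ⬝ᵥ M *ᵥ b = 0 := by
      intro a b
      obtain ⟨x, hx⟩ := hsurj (Pi.single q₀ a)
      obtain ⟨y, hy⟩ := hsurj (Pi.single q₀ b)
      have h1 : x ⬝ᵥ B *ᵥ y = 0 := by rw [h0, Matrix.zero_mulVec, dotProduct_zero]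
      simp only [B, Matrix.sum_mulVec, dotProduct_sum] at h1
      rw [Finset.sum_congr rfl (g := fun g : G =>
        if ((g⁻¹ : G) : G ⧸ I) = q₀ then a ⬝ᵥ M *ᵥ b else 0) fun g _ => ?_] at h1
      · rw [← Finset.sum_filter, Finset.sum_const, nsmul_eq_mul, mul_eq_zero] at h1
        refine h1.resolve_left (Nat.cast_ne_zero.2 (Finset.card_ne_zero.2 ⟨1, ?_⟩))
        simp [q₀]
      · have e : x ⬝ᵥ ((A g)ᵀ * M * A g) *ᵥ y = (A g *ᵥ x) ⬝ᵥ M *ᵥ (A g *ᵥ y) := by
          rw [← Matrix.mulVec_mulVec, ← Matrix.mulVec_mulVec, Matrix.dotProduct_mulVec,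
            Matrix.vecMul_transpose]
        have hA : ∀ z, A g *ᵥ z = P (ρ g z) := fun z => by
          exact LinearMap.toMatrix'_mulVec _ z
        obtain ⟨h, hh⟩ := hval g x
        obtain ⟨h', hh'⟩ := QuotientGroup.mk_out_eq_mul I g⁻¹
        rw [e, hA, hA]
        have hg : ∀ z, P (ρ g z) = σ h' (Φ z (g⁻¹ : G)) := fun z => by
          rw [hΦ, hh', ← hP, ← Module.End.mul_apply, ← map_mul, _root_.mul_inv_rev, inv_inv,
            mul_inv_cancel_left]
        rw [hg, hg, hx, hy]
        split_ifs with hq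
        · rw [hq, Pi.single_eq_same, Pi.single_eq_same, ← LinearMap.toMatrix'_mulVec (σ h') a,
            ← LinearMap.toMatrix'_mulVec (σ h') b]
          conv_rhs => rw [← hMinv h']
          rw [← Matrix.mulVec_mulVec, ← Matrix.mulVec_mulVec, Matrix.dotProduct_mulVec a,
            Matrix.vecMul_transpose]
        · simp [Pi.single_eq_of_ne hq]
    ext i j
    simpa using key (Pi.single i 1) (Pi.single j 1)
  rw [← hρχ] at hχreal ⊢
  obtain ⟨-, -, hall⟩ := (fsInd_spec ρ).2 hχreal
  have h2 := hall B hBinv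
  rw [hBT] at h2
  refine (smul_left_injective ℂ hB0 ?_).symm
  show (1 : ℂ) • B = fsInd ρ.character • B
  rw [one_smul, ← h2]

end Cfsg.Agent.Lib.FSInduced
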