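import Mathlib

/-! Idempotents in `F[g]`, primary minimal polynomials. -/

set_option autoImplicit false

namespace Cfsg.Agent.Lib.GLSplit

open Polynomial

variable {F : Type*} [Field F] {ι : Type*} [Fintype ι] [DecidableEq ι]

/-- The determinant of `1 + c P` for an idempotent `P`. -/
theorem det_one_add_smul_idem (P : Matrix ι ι F) (hP : P * P = P) :
    ∃ r : ℕ, ∀ c : F, (1 + c • P).det = (1 + c) ^ r := by
  classical
  let f : (ι → F) →ₗ[F] (ι → F) := Matrix.toLin' P
  let W := LinearMap.range f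
  let b : Module.Basis (Fin (Module.finrank F W)) F W := Module.finBasis F W
  let std : Module.Basis ι F (ι → F) := Pi.basisFun F ι
  let U : Matrix ι (Fin (Module.finrank F W)) F := LinearMap.toMatrix b std W.subtype
  let V : Matrix (Fin (Module.finrank F W)) ι F := LinearMap.toMatrix std b f.rangeRestrict
  have hUV : U * V = P := by
    rw [← LinearMap.toMatrix_comp std b std, LinearMap.subtype_comp_codRestrict]
    show LinearMap.toMatrix (Pi.basisFun F ι) (Pi.basisFun F ι) (Matrix.toLin' P) = P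
    rw [LinearMap.toMatrix_eq_toMatrix', LinearMap.toMatrix'_toLin']
  have hff : ∀ v, f (f v) = f v := fun v => by
    simp only [f, Matrix.toLin'_apply, Matrix.mulVec_mulVec, hP]
  have hVU : V * U = 1 := by
    rw [← LinearMap.toMatrix_comp b std b, ← LinearMap.toMatrix_id b]
    congr 1
    ext ⟨w, v, rfl⟩ : 1
    exact Subtype.ext (hff v)
  refine ⟨Module.finrank F W, fun c => ?_⟩
  rw [← hUV, ← Matrix.smul_mul, Matrix.det_one_add_mul_comm, Matrix.mul_smul, hVU,
    ← one_smul F (1 : Matrix (Fin (Module.finrank F W)) (Fin (Module.finrank F W)) F),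
    smul_smul, mul_one, ← add_smul, Matrix.det_smul, Matrix.det_one, mul_one, Fintype.card_fin]

theorem pow_one_add_smul_idem (P : Matrix ι ι F) (hP : P * P = P) (c : F) (j : ℕ) :
    (1 + c • P) ^ j = 1 + ((1 + c) ^ j - 1) • P := by
  induction j with
  | zero => simp
  | succ j ih =>
    rw [pow_succ, ih, mul_add, mul_one, add_mul, one_mul, smul_mul_smul_comm, hP, pow_succ]
    module

/-- Either `F[g]` has a non-trivial idempotent, or the minimal polynomial is primary. -/
theorem split_or_primary [Nonempty ι] (M : Matrix ι ι F) :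
    (∃ P : Matrix ι ι F, P * P = P ∧ P ≠ 0 ∧ P ≠ 1 ∧ Commute P M) ∨
      ∃ (f : F[X]) (e : ℕ), f.Monic ∧ Irreducible f ∧ minpoly F M ∣ f ^ e ∧ f ∣ minpoly F M := by
  classical
  set m := minpoly F M with hm
  have hint : IsIntegral F M := Algebra.IsIntegral.isIntegral _
  have hm0 : m ≠ 0 := minpoly.ne_zero hint
  obtain ⟨f, hfm, hf, hfd⟩ := exists_monic_irreducible_factor m (minpoly.not_isUnit F M)
  obtain ⟨e, r, hr, hmr⟩ := WfDvdMonoid.max_power_factor hm0 hf
  by_cases hu : IsUnit r
  · exact Or.inr ⟨f, e, hfm, hf, by rw [hmr]; exact (hu.mul_right_dvd).2 dvd_rfl, hfd⟩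
  left
  have he : 1 ≤ e := by
    rcases Nat.eq_zero_or_pos e with rfl | h
    · rw [pow_zero, one_mul] at hmr; exact absurd (hmr ▸ hfd) hr
    · exact h
  have hcop : IsCoprime (f ^ e) r := (hf.coprime_iff_not_dvd.2 hr).pow_left
  obtain ⟨a, b, hab⟩ := hcop
  refine ⟨aeval M (b * r), ?_, ?_, ?_, ?_⟩
  · rw [← map_mul, ← sub_eq_zero, ← map_sub]
    have : b * r * (b * r) - b * r = -(a * b) * m := by
      rw [hmr]; linear_combination (b * r) * hab
    rw [this, map_mul, hm, minpoly.aeval, mul_zero]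
  · intro h0
    have h1 : f ^ e ∣ b * r := (dvd_mul_right _ r).trans (hmr ▸ minpoly.dvd F M h0)
    have h2 : f ^ e ∣ 1 := hab ▸ dvd_add (dvd_mul_left _ a) h1
    exact hf.not_isUnit (isUnit_of_dvd_one ((dvd_pow_self f (by omega)).trans h2))
  · intro h1
    have h2 : aeval M (a * f ^ e) = 0 := by
      rw [show a * f ^ e = 1 - b * r by linear_combination hab, map_sub, map_one, h1, sub_self]
    have h3 : r ∣ a * f ^ e := (dvd_mul_left r (f ^ e)).trans (hmr ▸ minpoly.dvd F M h2)
    exact hu (isUnit_of_dvd_one (hab ▸ dvd_add h3 (dvd_mul_left r b)))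
  · show Commute _ M
    have := (Commute.all (b * r) (X : F[X])).map (aeval M)
    rwa [aeval_X] at this

theorem charpoly_eq_pow (M : Matrix ι ι F) (f : F[X]) (hfm : f.Monic) (hf : Irreducible f) (e : ℕ)
    (hdvd : minpoly F M ∣ f ^ e) :
    ∃ j : ℕ, M.charpoly = f ^ j ∧ f.natDegree * j = Fintype.card ι := by
  classical
  have key : ∀ h : F[X], Irreducible h → h ∣ M.charpoly → h ∣ f := by
    intro h hh hd
    have : Fact (Irreducible h) := ⟨hh⟩
    let φ : F →ₐ[F] AdjoinRoot h := Algebra.ofId _ _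
    let γ := AdjoinRoot.root h
    have hroot : (M.map (algebraMap F (AdjoinRoot h))).charpoly.IsRoot γ := by
      obtain ⟨c, hc⟩ := hd
      rw [Matrix.charpoly_map, hc, Polynomial.map_mul, IsRoot,
        eval_mul, eval_map, AdjoinRoot.algebraMap_eq, AdjoinRoot.eval₂_root, zero_mul]
    rw [← Matrix.charpoly_toLin', ← Module.End.hasEigenvalue_iff_isRoot_charpoly] at hroot
    obtain ⟨v, hv⟩ := hroot.exists_hasEigenvector
    have h0 : aeval (M.map (algebraMap F (AdjoinRoot h))) ((f ^ e).map (algebraMap F (AdjoinRoot h))) = 0 := by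
      rw [aeval_map_algebraMap]
      have : aeval M (f ^ e) = 0 := by
        obtain ⟨c, hc⟩ := hdvd
        rw [hc, map_mul, minpoly.aeval, zero_mul]
      have h2 := aeval_algHom_apply (φ.mapMatrix (m := ι)) M (f ^ e)
      rw [this, map_zero] at h2
      exact h2
    have h1 := Module.End.aeval_apply_of_hasEigenvector (p := (f ^ e).map (algebraMap F (AdjoinRoot h))) hv
    have h3 : aeval (Matrix.toLin' (M.map (algebraMap F (AdjoinRoot h)))) ((f ^ e).map (algebraMap F (AdjoinRoot h))) = 0 := by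
      have h4 := aeval_algHom_apply (Matrix.toLinAlgEquiv' : Matrix ι ι (AdjoinRoot h) ≃ₐ[AdjoinRoot h] _).toAlgHom
        (M.map (algebraMap F (AdjoinRoot h))) ((f ^ e).map (algebraMap F (AdjoinRoot h)))
      rw [h0, map_zero] at h4
      exact h4
    rw [h3, LinearMap.zero_apply, eq_comm, smul_eq_zero, or_iff_left hv.2, eval_map,
      AdjoinRoot.algebraMap_eq] at h1
    have h5 : AdjoinRoot.mk h (f ^ e) = 0 := by
      rw [← AdjoinRoot.aeval_eq]
      rw [aeval_def, AdjoinRoot.algebraMap_eq]; exact h1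
    exact hh.prime.dvd_of_dvd_pow (AdjoinRoot.mk_eq_zero.1 h5)
  have hM := Matrix.charpoly_monic M
  obtain ⟨j, r, hr, hmr⟩ := WfDvdMonoid.max_power_factor hM.ne_zero hf
  have hr1 : IsUnit r := by
    by_contra hu
    obtain ⟨h, -, hh, hd⟩ := exists_monic_irreducible_factor r hu
    refine hr ?_
    exact ((hh.associated_of_dvd hf (key h hh (hmr ▸ hd.trans (dvd_mul_left r _)))).dvd_iff_dvd_left).1 hd
  have hrm : r.Monic := (hfm.pow j).of_mul_monic_left (hmr ▸ hM)
  rw [hrm.isUnit_iff.1 hr1, mul_one] at hmr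
  refine ⟨j, hmr, ?_⟩
  have := Matrix.charpoly_natDegree_eq_dim M
  rw [hmr, natDegree_pow] at this
  rw [mul_comm, this]

end Cfsg.Agent.Lib.GLSplit
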