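import Mathlib.RepresentationTheory.Basic
import Mathlib.LinearAlgebra.BilinearForm.Properties
import Mathlib.LinearAlgebra.Projection
import Mathlib.LinearAlgebra.Dual.Lemmas
import Mathlib.LinearAlgebra.FiniteDimensional.Lemmas
import Mathlib.Tactic.LinearCombination

/-!
# Invariant bilinear forms of a coprime group action

A module with a nondegenerate invariant form splits into a part with an alternating and a part
with a symmetric nondegenerate invariant form; in characteristic two the symmetric part can be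
taken with trivial action.
-/

set_option autoImplicit false

namespace Cfsg.Agent.Lib.InvForms

universe u v w

variable {F : Type u} [Field F] {G : Type v} [Group G] [Finite G] {V : Type w} [AddCommGroup V]
  [Module F V] [FiniteDimensional F V] {ρ : Representation F G V}

/-- An invariant submodule. -/
def Inv (ρ : Representation F G V) (Y : Submodule F V) : Prop := ∀ g, ∀ y ∈ Y, ρ g y ∈ Y

/-- A form left nondegenerate on a submodule. -/
def NondegOn (B : LinearMap.BilinForm F V) (Y : Submodule F V) : Prop :=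
  ∀ x ∈ Y, (∀ y ∈ Y, B x y = 0) → x = 0

/-- A form invariant on a submodule. -/
def InvOn (ρ : Representation F G V) (B : LinearMap.BilinForm F V) (Y : Submodule F V) : Prop :=
  ∀ g, ∀ x ∈ Y, ∀ y ∈ Y, B (ρ g x) (ρ g y) = B x y

omit [Finite G] [FiniteDimensional F V] in
theorem Inv.bot : Inv ρ ⊥ := fun g y hy => by rw [Submodule.mem_bot] at hy ⊢; rw [hy, map_zero]

omit [Finite G] [FiniteDimensional F V] in
theorem Inv.sup {P Q : Submodule F V} (hP : Inv ρ P) (hQ : Inv ρ Q) : Inv ρ (P ⊔ Q) := by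
  intro g x hx
  obtain ⟨a, ha, b, hb, rfl⟩ := Submodule.mem_sup.1 hx
  rw [map_add]
  exact Submodule.add_mem_sup (hP g a ha) (hQ g b hb)

omit [Finite G] [FiniteDimensional F V] in
theorem inv_inv_apply (g : G) (x : V) : ρ g (ρ g⁻¹ x) = x := by
  rw [← Module.End.mul_apply, ← map_mul, mul_inv_cancel, map_one]; rfl

omit [FiniteDimensional F V] in
/-- A projection onto one of two disjoint submodules killing the other. -/
theorem exists_proj {P Q : Submodule F V} (h : Disjoint P Q) :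
    ∃ π : V →ₗ[F] V, (∀ x ∈ P, π x = x) ∧ ∀ x ∈ Q, π x = 0 := by
  obtain ⟨C, hC⟩ := Submodule.exists_isCompl (P ⊔ Q)
  have hPQ : IsCompl P (Q ⊔ C) := by
    refine ⟨?_, ?_⟩
    · exact h.disjoint_sup_right_of_disjoint_sup_left hC.disjoint
    · rw [codisjoint_iff, ← sup_assoc]
      exact hC.sup_eq_top
  refine ⟨P.projection (Q ⊔ C) hPQ, fun x hx => ?_, fun x hx => ?_⟩
  · exact Submodule.projection_apply_left hPQ ⟨x, hx⟩
  · exact (Submodule.projection_apply_eq_zero_iff hPQ).2 (Submodule.mem_sup_left hx)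

omit [FiniteDimensional F V] in
/-- Maschke: an invariant submodule has an invariant complement inside an invariant submodule. -/
theorem exists_compl (hG : (Nat.card G : F) ≠ 0) {R Y : Submodule F V} (hR : Inv ρ R) (hY : Inv ρ Y)
    (hRY : R ≤ Y) : ∃ C, Inv ρ C ∧ C ≤ Y ∧ Disjoint C R ∧ C ⊔ R = Y := by
  classical
  have := Fintype.ofFinite G
  obtain ⟨π₀, h1, -⟩ := exists_proj (P := R) (Q := ⊥) disjoint_bot_right
  obtain ⟨Q, hQ⟩ := Submodule.exists_isCompl R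
  let π₁ : V →ₗ[F] V := R.projection Q hQ
  have hπ₁R : ∀ x, π₁ x ∈ R := fun x => Submodule.projection_apply_mem hQ x
  have hπ₁ : ∀ x ∈ R, π₁ x = x := fun x hx => Submodule.projection_apply_left hQ ⟨x, hx⟩
  let π : V →ₗ[F] V := (Nat.card G : F)⁻¹ • ∑ g : G, (ρ g).comp (π₁.comp (ρ g⁻¹))
  have hπR : ∀ x, π x ∈ R := fun x => by
    simp only [π, LinearMap.smul_apply, LinearMap.sum_apply, LinearMap.comp_apply]
    exact R.smul_mem _ (R.sum_mem fun g _ => hR g _ (hπ₁R _))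
  have hπ : ∀ x ∈ R, π x = x := fun x hx => by
    simp only [π, LinearMap.smul_apply, LinearMap.sum_apply, LinearMap.comp_apply]
    rw [Finset.sum_congr rfl fun g _ => by rw [hπ₁ _ (hR g⁻¹ x hx), inv_inv_apply],
      Finset.sum_const, Finset.card_univ, ← Nat.card_eq_fintype_card, ← Nat.cast_smul_eq_nsmul F,
      smul_smul, inv_mul_cancel₀ hG, one_smul]
  have hcomm : ∀ h x, π (ρ h x) = ρ h (π x) := fun h x => by
    simp only [π, LinearMap.smul_apply, LinearMap.sum_apply, LinearMap.comp_apply, map_smul, map_sum]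
    congr 1
    refine (Fintype.sum_equiv (Equiv.mulLeft h) _ _ fun g => ?_).symm
    simp only [Equiv.coe_mulLeft, mul_inv_rev, map_mul, Module.End.mul_apply]
    rw [← Module.End.mul_apply (ρ h⁻¹), ← map_mul, inv_mul_cancel, map_one]
    rfl
  refine ⟨LinearMap.ker π ⊓ Y, fun g x hx => ⟨?_, hY g x hx.2⟩, inf_le_right, ?_, ?_⟩
  · rw [SetLike.mem_coe, LinearMap.mem_ker, hcomm, LinearMap.mem_ker.1 hx.1, map_zero]
  · rw [Submodule.disjoint_def]
    intro x hx hxR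
    rw [← hπ x hxR]
    exact LinearMap.mem_ker.1 hx.1
  · refine le_antisymm (sup_le inf_le_right hRY) fun y hy => ?_
    have : y = (y - π y) + π y := by abel
    rw [this]
    refine Submodule.add_mem_sup ⟨?_, Y.sub_mem hy (hRY (hπR y))⟩ (hπR y)
    rw [SetLike.mem_coe, LinearMap.mem_ker, map_sub, hπ _ (hπR y), sub_self]

omit [Finite G] in
theorem exists_minimal {Y : Submodule F V} (hY : Inv ρ Y) (h0 : Y ≠ ⊥) :
    ∃ W, W ≠ ⊥ ∧ Inv ρ W ∧ W ≤ Y ∧ ∀ U, Inv ρ U → U ≤ W → U = ⊥ ∨ U = W := by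
  classical
  have hex : ∃ k, ∃ W : Submodule F V, W ≠ ⊥ ∧ Inv ρ W ∧ W ≤ Y ∧ Module.finrank F W = k :=
    ⟨_, Y, h0, hY, le_rfl, rfl⟩
  obtain ⟨W, hW0, hW, hWY, hk⟩ := Nat.find_spec hex
  refine ⟨W, hW0, hW, hWY, fun U hU hUW => or_iff_not_imp_left.2 fun hU0 => ?_⟩
  exact Submodule.eq_of_le_of_finrank_le hUW
    (by rw [hk]; exact Nat.find_min' hex ⟨U, hU0, hU, hUW.trans hWY, rfl⟩)

/-- A left nondegenerate form represents every functional on both sides. -/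
theorem exists_rep {B : LinearMap.BilinForm F V} {H : Submodule F V} (h : NondegOn B H) :
    (∀ x ∈ H, (∀ y ∈ H, B y x = 0) → x = 0) ∧
    (∀ ψ : V →ₗ[F] F, ∃ h₀ ∈ H, ∀ x ∈ H, B h₀ x = ψ x) ∧
    ∀ ψ : V →ₗ[F] F, ∃ h₀ ∈ H, ∀ x ∈ H, B x h₀ = ψ x := by
  let T : H →ₗ[F] Module.Dual F H := (B.compl₁₂ H.subtype H.subtype)
  have hT : ∀ a b : H, T a b = B (a : V) (b : V) := fun a b => rfl
  have hinj : Function.Injective T := by
    rw [injective_iff_map_eq_zero]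
    intro a ha
    exact Subtype.ext (h a a.2 fun y hy => by rw [← hT a ⟨y, hy⟩, ha]; rfl)
  have hsurj : Function.Surjective T :=
    (LinearMap.injective_iff_surjective_of_finrank_eq_finrank Subspace.dual_finrank_eq.symm).1 hinj
  have hinj' : Function.Injective T.flip := by
    rw [injective_iff_map_eq_zero]
    intro b hb
    refine (Module.forall_dual_apply_eq_zero_iff F b).1 fun φ => ?_
    obtain ⟨a, rfl⟩ := hsurj φ
    exact LinearMap.congr_fun hb a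
  have hsurj' : Function.Surjective T.flip :=
    (LinearMap.injective_iff_surjective_of_finrank_eq_finrank Subspace.dual_finrank_eq.symm).1 hinj'
  refine ⟨fun x hx hy => ?_, fun ψ => ?_, fun ψ => ?_⟩
  · have h1 : T.flip ⟨x, hx⟩ = 0 := LinearMap.ext fun y => hy y y.2
    rw [← map_zero T.flip] at h1
    exact congrArg Subtype.val (hinj' h1)
  · obtain ⟨a, ha⟩ := hsurj (ψ.comp H.subtype)
    exact ⟨a, a.2, fun x hx => LinearMap.congr_fun ha ⟨x, hx⟩⟩
  · obtain ⟨a, ha⟩ := hsurj' (ψ.comp H.subtype)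
    exact ⟨a, a.2, fun x hx => LinearMap.congr_fun ha ⟨x, hx⟩⟩

omit [Finite G] in
/-- Splitting off a nondegenerate invariant submodule. -/
theorem exists_split {B : LinearMap.BilinForm F V} {H Y : Submodule F V} (hH : Inv ρ H)
    (hY : Inv ρ Y) (hHY : H ≤ Y) (hinv : InvOn ρ B Y) (hnH : NondegOn B H) (hnY : NondegOn B Y) :
    ∃ Y', Inv ρ Y' ∧ Y' ≤ Y ∧ Disjoint H Y' ∧ H ⊔ Y' = Y ∧ NondegOn B Y' := by
  obtain ⟨hright, hrepl, hrepr⟩ := exists_rep hnH
  let Y' : Submodule F V :=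
    { carrier := {y | y ∈ Y ∧ ∀ h ∈ H, B h y = 0}
      add_mem' := fun {a b} ha hb =>
        ⟨Y.add_mem ha.1 hb.1, fun h hh => by rw [map_add, ha.2 h hh, hb.2 h hh, add_zero]⟩
      zero_mem' := ⟨Y.zero_mem, fun h _ => map_zero _⟩
      smul_mem' := fun c a ha =>
        ⟨Y.smul_mem c ha.1, fun h hh => by rw [map_smul, ha.2 h hh, smul_zero]⟩ }
  have hsup : H ⊔ Y' = Y := by
    refine le_antisymm (sup_le hHY fun y hy => hy.1) fun y hy => ?_
    obtain ⟨h₀, hh₀, he⟩ := hrepr (B.flip y)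
    rw [show y = h₀ + (y - h₀) by abel]
    refine Submodule.add_mem_sup hh₀ ⟨Y.sub_mem hy (hHY hh₀), fun h hh => ?_⟩
    rw [map_sub, he h hh]
    exact sub_self _
  refine ⟨Y', fun g y hy => ⟨hY g y hy.1, fun h hh => ?_⟩, fun y hy => hy.1, ?_, hsup, ?_⟩
  · conv_lhs => rw [← inv_inv_apply (ρ := ρ) g h]
    rw [hinv g _ (hY g⁻¹ h (hHY hh)) y hy.1]
    exact hy.2 _ (hH g⁻¹ h hh)
  · rw [Submodule.disjoint_def]
    exact fun x hxH hxY => hright x hxH fun h hh => hxY.2 h hh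
  · intro y' hy' h0
    obtain ⟨w₀, hw₀, he⟩ := hrepl (B y')
    have hz : y' - w₀ = 0 := by
      refine hnY _ (Y.sub_mem hy'.1 (hHY hw₀)) fun z hz => ?_
      rw [← hsup] at hz
      obtain ⟨a, ha, b, hb, rfl⟩ := Submodule.mem_sup.1 hz
      simp [he a ha, h0 b hb, hb.2 w₀ hw₀]
    exact hright y' (sub_eq_zero.1 hz ▸ hw₀) fun h hh => hy'.2 h hh

variable (ρ) in
/-- A decomposition into an alternating and a symmetric part. -/
def Good (Y : Submodule F V) : Prop :=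
  ∃ (U W : Submodule F V) (A S : LinearMap.BilinForm F V),
    Inv ρ U ∧ Inv ρ W ∧ U ≤ Y ∧ W ≤ Y ∧ Disjoint U W ∧ U ⊔ W = Y ∧
    (∀ x ∈ U, A x x = 0) ∧ InvOn ρ A U ∧ NondegOn A U ∧
    (∀ x ∈ W, ∀ y ∈ W, S x y = S y x) ∧ InvOn ρ S W ∧ NondegOn S W ∧
    ((2 : F) = 0 → ∀ g, ∀ w ∈ W, ρ g w = w)

omit [Finite G] [FiniteDimensional F V] in
theorem good_of_alt {H : Submodule F V} (hH : Inv ρ H) (A : LinearMap.BilinForm F V)
    (h1 : ∀ x ∈ H, A x x = 0) (h2 : InvOn ρ A H) (h3 : NondegOn A H) : Good ρ H :=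
  ⟨H, ⊥, A, 0, hH, Inv.bot, le_rfl, bot_le, disjoint_bot_right, sup_bot_eq H, h1, h2, h3,
    fun _ _ _ _ => rfl, fun _ _ _ _ _ => rfl,
    fun x hx _ => (Submodule.mem_bot F).1 hx, fun _ g w hw => by
      rw [(Submodule.mem_bot F).1 hw, map_zero]⟩

omit [Finite G] [FiniteDimensional F V] in
theorem good_of_minimal {H : Submodule F V} (hH : Inv ρ H)
    (hmin : ∀ U, Inv ρ U → U ≤ H → U = ⊥ ∨ U = H) {B : LinearMap.BilinForm F V}
    (hinv : InvOn ρ B H) (hn : NondegOn B H) : Good ρ H := by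
  have hsym : ∀ {C : LinearMap.BilinForm F V}, InvOn ρ C H →
      NondegOn C H ∨ ∀ x ∈ H, ∀ y ∈ H, C x y = 0 := by
    intro C hC
    let K : Submodule F V :=
      { carrier := {x | x ∈ H ∧ ∀ y ∈ H, C x y = 0}
        add_mem' := fun {a b} ha hb => ⟨H.add_mem ha.1 hb.1, fun y hy => by
          rw [map_add, LinearMap.add_apply, ha.2 y hy, hb.2 y hy, add_zero]⟩
        zero_mem' := ⟨H.zero_mem, fun y _ => by simp⟩
        smul_mem' := fun c a ha => ⟨H.smul_mem c ha.1, fun y hy => by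
          rw [map_smul, LinearMap.smul_apply, ha.2 y hy, smul_zero]⟩ }
    have hK : Inv ρ K := fun g x hx => ⟨hH g x hx.1, fun y hy => by
      rw [← inv_inv_apply (ρ := ρ) g y, hC g x hx.1 _ (hH g⁻¹ y hy)]
      exact hx.2 _ (hH g⁻¹ y hy)⟩
    rcases hmin K hK (fun x hx => hx.1) with h | h
    · left
      intro x hx h0
      exact (Submodule.mem_bot F).1 (h ▸ (⟨hx, h0⟩ : x ∈ K))
    · right
      intro x hx
      exact (h.symm ▸ hx : x ∈ K).2
  let S : LinearMap.BilinForm F V := B + B.flip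
  have hSapp : ∀ x y, S x y = B x y + B y x := fun x y => rfl
  have hSinv : InvOn ρ S H := fun g x hx y hy => by
    rw [hSapp, hSapp, hinv g x hx y hy, hinv g y hy x hx]
  rcases hsym hSinv with hS | hS
  · by_cases h2 : (2 : F) = 0
    · refine good_of_alt hH S (fun x hx => ?_) hSinv hS
      rw [hSapp, ← two_mul, h2, zero_mul]
    · exact ⟨⊥, H, 0, S, Inv.bot, hH, bot_le, le_rfl, disjoint_bot_left, bot_sup_eq H,
        fun x _ => rfl, fun _ _ _ _ _ => rfl, fun x hx _ => (Submodule.mem_bot F).1 hx,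
        fun x _ y _ => by rw [hSapp, hSapp, add_comm], hSinv, hS, fun h => absurd h h2⟩
  · have hskew : ∀ x ∈ H, ∀ y ∈ H, B x y + B y x = 0 := fun x hx y hy => hS x hx y hy
    by_cases h2 : (2 : F) = 0
    · have hsymm : ∀ x ∈ H, ∀ y ∈ H, B x y = B y x := fun x hx y hy => by
        have h := hskew x hx y hy
        linear_combination h - B y x * h2
      let K : Submodule F V :=
        { carrier := {x | x ∈ H ∧ B x x = 0}
          add_mem' := fun {a b} ha hb => ⟨H.add_mem ha.1 hb.1, by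
            simp only [map_add, LinearMap.add_apply, ha.2, hb.2, add_zero, zero_add]
            rw [add_comm]
            exact hskew a ha.1 b hb.1⟩
          zero_mem' := ⟨H.zero_mem, by simp⟩
          smul_mem' := fun c a ha => ⟨H.smul_mem c ha.1, by simp [ha.2]⟩ }
      have hK : Inv ρ K := fun g x hx => ⟨hH g x hx.1, by rw [hinv g x hx.1 x hx.1]; exact hx.2⟩
      rcases hmin K hK (fun x hx => hx.1) with h | h
      · refine ⟨⊥, H, 0, B, Inv.bot, hH, bot_le, le_rfl, disjoint_bot_left, bot_sup_eq H,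
          fun x _ => rfl, fun _ _ _ _ _ => rfl, fun x hx _ => (Submodule.mem_bot F).1 hx,
          hsymm, hinv, hn, fun _ g w hw => ?_⟩
        have hmem : ρ g w - w ∈ K := ⟨H.sub_mem (hH g w hw) hw, by
          simp only [map_sub, LinearMap.sub_apply, hinv g w hw w hw, hsymm w hw _ (hH g w hw)]
          linear_combination (B w w - B (ρ g w) w) * h2⟩
        rw [h, Submodule.mem_bot] at hmem
        exact sub_eq_zero.1 hmem
      · exact good_of_alt hH B (fun x hx => (h.symm ▸ hx : x ∈ K).2) hinv hn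
    · refine good_of_alt hH B (fun x hx => ?_) hinv hn
      have h := hskew x hx x hx
      rw [← two_mul] at h
      exact (mul_eq_zero.1 h).resolve_left h2

omit [Finite G] [FiniteDimensional F V] in
/-- The hyperbolic piece. -/
theorem good_of_pairing {P Q : Submodule F V} (hP : Inv ρ P) (hQ : Inv ρ Q) (hd : Disjoint P Q)
    {B : LinearMap.BilinForm F V} (hinv : InvOn ρ B (P ⊔ Q))
    (hl : ∀ x ∈ P, (∀ y ∈ Q, B x y = 0) → x = 0) (hr : ∀ y ∈ Q, (∀ x ∈ P, B x y = 0) → y = 0) :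
    Good ρ (P ⊔ Q) := by
  obtain ⟨π, hπ1, hπ2⟩ := exists_proj hd
  obtain ⟨σ, hσ1, hσ2⟩ := exists_proj hd.symm
  let C : LinearMap.BilinForm F V := B.compl₁₂ π σ
  have hC : ∀ a ∈ P, ∀ b ∈ Q, ∀ a' ∈ P, ∀ b' ∈ Q, C (a + b) (a' + b') = B a b' := by
    intro a ha b hb a' ha' b' hb'
    show B (π (a + b)) (σ (a' + b')) = _
    rw [show π (a + b) = a by rw [map_add, hπ1 a ha, hπ2 b hb, add_zero],
      show σ (a' + b') = b' by rw [map_add, hσ2 a' ha', hσ1 b' hb', zero_add]]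
  refine good_of_alt (hP.sup hQ) (C - C.flip) (fun x _ => by simp) ?_ ?_
  · intro g x hx y hy
    obtain ⟨a, ha, b, hb, rfl⟩ := Submodule.mem_sup.1 hx
    obtain ⟨a', ha', b', hb', rfl⟩ := Submodule.mem_sup.1 hy
    show C (ρ g (a + b)) (ρ g (a' + b')) - C (ρ g (a' + b')) (ρ g (a + b)) =
      C (a + b) (a' + b') - C (a' + b') (a + b)
    rw [(ρ g).map_add a b, (ρ g).map_add a' b', hC _ (hP g a ha) _ (hQ g b hb) _ (hP g a' ha') _ (hQ g b' hb'),
      hC _ (hP g a' ha') _ (hQ g b' hb') _ (hP g a ha) _ (hQ g b hb),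
      hC a ha b hb a' ha' b' hb', hC a' ha' b' hb' a ha b hb,
      hinv g a (Submodule.mem_sup_left ha) b' (Submodule.mem_sup_right hb'),
      hinv g a' (Submodule.mem_sup_left ha') b (Submodule.mem_sup_right hb)]
  · intro x hx h0
    obtain ⟨a, ha, b, hb, rfl⟩ := Submodule.mem_sup.1 hx
    have ha0 : a = 0 := hl a ha fun y hy => by
      have h : C (a + b) (0 + y) - C (0 + y) (a + b) = 0 :=
        h0 (0 + y) (Submodule.add_mem_sup P.zero_mem hy)
      rw [hC a ha b hb 0 P.zero_mem y hy, hC 0 P.zero_mem y hy a ha b hb] at h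
      simpa using h
    have hb0 : b = 0 := hr b hb fun z hz => by
      have h : C (a + b) (z + 0) - C (z + 0) (a + b) = 0 :=
        h0 (z + 0) (Submodule.add_mem_sup hz Q.zero_mem)
      rw [hC a ha b hb z hz 0 Q.zero_mem, hC z hz 0 Q.zero_mem a ha b hb] at h
      simpa using h
    rw [ha0, hb0, add_zero]

omit [Finite G] [FiniteDimensional F V] in
theorem Good.sup {H K : Submodule F V} (hd : Disjoint H K) (h1 : Good ρ H) (h2 : Good ρ K) :
    Good ρ (H ⊔ K) := by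
  obtain ⟨U₁, W₁, A₁, S₁, hU₁, hW₁, hU₁H, hW₁H, hd₁, hs₁, hA₁a, hA₁i, hA₁n, hS₁s, hS₁i, hS₁n, ht₁⟩ := h1
  obtain ⟨U₂, W₂, A₂, S₂, hU₂, hW₂, hU₂H, hW₂H, hd₂, hs₂, hA₂a, hA₂i, hA₂n, hS₂s, hS₂i, hS₂n, ht₂⟩ := h2
  have hdU : Disjoint U₁ U₂ := hd.mono hU₁H hU₂H
  have hdW : Disjoint W₁ W₂ := hd.mono hW₁H hW₂H
  obtain ⟨π₁, h11, h12⟩ := exists_proj hdU
  obtain ⟨π₂, h22, h21⟩ := exists_proj hdU.symm
  obtain ⟨σ₁, k11, k12⟩ := exists_proj hdW
  obtain ⟨σ₂, k22, k21⟩ := exists_proj hdW.symm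
  have hA : ∀ a ∈ U₁, ∀ b ∈ U₂, ∀ a' ∈ U₁, ∀ b' ∈ U₂,
      (A₁.compl₁₂ π₁ π₁ + A₂.compl₁₂ π₂ π₂) (a + b) (a' + b') = A₁ a a' + A₂ b b' := by
    intro a ha b hb a' ha' b' hb'
    simp [h11 a ha, h11 a' ha', h12 b hb, h12 b' hb', h21 a ha, h21 a' ha', h22 b hb, h22 b' hb']
  have hS : ∀ a ∈ W₁, ∀ b ∈ W₂, ∀ a' ∈ W₁, ∀ b' ∈ W₂,
      (S₁.compl₁₂ σ₁ σ₁ + S₂.compl₁₂ σ₂ σ₂) (a + b) (a' + b') = S₁ a a' + S₂ b b' := by
    intro a ha b hb a' ha' b' hb'
    simp [k11 a ha, k11 a' ha', k12 b hb, k12 b' hb', k21 a ha, k21 a' ha', k22 b hb, k22 b' hb']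
  refine ⟨U₁ ⊔ U₂, W₁ ⊔ W₂, A₁.compl₁₂ π₁ π₁ + A₂.compl₁₂ π₂ π₂,
    S₁.compl₁₂ σ₁ σ₁ + S₂.compl₁₂ σ₂ σ₂, hU₁.sup hU₂, hW₁.sup hW₂, sup_le_sup hU₁H hU₂H,
    sup_le_sup hW₁H hW₂H, ?_, ?_, ?_, ?_, ?_, ?_, ?_, ?_, ?_⟩
  · rw [Submodule.disjoint_def]
    intro x hx hx'
    obtain ⟨a, ha, b, hb, rfl⟩ := Submodule.mem_sup.1 hx
    obtain ⟨c, hc, d, hd', he⟩ := Submodule.mem_sup.1 hx'
    have e : a - c = d - b := by
      rw [sub_eq_sub_iff_add_eq_add, ← he, add_comm]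
    have h0 : a - c = 0 := Submodule.disjoint_def.1 hd _ (H.sub_mem (hU₁H ha) (hW₁H hc))
      (e ▸ K.sub_mem (hW₂H hd') (hU₂H hb))
    have h0' : d - b = 0 := e ▸ h0
    rw [Submodule.disjoint_def.1 hd₁ a ha (sub_eq_zero.1 h0 ▸ hc),
      Submodule.disjoint_def.1 hd₂ b hb (sub_eq_zero.1 h0' ▸ hd'), add_zero]
  · rw [sup_sup_sup_comm, hs₁, hs₂]
  · intro x hx
    obtain ⟨a, ha, b, hb, rfl⟩ := Submodule.mem_sup.1 hx
    rw [hA a ha b hb a ha b hb, hA₁a a ha, hA₂a b hb, add_zero]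
  · intro g x hx y hy
    obtain ⟨a, ha, b, hb, rfl⟩ := Submodule.mem_sup.1 hx
    obtain ⟨a', ha', b', hb', rfl⟩ := Submodule.mem_sup.1 hy
    rw [(ρ g).map_add a b, (ρ g).map_add a' b', hA _ (hU₁ g a ha) _ (hU₂ g b hb) _ (hU₁ g a' ha') _ (hU₂ g b' hb'),
      hA₁i g a ha a' ha', hA₂i g b hb b' hb', hA a ha b hb a' ha' b' hb']
  · intro x hx h0
    obtain ⟨a, ha, b, hb, rfl⟩ := Submodule.mem_sup.1 hx
    have e1 : a = 0 := hA₁n a ha fun y hy => by
      have h := h0 (y + 0) (Submodule.add_mem_sup hy U₂.zero_mem)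
      rw [hA a ha b hb y hy 0 U₂.zero_mem] at h
      simpa using h
    have e2 : b = 0 := hA₂n b hb fun y hy => by
      have h := h0 (0 + y) (Submodule.add_mem_sup U₁.zero_mem hy)
      rw [hA a ha b hb 0 U₁.zero_mem y hy] at h
      simpa using h
    rw [e1, e2, add_zero]
  · intro x hx y hy
    obtain ⟨a, ha, b, hb, rfl⟩ := Submodule.mem_sup.1 hx
    obtain ⟨a', ha', b', hb', rfl⟩ := Submodule.mem_sup.1 hy
    rw [hS a ha b hb a' ha' b' hb', hS a' ha' b' hb' a ha b hb, hS₁s a ha a' ha', hS₂s b hb b' hb']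
  · intro g x hx y hy
    obtain ⟨a, ha, b, hb, rfl⟩ := Submodule.mem_sup.1 hx
    obtain ⟨a', ha', b', hb', rfl⟩ := Submodule.mem_sup.1 hy
    rw [(ρ g).map_add a b, (ρ g).map_add a' b', hS _ (hW₁ g a ha) _ (hW₂ g b hb) _ (hW₁ g a' ha') _ (hW₂ g b' hb'),
      hS₁i g a ha a' ha', hS₂i g b hb b' hb', hS a ha b hb a' ha' b' hb']
  · intro x hx h0
    obtain ⟨a, ha, b, hb, rfl⟩ := Submodule.mem_sup.1 hx
    have e1 : a = 0 := hS₁n a ha fun y hy => by
      have h := h0 (y + 0) (Submodule.add_mem_sup hy W₂.zero_mem)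
      rw [hS a ha b hb y hy 0 W₂.zero_mem] at h
      simpa using h
    have e2 : b = 0 := hS₂n b hb fun y hy => by
      have h := h0 (0 + y) (Submodule.add_mem_sup W₁.zero_mem hy)
      rw [hS a ha b hb 0 W₁.zero_mem y hy] at h
      simpa using h
    rw [e1, e2, add_zero]
  · intro h g x hx
    obtain ⟨a, ha, b, hb, rfl⟩ := Submodule.mem_sup.1 hx
    rw [map_add, ht₁ h g a ha, ht₂ h g b hb]

/-- Every invariant submodule with an invariant nondegenerate form splits. -/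
theorem good_of_form (hG : (Nat.card G : F) ≠ 0) {B : LinearMap.BilinForm F V} :
    ∀ Y : Submodule F V, Inv ρ Y → InvOn ρ B Y → NondegOn B Y → Good ρ Y := by
  intro Y
  induction hd : Module.finrank F Y using Nat.strong_induction_on generalizing Y with
  | _ k ih =>
  intro hY hinv hn
  subst hd
  by_cases h0 : Y = ⊥
  · subst h0
    exact good_of_alt Inv.bot 0 (fun x _ => rfl) (fun _ _ _ _ _ => rfl)
      (fun x hx _ => (Submodule.mem_bot F).1 hx)
  obtain ⟨W₁, hW0, hW, hWY, hWmin⟩ := exists_minimal hY h0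
  suffices hex : ∃ H, H ≠ ⊥ ∧ Inv ρ H ∧ H ≤ Y ∧ Good ρ H ∧ NondegOn B H by
    obtain ⟨H, hH0, hH, hHY, hgood, hnH⟩ := hex
    obtain ⟨Y', hY', hY'Y, hd, hs, hnY'⟩ := exists_split hH hY hHY hinv hnH hn
    rw [← hs]
    refine hgood.sup hd (ih _ ?_ Y' rfl hY' (fun g x hx y hy => hinv g x (hY'Y hx) y (hY'Y hy)) hnY')
    refine Submodule.finrank_lt_finrank_of_lt (lt_of_le_of_ne hY'Y fun he => hH0 ?_)
    exact disjoint_self.1 (hd.mono_right (he ▸ hHY))
  have hinvW : InvOn ρ B W₁ := fun g x hx y hy => hinv g x (hWY hx) y (hWY hy)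
  by_cases hnW : NondegOn B W₁
  · exact ⟨W₁, hW0, hW, hWY, good_of_minimal hW hWmin hinvW hnW, hnW⟩
  have hiso : ∀ x ∈ W₁, ∀ y ∈ W₁, B x y = 0 := by
    let K : Submodule F V :=
      { carrier := {x | x ∈ W₁ ∧ ∀ y ∈ W₁, B x y = 0}
        add_mem' := fun {a b} ha hb => ⟨W₁.add_mem ha.1 hb.1, fun y hy => by
          rw [map_add, LinearMap.add_apply, ha.2 y hy, hb.2 y hy, add_zero]⟩
        zero_mem' := ⟨W₁.zero_mem, fun y _ => by simp⟩
        smul_mem' := fun c a ha => ⟨W₁.smul_mem c ha.1, fun y hy => by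
          rw [map_smul, LinearMap.smul_apply, ha.2 y hy, smul_zero]⟩ }
    have hK : Inv ρ K := fun g x hx => ⟨hW g x hx.1, fun y hy => by
      rw [← inv_inv_apply (ρ := ρ) g y, hinvW g x hx.1 _ (hW g⁻¹ y hy)]
      exact hx.2 _ (hW g⁻¹ y hy)⟩
    rcases hWmin K hK (fun x hx => hx.1) with h | h
    · refine absurd (fun x hx h0' => ?_) hnW
      exact (Submodule.mem_bot F).1 (h ▸ (⟨hx, h0'⟩ : x ∈ K))
    · intro x hx
      exact (h.symm ▸ hx : x ∈ K).2
  let R : Submodule F V :=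
    { carrier := {y | y ∈ Y ∧ ∀ w ∈ W₁, B w y = 0}
      add_mem' := fun {a b} ha hb => ⟨Y.add_mem ha.1 hb.1, fun w hw => by
        rw [map_add, ha.2 w hw, hb.2 w hw, add_zero]⟩
      zero_mem' := ⟨Y.zero_mem, fun w _ => map_zero _⟩
      smul_mem' := fun c a ha => ⟨Y.smul_mem c ha.1, fun w hw => by
        rw [map_smul, ha.2 w hw, smul_zero]⟩ }
  let L : Submodule F V :=
    { carrier := {y | y ∈ Y ∧ ∀ w ∈ W₁, B y w = 0}
      add_mem' := fun {a b} ha hb => ⟨Y.add_mem ha.1 hb.1, fun w hw => by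
        rw [map_add, LinearMap.add_apply, ha.2 w hw, hb.2 w hw, add_zero]⟩
      zero_mem' := ⟨Y.zero_mem, fun w _ => by simp⟩
      smul_mem' := fun c a ha => ⟨Y.smul_mem c ha.1, fun w hw => by
        rw [map_smul, LinearMap.smul_apply, ha.2 w hw, smul_zero]⟩ }
  have hR : Inv ρ R := fun g x hx => ⟨hY g x hx.1, fun w hw => by
    rw [← inv_inv_apply (ρ := ρ) g w, hinv g _ (hY g⁻¹ w (hWY hw)) x hx.1]
    exact hx.2 _ (hW g⁻¹ w hw)⟩
  have hL : Inv ρ L := fun g x hx => ⟨hY g x hx.1, fun w hw => by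
    rw [← inv_inv_apply (ρ := ρ) g w, hinv g x hx.1 _ (hY g⁻¹ w (hWY hw))]
    exact hx.2 _ (hW g⁻¹ w hw)⟩
  obtain ⟨w₁, hw₁, hw₁0⟩ := Submodule.exists_mem_ne_zero_of_ne_bot hW0
  -- minimal submodules avoiding `R` and `L`
  have pick : ∀ T : Submodule F V, Inv ρ T → T ≤ Y → T ≠ Y →
      ∃ W₂, W₂ ≠ ⊥ ∧ Inv ρ W₂ ∧ W₂ ≤ Y ∧ Disjoint W₂ T ∧
        ∀ U, Inv ρ U → U ≤ W₂ → U = ⊥ ∨ U = W₂ := by
    intro T hT hTY hne
    obtain ⟨C, hC, hCY, hCd, hCs⟩ := exists_compl hG hT hY hTY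
    obtain ⟨W₂, h0', hW₂, hle, hmin₂⟩ := exists_minimal hC (fun h => hne (by rw [← hCs, h, bot_sup_eq]))
    exact ⟨W₂, h0', hW₂, hle.trans hCY, hCd.mono_left hle, hmin₂⟩
  obtain ⟨W₂, hW20, hW2, hW2Y, hW2R, hW2min⟩ := pick R hR (fun y hy => hy.1) fun he =>
    hw₁0 (hn w₁ (hWY hw₁) fun y hy => (he.symm ▸ hy : y ∈ R).2 w₁ hw₁)
  obtain ⟨W₂', hW20', hW2', hW2Y', hW2L, hW2min'⟩ := pick L hL (fun y hy => hy.1) fun he =>
    hw₁0 ((exists_rep hn).1 w₁ (hWY hw₁) fun y hy => (he.symm ▸ hy : y ∈ L).2 w₁ hw₁)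
  -- left kernels of the pairings
  have hl2 : ∀ x ∈ W₁, (∀ y ∈ W₂, B x y = 0) → x = 0 := by
    let K : Submodule F V :=
      { carrier := {x | x ∈ W₁ ∧ ∀ y ∈ W₂, B x y = 0}
        add_mem' := fun {a b} ha hb => ⟨W₁.add_mem ha.1 hb.1, fun y hy => by
          rw [map_add, LinearMap.add_apply, ha.2 y hy, hb.2 y hy, add_zero]⟩
        zero_mem' := ⟨W₁.zero_mem, fun y _ => by simp⟩
        smul_mem' := fun c a ha => ⟨W₁.smul_mem c ha.1, fun y hy => by
          rw [map_smul, LinearMap.smul_apply, ha.2 y hy, smul_zero]⟩ }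
    have hK : Inv ρ K := fun g x hx => ⟨hW g x hx.1, fun y hy => by
      rw [← inv_inv_apply (ρ := ρ) g y, hinv g x (hWY hx.1) _ (hY g⁻¹ y (hW2Y hy))]
      exact hx.2 _ (hW2 g⁻¹ y hy)⟩
    rcases hWmin K hK (fun x hx => hx.1) with h | h
    · intro x hx h0'
      exact (Submodule.mem_bot F).1 (h ▸ (⟨hx, h0'⟩ : x ∈ K))
    · exfalso
      refine hW20 (disjoint_self.1 (hW2R.mono_right (show W₂ ≤ R from fun y hy => ⟨hW2Y hy, fun w hw => ?_⟩)))
      exact (h.symm ▸ hw : w ∈ K).2 y hy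
  have hl2' : ∀ x ∈ W₁, (∀ y ∈ W₂', B y x = 0) → x = 0 := by
    let K : Submodule F V :=
      { carrier := {x | x ∈ W₁ ∧ ∀ y ∈ W₂', B y x = 0}
        add_mem' := fun {a b} ha hb => ⟨W₁.add_mem ha.1 hb.1, fun y hy => by
          rw [map_add, ha.2 y hy, hb.2 y hy, add_zero]⟩
        zero_mem' := ⟨W₁.zero_mem, fun y _ => map_zero _⟩
        smul_mem' := fun c a ha => ⟨W₁.smul_mem c ha.1, fun y hy => by
          rw [map_smul, ha.2 y hy, smul_zero]⟩ }
    have hK : Inv ρ K := fun g x hx => ⟨hW g x hx.1, fun y hy => by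
      rw [← inv_inv_apply (ρ := ρ) g y, hinv g _ (hY g⁻¹ y (hW2Y' hy)) x (hWY hx.1)]
      exact hx.2 _ (hW2' g⁻¹ y hy)⟩
    rcases hWmin K hK (fun x hx => hx.1) with h | h
    · intro x hx h0'
      exact (Submodule.mem_bot F).1 (h ▸ (⟨hx, h0'⟩ : x ∈ K))
    · exfalso
      refine hW20' (disjoint_self.1 (hW2L.mono_right (show W₂' ≤ L from fun y hy => ⟨hW2Y' hy, fun w hw => ?_⟩)))
      exact (h.symm ▸ hw : w ∈ K).2 y hy
  -- a partner avoiding both
  suffices hW3 : ∃ W₃, Inv ρ W₃ ∧ W₃ ≤ Y ∧ (∀ x ∈ W₁, (∀ y ∈ W₃, B x y = 0) → x = 0) ∧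
      (∀ y ∈ W₃, (∀ x ∈ W₁, B x y = 0) → y = 0) ∧ (∀ y ∈ W₃, (∀ x ∈ W₁, B y x = 0) → y = 0) by
    obtain ⟨W₃, h3, h3Y, h3a, h3b, h3c⟩ := hW3
    have hd : Disjoint W₁ W₃ := Submodule.disjoint_def.2 fun x hx hx3 =>
      h3b x hx3 fun w hw => hiso w hw x hx
    refine ⟨W₁ ⊔ W₃, fun h => hW0 (eq_bot_iff.2 (h ▸ le_sup_left)), hW.sup h3, sup_le hWY h3Y,
      good_of_pairing hW h3 hd (fun g x hx y hy =>
        hinv g x (sup_le hWY h3Y hx) y (sup_le hWY h3Y hy)) h3a h3b, ?_⟩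
    intro z hz hzero
    obtain ⟨a, ha, b, hb, rfl⟩ := Submodule.mem_sup.1 hz
    have hb0 : b = 0 := h3c b hb fun x hx => by
      have h := hzero x (Submodule.mem_sup_left hx)
      rwa [map_add, LinearMap.add_apply, hiso a ha x hx, zero_add] at h
    subst hb0
    rw [add_zero] at hzero ⊢
    exact h3a a ha fun y hy => hzero y (Submodule.mem_sup_right hy)
  have hR2 : ∀ y ∈ W₂, (∀ x ∈ W₁, B x y = 0) → y = 0 := fun y hy h =>
    Submodule.disjoint_def.1 hW2R y hy ⟨hW2Y hy, h⟩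
  have hL2' : ∀ y ∈ W₂', (∀ x ∈ W₁, B y x = 0) → y = 0 := fun y hy h =>
    Submodule.disjoint_def.1 hW2L y hy ⟨hW2Y' hy, h⟩
  rcases hW2min (W₂ ⊓ L) (fun g x hx => ⟨hW2 g x hx.1, hL g x hx.2⟩) inf_le_left with h | h
  · exact ⟨W₂, hW2, hW2Y, hl2, hR2, fun y hy hyz =>
      (Submodule.mem_bot F).1 (h ▸ (⟨hy, hW2Y hy, hyz⟩ : y ∈ W₂ ⊓ L))⟩
  have hW2inL : W₂ ≤ L := inf_eq_left.1 h
  rcases hW2min' (W₂' ⊓ R) (fun g x hx => ⟨hW2' g x hx.1, hR g x hx.2⟩) inf_le_left with h' | h'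
  · refine ⟨W₂', hW2', hW2Y', ?_, fun y hy hyz =>
      (Submodule.mem_bot F).1 (h' ▸ (⟨hy, hW2Y' hy, hyz⟩ : y ∈ W₂' ⊓ R)), hL2'⟩
    let K : Submodule F V :=
      { carrier := {x | x ∈ W₁ ∧ ∀ y ∈ W₂', B x y = 0}
        add_mem' := fun {a b} ha hb => ⟨W₁.add_mem ha.1 hb.1, fun y hy => by
          rw [map_add, LinearMap.add_apply, ha.2 y hy, hb.2 y hy, add_zero]⟩
        zero_mem' := ⟨W₁.zero_mem, fun y _ => by simp⟩
        smul_mem' := fun c a ha => ⟨W₁.smul_mem c ha.1, fun y hy => by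
          rw [map_smul, LinearMap.smul_apply, ha.2 y hy, smul_zero]⟩ }
    have hK : Inv ρ K := fun g x hx => ⟨hW g x hx.1, fun y hy => by
      rw [← inv_inv_apply (ρ := ρ) g y, hinv g x (hWY hx.1) _ (hY g⁻¹ y (hW2Y' hy))]
      exact hx.2 _ (hW2' g⁻¹ y hy)⟩
    rcases hWmin K hK (fun x hx => hx.1) with hk | hk
    · intro x hx h0'
      exact (Submodule.mem_bot F).1 (hk ▸ (⟨hx, h0'⟩ : x ∈ K))
    · exfalso
      refine hW20' (eq_bot_iff.2 fun y hy => h' ▸ (⟨hy, hW2Y' hy, fun w hw => ?_⟩ : y ∈ W₂' ⊓ R))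
      exact (hk.symm ▸ hw : w ∈ K).2 y hy
  have hW2inR : W₂' ≤ R := inf_eq_left.1 h'
  -- the graph
  let Ψ : W₂ →ₗ[F] Module.Dual F W₁ := B.flip.compl₁₂ W₂.subtype W₁.subtype
  let Φ : W₂' →ₗ[F] Module.Dual F W₁ := B.compl₁₂ W₂'.subtype W₁.subtype
  have hΦ : ∀ (a : W₂') (w : W₁), Φ a w = B (a : V) (w : V) := fun _ _ => rfl
  have hΨ : ∀ (a : W₂) (w : W₁), Ψ a w = B (w : V) (a : V) := fun _ _ => rfl
  have hΦinj : Function.Injective Φ := by
    rw [injective_iff_map_eq_zero]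
    intro a ha
    exact Subtype.ext (hL2' a a.2 fun x hx => LinearMap.congr_fun ha ⟨x, hx⟩)
  have hflip : Function.Injective Φ.flip := by
    rw [injective_iff_map_eq_zero]
    intro w hw
    exact Subtype.ext (hl2' w w.2 fun y hy => LinearMap.congr_fun hw ⟨y, hy⟩)
  have hdim : Module.finrank F W₂' = Module.finrank F (Module.Dual F W₁) := by
    refine le_antisymm (LinearMap.finrank_le_finrank_of_injective hΦinj) ?_
    rw [Subspace.dual_finrank_eq]
    exact (LinearMap.finrank_le_finrank_of_injective hflip).trans (le_of_eq Subspace.dual_finrank_eq)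
  let e : W₂' ≃ₗ[F] Module.Dual F W₁ := LinearEquiv.ofBijective Φ
    ⟨hΦinj, (LinearMap.injective_iff_surjective_of_finrank_eq_finrank hdim).1 hΦinj⟩
  let γ : W₂ →ₗ[F] V := W₂.subtype + W₂'.subtype.comp (e.symm.toLinearMap.comp Ψ)
  have hγ : ∀ a : W₂, ∃ a' : W₂', γ a = (a : V) + (a' : V) ∧
      ∀ w ∈ W₁, B (a' : V) w = B w (a : V) := by
    intro a
    refine ⟨e.symm (Ψ a), rfl, fun w hw => ?_⟩
    rw [← hΦ _ ⟨w, hw⟩, show Φ (e.symm (Ψ a)) = Ψ a from e.apply_symm_apply _, hΨ]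
  have hval : ∀ (a : W₂), ∀ w ∈ W₁, B w (γ a) = B w (a : V) ∧ B (γ a) w = B w (a : V) := by
    intro a w hw
    obtain ⟨a', he, ha'⟩ := hγ a
    refine ⟨?_, ?_⟩
    · rw [he, map_add, (hW2inR a'.2).2 w hw, add_zero]
    · rw [he, map_add, LinearMap.add_apply, (hW2inL a.2).2 w hw, zero_add, ha' w hw]
  refine ⟨LinearMap.range γ, ?_, ?_, ?_, ?_, ?_⟩
  · intro g y hy
    obtain ⟨a, rfl⟩ := LinearMap.mem_range.1 hy
    obtain ⟨a', he, ha'⟩ := hγ a
    refine LinearMap.mem_range.2 ⟨⟨ρ g a, hW2 g a a.2⟩, ?_⟩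
    obtain ⟨b', he', hb'⟩ := hγ ⟨ρ g a, hW2 g a a.2⟩
    have hbe : b' = ⟨ρ g a', hW2' g a' a'.2⟩ := by
      apply hΦinj
      refine LinearMap.ext fun w => ?_
      have hw' : ρ g⁻¹ (w : V) ∈ W₁ := hW g⁻¹ w w.2
      rw [hΦ, hΦ, hb' w w.2]
      conv_lhs => rw [← inv_inv_apply (ρ := ρ) g (w : V)]
      conv_rhs => rw [← inv_inv_apply (ρ := ρ) g (w : V)]
      show B (ρ g (ρ g⁻¹ (w : V))) (ρ g (a : V)) = B (ρ g (a' : V)) (ρ g (ρ g⁻¹ (w : V)))
      rw [hinv g _ (hWY hw') _ (hW2Y a.2), hinv g _ (hW2Y' a'.2) _ (hWY hw'), ha' _ hw']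
    rw [he', he, map_add, hbe]
  · rintro y hy
    obtain ⟨a, rfl⟩ := LinearMap.mem_range.1 hy
    obtain ⟨a', he, -⟩ := hγ a
    rw [he]
    exact Y.add_mem (hW2Y a.2) (hW2Y' a'.2)
  · intro x hx hzero
    refine hl2 x hx fun y hy => ?_
    rw [← (hval ⟨y, hy⟩ x hx).1]
    exact hzero _ (LinearMap.mem_range_self γ _)
  · intro y hy hzero
    obtain ⟨a, rfl⟩ := LinearMap.mem_range.1 hy
    have : (a : V) = 0 := hR2 a a.2 fun w hw => by rw [← (hval a w hw).1]; exact hzero w hw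
    rw [show a = 0 from Subtype.ext this, map_zero]
  · intro y hy hzero
    obtain ⟨a, rfl⟩ := LinearMap.mem_range.1 hy
    have : (a : V) = 0 := hR2 a a.2 fun w hw => by rw [← (hval a w hw).2]; exact hzero w hw
    rw [show a = 0 from Subtype.ext this, map_zero]

/-- The global statement. -/
theorem exists_decomposition (hG : (Nat.card G : F) ≠ 0) {B : LinearMap.BilinForm F V}
    (hn : ∀ x, (∀ y, B x y = 0) → x = 0) (hinv : ∀ g x y, B (ρ g x) (ρ g y) = B x y) :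
    ∃ (U W : Submodule F V) (A S : LinearMap.BilinForm F V),
      IsCompl U W ∧ Inv ρ U ∧ Inv ρ W ∧ (∀ x, A x x = 0) ∧ InvOn ρ A U ∧ NondegOn A U ∧
      (∀ x y, S x y = S y x) ∧ InvOn ρ S W ∧ NondegOn S W ∧
      ((2 : F) = 0 → ∀ g, ∀ w ∈ W, ρ g w = w) := by
  obtain ⟨U, W, A, S, hU, hW, -, -, hd, hs, hAa, hAi, hAn, hSs, hSi, hSn, ht⟩ :=
    good_of_form (ρ := ρ) hG (B := B) ⊤ (fun _ _ _ => Submodule.mem_top)
      (fun g x _ y _ => hinv g x y) (fun x _ h => hn x fun y => h y Submodule.mem_top)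
  have hc : IsCompl U W := ⟨hd, codisjoint_iff.2 hs⟩
  refine ⟨U, W, A.compl₁₂ (U.projection W hc) (U.projection W hc),
    S.compl₁₂ (W.projection U hc.symm) (W.projection U hc.symm), hc, hU, hW,
    fun x => hAa _ (Submodule.projection_apply_mem hc x), ?_, ?_,
    fun x y => hSs _ (Submodule.projection_apply_mem hc.symm x) _
      (Submodule.projection_apply_mem hc.symm y), ?_, ?_, ht⟩
  · intro g x hx y hy
    simp only [LinearMap.compl₁₂_apply]
    rw [Submodule.projection_apply_left hc ⟨_, hU g x hx⟩, Submodule.projection_apply_left hc ⟨_, hU g y hy⟩,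
      Submodule.projection_apply_left hc ⟨x, hx⟩, Submodule.projection_apply_left hc ⟨y, hy⟩]
    exact hAi g x hx y hy
  · intro x hx h0
    refine hAn x hx fun y hy => ?_
    have h := h0 y hy
    simp only [LinearMap.compl₁₂_apply] at h
    rwa [Submodule.projection_apply_left hc ⟨x, hx⟩, Submodule.projection_apply_left hc ⟨y, hy⟩] at h
  · intro g x hx y hy
    simp only [LinearMap.compl₁₂_apply]
    rw [Submodule.projection_apply_left hc.symm ⟨_, hW g x hx⟩, Submodule.projection_apply_left hc.symm ⟨_, hW g y hy⟩,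
      Submodule.projection_apply_left hc.symm ⟨x, hx⟩, Submodule.projection_apply_left hc.symm ⟨y, hy⟩]
    exact hSi g x hx y hy
  · intro x hx h0
    refine hSn x hx fun y hy => ?_
    have h := h0 y hy
    simp only [LinearMap.compl₁₂_apply] at h
    rwa [Submodule.projection_apply_left hc.symm ⟨x, hx⟩, Submodule.projection_apply_left hc.symm ⟨y, hy⟩] at h

end Cfsg.Agent.Lib.InvForms
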