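import Mathlib
import Cfsg.Agent.Lib.Kulakoff
import Cfsg.Agent.Lib.Thompson.MaxClass

/-! Kulakoff's theorem for `p = 2`: 2-groups that are neither cyclic nor of maximal class. -/

set_option autoImplicit false

namespace Cfsg.Agent.Lib.CountModSq

open Subgroup Finset
open scoped commutatorElement

/-- a 2-group of maximal class and order at least 8 -/
def MC (X : Type*) [Group X] : Prop := 8 ≤ Nat.card X ∧ (commutator X).index = 4

variable {X : Type*} [Group X]

theorem MC.not_isCyclic [Finite X] (h : MC X) : ¬ IsCyclic X := fun hc => by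
  obtain ⟨h8, h4⟩ := h
  rw [Lib.Thompson.commutator_eq_bot_of_isCyclic, index_bot] at h4
  omega

theorem zpowers_pow_normal {a : X} (hn : (zpowers a).Normal) (k : ℕ) : (zpowers (a ^ k)).Normal := by
  refine ⟨fun x hx g => ?_⟩
  obtain ⟨i, rfl⟩ := hx
  obtain ⟨j, hj⟩ := hn.conj_mem a (mem_zpowers a) g
  refine ⟨j * i, ?_⟩
  simp only at hj ⊢
  rw [← conj_zpow, ← conj_pow, ← hj, ← zpow_natCast, ← zpow_natCast]
  simp only [← zpow_mul]
  ring_nf

/-- the common setting: a cyclic subgroup of index two in a non-cyclic 2-group -/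
structure Setup (X : Type*) [Group X] (m : ℕ) where
  a : X
  b : X
  two_le : 2 ≤ m
  card : Nat.card X = 2 ^ (m + 1)
  order : orderOf a = 2 ^ m
  normA : (zpowers a).Normal
  indexA : (zpowers a).index = 2
  not_mem : b ∉ zpowers a
  notcyc : ¬ IsCyclic X

namespace Setup

variable [Finite X] {m : ℕ} (S : Setup X m)

/-- `⟨a²⟩` -/
def D : Subgroup X := zpowers (S.a ^ 2)

/-- `⟨a⁴⟩` -/
def N : Subgroup X := zpowers (S.a ^ 4)

instance : S.N.Normal := zpowers_pow_normal S.normA 4

include S in
theorem pgroup : IsPGroup 2 X := IsPGroup.of_card S.card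

theorem order_sq : orderOf (S.a ^ 2) = 2 ^ (m - 1) := by
  obtain ⟨j, rfl⟩ : ∃ j, m = j + 1 := ⟨m - 1, by have := S.two_le; omega⟩
  rw [orderOf_pow, S.order, Nat.add_sub_cancel, Nat.gcd_eq_right (dvd_pow_self 2 (by omega)),
    pow_succ, Nat.mul_div_cancel _ two_pos]

theorem card_D : Nat.card S.D = 2 ^ (m - 1) := by rw [D, Nat.card_zpowers, S.order_sq]

theorem card_N : Nat.card S.N * 2 = 2 ^ (m - 1) := by
  obtain ⟨j, hj⟩ : ∃ j, m = j + 2 := ⟨m - 2, by have := S.two_le; omega⟩
  rw [N, Nat.card_zpowers, orderOf_pow, S.order, hj, show j + 2 - 1 = j + 1 by omega,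
    Nat.gcd_eq_right (show 4 ∣ 2 ^ (j + 2) from pow_dvd_pow 2 (Nat.le_add_left 2 j)),
    show 2 ^ (j + 2) = 2 ^ j * 4 by ring, Nat.mul_div_cancel _ (by norm_num : 0 < 4), pow_succ]

theorem D_le : S.D ≤ zpowers S.a := zpowers_le.mpr (pow_mem (mem_zpowers S.a) 2)

theorem index_D : S.D.index = 4 := by
  have h := S.D.card_mul_index
  rw [S.card_D, S.card, show m + 1 = (m - 1) + 2 by have := S.two_le; omega, pow_add] at h
  exact Nat.eq_of_mul_eq_mul_left (pow_pos two_pos _) h

theorem N_le : S.N ≤ S.D := zpowers_le.mpr ⟨2, by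
  show (S.a ^ 2) ^ (2 : ℤ) = _
  rw [show (2 : ℤ) = ((2 : ℕ) : ℤ) from rfl, zpow_natCast, ← pow_mul]⟩

theorem sq_mem_N {d : X} (hd : d ∈ S.D) : d ^ 2 ∈ S.N := by
  obtain ⟨i, rfl⟩ := hd
  refine ⟨i, ?_⟩
  show (S.a ^ 4) ^ i = ((S.a ^ 2) ^ i) ^ 2
  rw [← zpow_natCast ((S.a ^ 2) ^ i), ← zpow_natCast, ← zpow_natCast, ← zpow_mul, ← zpow_mul,
    ← zpow_mul]
  ring_nf

/-- a subgroup of `⟨a²⟩` not inside `⟨a⁴⟩` is everything -/
theorem eq_D {K : Subgroup X} (hK : K ≤ S.D) (h : ¬ K ≤ S.N) : K = S.D := by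
  refine le_antisymm hK ?_
  obtain ⟨x, hx, hxN⟩ := SetLike.not_le_iff_exists.mp h
  obtain ⟨i, rfl⟩ := mem_powers_iff_mem_zpowers.mpr (hK hx)
  simp only at hx hxN
  have hodd : Odd i := by
    rw [← Nat.not_even_iff_odd]
    rintro ⟨j, rfl⟩
    refine hxN ?_
    rw [← two_mul, pow_mul, show (S.a ^ 2) ^ 2 = S.a ^ 4 by rw [← pow_mul]]
    exact pow_mem (mem_zpowers _) j
  have hcop : (orderOf (S.a ^ 2)).Coprime i := by
    rw [S.order_sq]
    exact Nat.Coprime.pow_left _ (Nat.coprime_two_left.mpr hodd)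
  obtain ⟨j, hj⟩ := exists_pow_eq_self_of_coprime hcop.symm
  rw [D, zpowers_le, ← hj]
  exact K.pow_mem hx j

theorem frat_eq : frat (⊤ : Subgroup X) = S.D := by
  have hE := elemQuot_frat (S.pgroup.to_subgroup (⊤ : Subgroup X))
  have hle : S.D ≤ frat (⊤ : Subgroup X) := zpowers_le.mpr (hE.2.2 S.a (mem_top _))
  have hd := index_dvd_of_le hle
  rw [S.index_D] at hd
  obtain ⟨i, hi2, hi⟩ := (Nat.dvd_prime_pow Nat.prime_two).mp
    (show (frat (⊤ : Subgroup X)).index ∣ 2 ^ 2 from hd)
  have hnc : ¬ IsCyclic ↥(⊤ : Subgroup X) := fun h => S.notcyc (topEquiv.isCyclic.mp h)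
  rcases Nat.lt_or_ge i 2 with h | h
  · exfalso
    interval_cases i
    · exact hnc (isCyclic_of_frat_index (p := 2) (S.pgroup.to_subgroup _)
        (Or.inr (index_eq_one.mp (by simpa using hi))))
    · exact hnc (isCyclic_of_frat_index (p := 2) (S.pgroup.to_subgroup _)
        (Or.inl (by rw [relIndex_top_right, hi, pow_one])))
  · obtain rfl : i = 2 := by omega
    refine (eq_of_le_of_card_ge hle ?_).symm
    have h1 := (frat (⊤ : Subgroup X)).card_mul_index
    have h2 := S.D.card_mul_index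
    rw [hi] at h1
    rw [S.index_D, ← h1] at h2
    norm_num at h2
    omega

theorem elemQuot_D : ElemQuot 2 (⊤ : Subgroup X) S.D :=
  S.frat_eq ▸ elemQuot_frat (S.pgroup.to_subgroup _)

theorem card_hyper_eq : (hyper 2 (⊤ : Subgroup X) S.D).card = 3 := by
  have h := card_hyper (p := 2) S.elemQuot_D
  rw [relIndex_top_right, S.index_D] at h
  omega

theorem commutator_le : commutator X ≤ S.D := by
  rw [_root_.commutator_def, Subgroup.commutator_le]
  exact fun x _ y _ => S.elemQuot_D.2.1 x (mem_top x) y (mem_top y)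

/-- the quotient map by `⟨a⁴⟩` -/
abbrev π : X →* X ⧸ S.N := QuotientGroup.mk' S.N

theorem gen : zpowers S.a ⊔ zpowers S.b = ⊤ := by
  have hlt : zpowers S.a < zpowers S.a ⊔ zpowers S.b :=
    lt_of_le_of_ne le_sup_left fun h => S.not_mem (h.symm ▸ mem_sup_right (mem_zpowers S.b) : _)
  have hd := relIndex_mul_index hlt.le
  rw [S.indexA] at hd
  rcases (Nat.dvd_prime Nat.prime_two).mp (Dvd.intro _ hd) with h1 | h1
  · exact absurd (relIndex_eq_one.mp h1) (not_le_of_gt hlt)
  · rw [h1] at hd
    exact index_eq_one.mp (by omega)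

theorem map_gen {Y : Subgroup (X ⧸ S.N)} (ha : S.π S.a ∈ Y) (hb : S.π S.b ∈ Y) (x : X) : S.π x ∈ Y := by
  have : zpowers S.a ⊔ zpowers S.b ≤ Y.comap S.π :=
    sup_le (zpowers_le.mpr ha) (zpowers_le.mpr hb)
  rw [S.gen] at this
  exact this (mem_top x)

theorem π_sq_ne : S.π S.a * S.π S.a ≠ 1 := by
  rw [← map_mul, ← sq, Ne, QuotientGroup.mk'_apply, QuotientGroup.eq_one_iff]
  intro h
  have := S.card_N
  have h1 : S.D ≤ S.N := zpowers_le.mpr h
  have h2 := Subgroup.card_le_of_le h1
  rw [S.card_D, ← this] at h2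
  have : 0 < Nat.card S.N := Nat.card_pos
  omega

theorem π_D {d : X} (hd : d ∈ S.D) : S.π d = 1 ∨ S.π d = S.π S.a * S.π S.a := by
  obtain ⟨i, rfl⟩ := mem_powers_iff_mem_zpowers.mpr hd
  simp only
  have hz : (S.π S.a * S.π S.a) ^ 2 = 1 := by
    rw [← map_mul, ← map_pow, QuotientGroup.mk'_apply, QuotientGroup.eq_one_iff, ← sq, ← pow_mul]
    exact mem_zpowers _
  rw [map_pow, map_pow, sq (S.π S.a)]
  rcases Nat.even_or_odd' i with ⟨j, rfl | rfl⟩
  · left; rw [pow_mul, hz, one_pow]
  · right; rw [pow_succ, pow_mul, hz, one_pow, one_mul]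

theorem π_D_central {d : X} (hd : d ∈ S.D) (x : X) : Commute (S.π d) (S.π x) := by
  have hn : S.D.Normal := zpowers_pow_normal S.normA 2
  have key : ∀ x : X, Commute (S.π S.a * S.π S.a) (S.π x) := by
    intro x
    have h := S.π_D (hn.conj_mem (S.a * S.a) (by rw [← sq]; exact mem_zpowers _) x)
    rw [map_mul, map_mul, map_inv, map_mul] at h
    rcases h with h | h
    · exfalso
      rw [mul_inv_eq_one] at h
      exact S.π_sq_ne (mul_eq_left.mp h)
    · rw [mul_inv_eq_iff_eq_mul] at h
      exact h.symm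
  rcases S.π_D hd with h | h
  · rw [h]; exact Commute.one_left _
  · rw [h]; exact key x

theorem π_comm_iff : Commute (S.π S.a) (S.π S.b) ↔ commutator X ≤ S.N := by
  constructor
  · intro h
    rw [_root_.commutator_def, Subgroup.commutator_le]
    intro x _ y _
    have hab : ∀ x : X, Commute (S.π S.a) (S.π x) := fun x => by
      have := S.map_gen (Y := centralizer {S.π S.a})
        (mem_centralizer_singleton_iff.mpr rfl) (mem_centralizer_singleton_iff.mpr h.eq.symm) x
      exact (mem_centralizer_singleton_iff.mp this).symm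
    have hxb : ∀ x : X, Commute (S.π S.b) (S.π x) := fun x => by
      have := S.map_gen (Y := centralizer {S.π S.b})
        (mem_centralizer_singleton_iff.mpr (hab S.b).eq) (mem_centralizer_singleton_iff.mpr rfl) x
      exact (mem_centralizer_singleton_iff.mp this).symm
    have hxy : Commute (S.π x) (S.π y) := by
      have := S.map_gen (Y := centralizer {S.π x})
        (mem_centralizer_singleton_iff.mpr (hab x).eq) (mem_centralizer_singleton_iff.mpr (hxb x).eq) y
      exact (mem_centralizer_singleton_iff.mp this).symm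
    rw [← QuotientGroup.eq_one_iff, ← QuotientGroup.mk'_apply, map_commutatorElement]
    exact commutatorElement_eq_one_iff_commute.mpr hxy
  · intro h
    rw [← commutatorElement_eq_one_iff_commute, ← map_commutatorElement, QuotientGroup.mk'_apply,
      QuotientGroup.eq_one_iff]
    exact h (commutator_mem_commutator (mem_top _) (mem_top _))

theorem mc_iff : MC X ↔ ¬ Commute (S.π S.a) (S.π S.b) := by
  rw [S.π_comm_iff]
  constructor
  · rintro ⟨-, h4⟩ hle
    have h := index_dvd_of_le hle
    rw [h4] at h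
    have h1 := S.N.card_mul_index
    have h2 := S.card_N
    have h3 := Nat.le_of_dvd (by norm_num) h
    rw [S.card, show m + 1 = (m - 1) + 2 by have := S.two_le; omega, pow_add] at h1
    rw [← h2, mul_assoc] at h1
    have := Nat.eq_of_mul_eq_mul_left Nat.card_pos h1
    omega
  · intro h
    refine ⟨?_, by rw [S.eq_D S.commutator_le h]; exact S.index_D⟩
    rw [S.card]
    calc 8 = 2 ^ 3 := by norm_num
      _ ≤ _ := Nat.pow_le_pow_right two_pos (by have := S.two_le; omega)

/-- one maximal subgroup for each of `b`, `b a` -/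
theorem hyper_struct : open Classical in ∃ Lb Lba : Subgroup X,
    hyper 2 (⊤ : Subgroup X) S.D = {zpowers S.a, Lb, Lba} ∧
    zpowers S.a ≠ Lb ∧ zpowers S.a ≠ Lba ∧ Lb ≠ Lba ∧
    (∀ x, x ∈ Lb ↔ x ∈ S.D ∨ S.b⁻¹ * x ∈ S.D) ∧
    (∀ x, x ∈ Lba ↔ x ∈ S.D ∨ (S.b * S.a)⁻¹ * x ∈ S.D) := by
  classical
  have hC : zpowers S.a ∈ hyper 2 (⊤ : Subgroup X) S.D :=
    mem_hyper.mpr ⟨S.D_le, le_top, by rw [relIndex_top_right, S.indexA]⟩
  have hCD : ∀ x ∈ zpowers S.a, x ∈ S.D ∨ S.a⁻¹ * x ∈ S.D := by
    intro x hx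
    obtain ⟨i, rfl⟩ := hx
    simp only
    rcases Int.even_or_odd' i with ⟨j, rfl | rfl⟩
    · exact Or.inl ⟨j, by show (S.a ^ 2) ^ j = _; rw [← zpow_natCast, ← zpow_mul]; rfl⟩
    · refine Or.inr ⟨j, ?_⟩
      show (S.a ^ 2) ^ j = _
      rw [← zpow_natCast, ← zpow_mul, zpow_add_one, (Commute.refl S.a).zpow_left (2 * j) |>.eq,
        inv_mul_cancel_left]
      rfl
  have key : ∀ L ∈ hyper 2 (⊤ : Subgroup X) S.D, L ≠ zpowers S.a →
      ∀ g ∈ L, g ∉ zpowers S.a → ∀ x, x ∈ L ↔ x ∈ S.D ∨ g⁻¹ * x ∈ S.D := by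
    intro L hL hne g hg hgC x
    obtain ⟨hDL, -, hLi⟩ := mem_hyper.mp hL
    have ha : S.a ∉ L := fun h => by
      refine hne (eq_of_le_of_card_ge (zpowers_le.mpr h) (le_of_eq ?_)).symm
      have h1 := card_le_of_mem_hyper hL
      have h2 := card_le_of_mem_hyper hC
      omega
    refine ⟨fun hx => ?_, fun hx => hx.elim (fun h => hDL h) fun h => by
      simpa using L.mul_mem hg (hDL h)⟩
    by_cases hxC : x ∈ zpowers S.a
    · refine Or.inl ((hCD x hxC).resolve_right fun h => ha ?_)
      have := L.mul_mem hx (L.inv_mem (hDL h))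
      simpa using this
    · have hgx : g⁻¹ * x ∈ zpowers S.a := by
        rw [mul_mem_iff_of_index_two S.indexA, inv_mem_iff]
        exact iff_of_false hgC hxC
      refine Or.inr ((hCD _ hgx).resolve_right fun h => ha ?_)
      have := L.mul_mem (L.mul_mem (L.inv_mem hg) hx) (L.inv_mem (hDL h))
      simpa [mul_assoc] using this
  have hba : S.b * S.a ∉ zpowers S.a := fun h => S.not_mem (by
    simpa using (zpowers S.a).mul_mem h ((zpowers S.a).inv_mem (mem_zpowers S.a)))
  have hmem : ∀ L ∈ hyper 2 (⊤ : Subgroup X) S.D, L ≠ zpowers S.a → S.b ∈ L ∨ S.b * S.a ∈ L := by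
    intro L hL hne
    obtain ⟨g, hg, hgC⟩ : ∃ g ∈ L, g ∉ zpowers S.a := by
      by_contra h
      push Not at h
      refine hne (eq_of_le_of_card_ge h (le_of_eq ?_))
      have h1 := card_le_of_mem_hyper hL
      have h2 := card_le_of_mem_hyper hC
      omega
    have hbg : S.b⁻¹ * g ∈ zpowers S.a := by
      rw [mul_mem_iff_of_index_two S.indexA, inv_mem_iff]
      exact iff_of_false S.not_mem hgC
    have hDL := (mem_hyper.mp hL).1
    rcases hCD _ hbg with h | h
    · left
      have := L.mul_mem hg (L.inv_mem (hDL h))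
      simpa [mul_assoc] using this
    · right
      have := L.mul_mem hg (L.inv_mem (hDL h))
      simpa [mul_assoc] using this
  set T := (hyper 2 (⊤ : Subgroup X) S.D).erase (zpowers S.a) with hT
  have hTc : T.card = 2 := by rw [hT, Finset.card_erase_of_mem hC, S.card_hyper_eq]
  obtain ⟨A, B, hAB, hT2⟩ := Finset.card_eq_two.mp hTc
  obtain ⟨hAne, hA⟩ := Finset.mem_erase.mp (show A ∈ T by rw [hT2]; simp)
  obtain ⟨hBne, hB⟩ := Finset.mem_erase.mp (show B ∈ T by rw [hT2]; simp)
  have hh : hyper 2 (⊤ : Subgroup X) S.D = {zpowers S.a, A, B} := by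
    rw [← hT2, hT, Finset.insert_erase hC]
  have huniq : ∀ g, g ∉ zpowers S.a → g ∈ A → g ∈ B → False := fun g hg h1 h2 =>
    hAB (SetLike.ext fun x => by rw [key A hA hAne g h1 hg x, key B hB hBne g h2 hg x])
  rcases hmem A hA hAne with hA' | hA'
  · rcases hmem B hB hBne with hB' | hB'
    · exact (huniq _ S.not_mem hA' hB').elim
    · exact ⟨A, B, hh, hAne.symm, hBne.symm, hAB, key A hA hAne _ hA' S.not_mem,
        key B hB hBne _ hB' hba⟩
  · rcases hmem B hB hBne with hB' | hB'
    · exact ⟨B, A, by rw [hh, Finset.pair_comm], hBne.symm, hAne.symm, hAB.symm,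
        key B hB hBne _ hB' S.not_mem, key A hA hAne _ hA' hba⟩
    · exact (huniq _ hba hA' hB').elim

theorem cyclic_criterion {g : X} (hg : g ∉ zpowers S.a) {L : Subgroup X}
    (hL : L ∈ hyper 2 (⊤ : Subgroup X) S.D) (hLg : ∀ x, x ∈ L ↔ x ∈ S.D ∨ g⁻¹ * x ∈ S.D) :
    IsCyclic L ↔ g ^ 2 ∉ S.N := by
  obtain ⟨hDL, -, hLi⟩ := mem_hyper.mp hL
  have hLc : Nat.card L = 2 ^ m := by
    have := card_le_of_mem_hyper hL
    rw [card_top, S.card, pow_succ] at this
    omega
  constructor
  · intro hc h2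
    obtain ⟨x, hx⟩ := L.isCyclic_iff_exists_zpowers_eq_top.mp hc
    have hxL : x ∈ L := hx ▸ mem_zpowers x
    have hxN : x ^ 2 ∈ S.N := by
      rcases (hLg x).mp hxL with h | h
      · exact S.sq_mem_N h
      · rw [← QuotientGroup.eq_one_iff, ← QuotientGroup.mk'_apply, map_pow]
        have e : S.π x = S.π g * S.π (g⁻¹ * x) := by rw [← map_mul, mul_inv_cancel_left]
        rw [e, ((S.π_D_central h g).symm).mul_pow, ← map_pow, ← map_pow,
          show S.π (g ^ 2) = 1 from (QuotientGroup.eq_one_iff _).mpr h2,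
          show S.π ((g⁻¹ * x) ^ 2) = 1 from (QuotientGroup.eq_one_iff _).mpr (S.sq_mem_N h), one_mul]
    have ho : orderOf x = 2 ^ m := by rw [← Nat.card_zpowers, hx, hLc]
    have h3 := Subgroup.card_le_of_le (zpowers_le.mpr hxN)
    rw [Nat.card_zpowers, orderOf_pow, ho,
      Nat.gcd_eq_right (dvd_pow_self 2 (by have := S.two_le; omega))] at h3
    have h4 := S.card_N
    rw [show 2 ^ m / 2 = 2 ^ (m - 1) by
      rw [show m = (m - 1) + 1 by have := S.two_le; omega, pow_succ, Nat.mul_div_cancel _ two_pos,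
        Nat.add_sub_cancel]] at h3
    have : 0 < Nat.card S.N := Nat.card_pos
    omega
  · intro h2
    have hgL : g ∈ L := (hLg g).mpr (Or.inr (by simp))
    have hgD : g ^ 2 ∈ S.D := S.elemQuot_D.2.2 g (mem_top g)
    have he : zpowers (g ^ 2) = S.D := S.eq_D (zpowers_le.mpr hgD) fun h => h2 (h (mem_zpowers _))
    have hle : L ≤ zpowers g := by
      intro x hx
      have hD : S.D ≤ zpowers g := he ▸ zpowers_le.mpr (pow_mem (mem_zpowers g) 2)
      rcases (hLg x).mp hx with h | h
      · exact hD h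
      · simpa using (zpowers g).mul_mem (mem_zpowers g) (hD h)
    rw [le_antisymm hle (zpowers_le.mpr hgL)]
    infer_instance

theorem cyclic_count :
    open Classical in
    ((MC X → ((hyper 2 (⊤ : Subgroup X) S.D).filter fun L : Subgroup X => ¬ IsCyclic L).card % 2 = 0) ∧
    (¬ MC X → ((hyper 2 (⊤ : Subgroup X) S.D).filter fun L : Subgroup X => ¬ IsCyclic L).card % 2 = 1)) := by
  classical
  obtain ⟨Lb, Lba, hh, h1, h2, h3, hb, hba⟩ := S.hyper_struct
  have hbC : S.b * S.a ∉ zpowers S.a := fun h => S.not_mem (by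
    simpa using (zpowers S.a).mul_mem h ((zpowers S.a).inv_mem (mem_zpowers S.a)))
  have cb := S.cyclic_criterion S.not_mem (by rw [hh]; simp) hb
  have cba := S.cyclic_criterion hbC (by rw [hh]; simp) hba
  have hcA : ¬ ¬ IsCyclic ↥(zpowers S.a) := not_not.mpr inferInstance
  have hmem : ∀ x : X, x ^ 2 ∈ S.N ↔ S.π x * S.π x = 1 := fun x => by
    rw [← map_mul, QuotientGroup.mk'_apply, QuotientGroup.eq_one_iff, sq]
  rw [hh, Finset.filter_insert, if_neg hcA, Finset.filter_insert, Finset.filter_singleton, cb, cba,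
    hmem, hmem, map_mul, S.mc_iff]
  set A := S.π S.a
  set B := S.π S.b
  have hB : B * B = 1 ∨ B * B = A * A := by
    have := S.π_D (S.elemQuot_D.2.2 S.b (mem_top _))
    rwa [map_pow, sq] at this
  have hzz : A * A * (A * A) = 1 := by
    have : S.π ((S.a * S.a) ^ 2) = 1 := (QuotientGroup.eq_one_iff _).mpr (S.sq_mem_N (by rw [← sq]; exact mem_zpowers _))
    rwa [map_pow, map_mul, sq] at this
  have hne : A * A ≠ 1 := S.π_sq_ne
  have hBzA : Commute (A * A) B := by
    have := S.π_D_central (d := S.a * S.a) (by rw [← sq]; exact mem_zpowers _) S.b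
    rwa [map_mul] at this
  by_cases hcom : Commute A B
  · refine ⟨fun h => absurd hcom h, fun _ => ?_⟩
    have hsq : B * A * (B * A) = B * B * (A * A) := hcom.symm.mul_mul_mul_comm _ _ ▸ rfl
    rcases hB with hB | hB
    · simp [hB, hsq, hne]
    · simp [hB, hsq, hzz, hne]
  · refine ⟨fun _ => ?_, fun h => absurd hcom h⟩
    have hconj : B * A * B⁻¹ = A⁻¹ := by
      obtain ⟨j, hj⟩ := S.normA.conj_mem S.a (mem_zpowers _) S.b
      have hj' : A ^ j = B * A * B⁻¹ := by
        simp only at hj
        rw [← map_zpow, hj, map_mul, map_mul, map_inv]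
      rw [← hj']
      have h4 : A ^ (4 : ℤ) = 1 := by
        rw [show (4 : ℤ) = ((4 : ℕ) : ℤ) from rfl, zpow_natCast,
          show A ^ 4 = A * A * (A * A) by simp [pow_succ, mul_assoc]]
        exact hzz
      have hred : A ^ j = A ^ (j % 4) := by
        conv_lhs => rw [show j = j % 4 + 4 * (j / 4) by omega]
        rw [zpow_add, zpow_mul, h4, one_zpow, mul_one]
      rw [hred]
      have hlo : 0 ≤ j % 4 := Int.emod_nonneg _ (by norm_num)
      have hhi : j % 4 < 4 := Int.emod_lt_of_pos _ (by norm_num)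
      rw [hred] at hj'
      generalize j % 4 = r at hlo hhi hj'
      interval_cases r
      · exfalso
        rw [zpow_zero, eq_comm, mul_inv_eq_one] at hj'
        exact hne (by rw [mul_eq_left.mp hj', one_mul])
      · exfalso
        rw [zpow_one, eq_comm, mul_inv_eq_iff_eq_mul] at hj'
        exact hcom hj'.symm
      · exfalso
        rw [zpow_two] at hj'
        have h2 : A * A = A := by
          calc A * A = B⁻¹ * (A * A * B) := by rw [hBzA.eq, inv_mul_cancel_left]
            _ = B⁻¹ * (B * A * B⁻¹ * B) := by rw [hj']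
            _ = A := by group
        have := mul_eq_left.mp h2
        exact hne (by rw [this, one_mul])
      · rw [eq_inv_iff_mul_eq_one, ← zpow_add_one]
        exact h4
    have hba2 : B * A * (B * A) = B * B := by
      calc B * A * (B * A) = (B * A * B⁻¹) * (B * B) * A := by group
        _ = A⁻¹ * ((B * B) * A) := by rw [hconj, mul_assoc]
        _ = B * B := by
          rcases hB with hB | hB
          · rw [hB]; group
          · rw [hB]; group
    rcases hB with hB | hB
    · simp [hba2, hB, h3]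
    · simp [hba2, hB, hne]

/-- in a group of maximal class the non-cyclic maximal subgroups are of maximal class -/
theorem mc_hyper (hm : 3 ≤ m) (hX : MC X) {L : Subgroup X}
    (hL : L ∈ hyper 2 (⊤ : Subgroup X) S.D) (hLc : ¬ IsCyclic L) : MC L := by
  obtain ⟨hDL, -, -⟩ := mem_hyper.mp hL
  have hLcard : Nat.card L = 2 ^ m := by
    have := card_le_of_mem_hyper hL
    rw [card_top, S.card, pow_succ] at this
    omega
  have h8 : 8 ≤ Nat.card L := by
    rw [hLcard]
    calc 8 = 2 ^ 3 := by norm_num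
      _ ≤ _ := Nat.pow_le_pow_right two_pos hm
  refine ⟨h8, ?_⟩
  obtain ⟨g, hgL, hgC⟩ : ∃ g ∈ L, g ∉ zpowers S.a := by
    by_contra h
    push Not at h
    exact hLc (isCyclic_of_injective (inclusion h) (inclusion_injective _))
  have hcom := (S.mc_iff).mp hX
  -- the commutator of `g` and `a` generates `⟨a²⟩`
  set c := g * S.a * g⁻¹ * S.a⁻¹ with hc
  have hcN : c ∉ S.N := by
    intro h
    refine hcom ?_
    have h1 : Commute (S.π g) (S.π S.a) := by
      rw [← commutatorElement_eq_one_iff_commute, ← map_commutatorElement, QuotientGroup.mk'_apply,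
        QuotientGroup.eq_one_iff, commutatorElement_def]
      exact h
    have hbg : S.b⁻¹ * g ∈ zpowers S.a := by
      rw [mul_mem_iff_of_index_two S.indexA, inv_mem_iff]
      exact iff_of_false S.not_mem hgC
    obtain ⟨i, hi⟩ := hbg
    have hb : S.b = g * (S.a ^ i)⁻¹ := by simp only at hi; rw [hi]; group
    rw [hb, map_mul, map_inv, map_zpow]
    exact h1.symm.mul_right ((Commute.refl _).zpow_right i).inv_right
  have hcD : c ∈ S.D := S.elemQuot_D.2.1 g (mem_top g) S.a (mem_top _)
  have hce : zpowers c = S.D := S.eq_D (zpowers_le.mpr hcD) fun h => hcN (h (mem_zpowers _))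
  have hca : Commute c S.a := by
    obtain ⟨i, hi⟩ := S.D_le hcD
    simp only at hi
    rw [← hi]
    exact ((Commute.refl S.a).zpow_left i)
  have hc2 : c ^ 2 ∈ ⁅L, L⁆ := by
    have : c ^ 2 = ⁅g, S.a ^ 2⁆ := by
      rw [commutatorElement_def, ← conj_pow, show g * S.a * g⁻¹ = c * S.a by rw [hc]; group,
        hca.mul_pow]
      group
    rw [this]
    exact commutator_mem_commutator hgL (hDL (mem_zpowers _))
  have hsub : ⁅L, L⁆ ≤ S.D := (commutator_mono le_top le_top).trans S.commutator_le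
  have hNle : S.N ≤ ⁅L, L⁆ := by
    refine le_trans ?_ (zpowers_le.mpr hc2)
    have h1 : S.a ^ 2 ∈ zpowers c := hce ▸ mem_zpowers _
    obtain ⟨i, hi⟩ := h1
    refine zpowers_le.mpr ⟨i, ?_⟩
    show (c ^ 2) ^ i = _
    rw [show S.a ^ 4 = (S.a ^ 2) ^ 2 by rw [← pow_mul], ← hi, ← zpow_natCast, ← zpow_natCast,
      ← zpow_mul, ← zpow_mul]
    ring_nf
  have hmap : (commutator ↥L).map L.subtype = ⁅L, L⁆ := Subgroup.map_subtype_commutator L
  have hcard := congrArg (fun K : Subgroup X => Nat.card K) hmap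
  simp only [card_map_of_injective L.subtype_injective] at hcard
  have h1 := (commutator ↥L).card_mul_index
  have hge : Nat.card S.N ≤ Nat.card ↥⁅L, L⁆ := Subgroup.card_le_of_le hNle
  have hnc : 4 ≤ (commutator ↥L).index := by
    by_contra h
    obtain ⟨j, hj⟩ := IsPGroup.iff_card.mp
      ((S.pgroup.to_subgroup L).to_quotient (commutator ↥L))
    rw [← index_eq_card] at hj
    refine hLc (Lib.Thompson.isCyclic_of_index_commutator_le (p := 2) (S.pgroup.to_subgroup L) ?_)
    rcases Nat.lt_or_ge j 2 with hj' | hj'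
    · rw [hj]; exact (Nat.pow_le_pow_right two_pos (Nat.lt_succ_iff.mp hj')).trans (le_of_eq (pow_one 2))
    · have := Nat.pow_le_pow_right two_pos hj'
      omega
  rw [hcard, hLcard] at h1
  have h2 := S.card_N
  rw [show m = (m - 1) + 1 by omega, pow_succ, ← h2] at h1
  have h3 : Nat.card S.N * (commutator ↥L).index ≤ Nat.card S.N * 4 := by
    calc _ ≤ Nat.card ↥⁅L, L⁆ * (commutator ↥L).index := Nat.mul_le_mul_right _ hge
      _ = _ := by omega
  have h4 := Nat.le_of_mul_le_mul_left h3 Nat.card_pos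
  omega

end Setup

theorem exists_setup [Finite X] {m : ℕ} (hm : 2 ≤ m) (hX : Nat.card X = 2 ^ (m + 1))
    (hnc : ¬ IsCyclic X) (C : Subgroup X) (hC : IsCyclic C) (hCi : C.index = 2) :
    ∃ S : Setup X m, zpowers S.a = C := by
  obtain ⟨a, rfl⟩ := C.isCyclic_iff_exists_zpowers_eq_top.mp hC
  obtain ⟨b, hb⟩ : ∃ b, b ∉ zpowers a := by
    by_contra! h
    rw [(eq_top_iff' _).mpr h, index_top] at hCi
    norm_num at hCi
  refine ⟨⟨a, b, hm, hX, ?_, normal_of_index_eq_two hCi, hCi, hb, hnc⟩, rfl⟩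
  have := (zpowers a).card_mul_index
  rw [hCi, Nat.card_zpowers, hX, pow_succ] at this
  omega

/-- a group not of maximal class has an even number of maximal subgroups of maximal class -/
theorem mc_count_even [Finite X] {m : ℕ} (hX : Nat.card X = 2 ^ (m + 1)) (hnc : ¬ IsCyclic X)
    (hmc : ¬ MC X) :
    open Classical in
    ((hyper 2 (⊤ : Subgroup X) (frat ⊤)).filter fun L : Subgroup X => MC L).card % 2 = 0 ∧
    (((hyper 2 (⊤ : Subgroup X) (frat ⊤)).filter fun L : Subgroup X => MC L).card ≠ 0 →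
      ∀ L ∈ hyper 2 (⊤ : Subgroup X) (frat ⊤), ¬ IsCyclic L) := by
  classical
  by_cases h0 : ((hyper 2 (⊤ : Subgroup X) (frat ⊤)).filter fun L : Subgroup X => MC L) = ∅
  · rw [h0]; simp
  obtain ⟨M, hMf⟩ := Finset.nonempty_iff_ne_empty.mpr h0
  obtain ⟨hM, hMmc⟩ := Finset.mem_filter.mp hMf
  have hXp : IsPGroup 2 X := IsPGroup.of_card hX
  obtain ⟨hΦM, -, hMi⟩ := mem_hyper.mp hM
  rw [relIndex_top_right] at hMi
  have hMn : M.Normal := normal_of_index_eq_two hMi
  obtain ⟨h8, hM4⟩ := hMmc
  have hMc : Nat.card M = 2 ^ m := by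
    have := card_le_of_mem_hyper hM
    rw [card_top, hX, pow_succ] at this
    omega
  have hm3 : 3 ≤ m := by
    by_contra h
    have : 2 ^ m ≤ 2 ^ 2 := Nat.pow_le_pow_right two_pos (by omega)
    omega
  obtain ⟨k, rfl⟩ : ∃ k, m = k + 1 := ⟨m - 1, by omega⟩
  obtain ⟨C, hC, hCi⟩ := Lib.Thompson.exists_cyclic_index_two hm3 hMc hM4
  obtain ⟨S, -⟩ := exists_setup (by omega) hMc (MC.not_isCyclic ⟨h8, hM4⟩) C hC hCi
  have hncommM : ¬ Commute (S.π S.a) (S.π S.b) := S.mc_iff.mp ⟨h8, hM4⟩
  have hMD : (commutator ↥M) = S.D := S.eq_D S.commutator_le (fun h => hncommM (S.π_comm_iff.mpr h))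
  set D := S.D.map M.subtype with hD
  have hDc : Nat.card D = 2 ^ (k - 1 + 0) := by
    rw [hD, card_map_of_injective M.subtype_injective, S.card_D, add_zero]
  have hDMM : D = ⁅M, M⁆ := by rw [hD, ← hMD]; exact Subgroup.map_subtype_commutator M
  have hDn : D.Normal := hDMM ▸ inferInstance
  have hE := elemQuot_frat (hXp.to_subgroup (⊤ : Subgroup X))
  have hDX : D ≤ commutator X := hDMM ▸ commutator_mono le_top le_top
  have hXΦ : commutator X ≤ frat (⊤ : Subgroup X) := by
    rw [_root_.commutator_def, Subgroup.commutator_le]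
    exact fun x _ y _ => hE.2.1 x (mem_top x) y (mem_top y)
  -- the derived subgroup is `D`
  have hXD : commutator X = D := by
    refine (eq_of_le_of_card_ge hDX ?_).symm
    by_contra hlt
    push Not at hlt
    refine hmc ⟨?_, ?_⟩
    · rw [hX]
      calc 8 = 2 ^ 3 := by norm_num
        _ ≤ _ := Nat.pow_le_pow_right two_pos (by omega)
    · obtain ⟨i, hi⟩ := IsPGroup.iff_card.mp (hXp.to_subgroup (commutator X))
      rw [hDc, hi] at hlt
      have hik : k - 1 < i := by simpa using (Nat.pow_lt_pow_iff_right Nat.one_lt_two).mp hlt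
      have h1 := (commutator X).card_mul_index
      obtain ⟨j, hj⟩ := IsPGroup.iff_card.mp (hXp.to_quotient (commutator X))
      rw [← index_eq_card] at hj
      have hj2 : 2 ≤ j := by
        by_contra hj2
        refine hnc (Lib.Thompson.isCyclic_of_index_commutator_le (p := 2) hXp ?_)
        rw [hj]
        exact (Nat.pow_le_pow_right two_pos (show j ≤ 1 by omega)).trans (le_of_eq (pow_one 2))
      rw [hi, hj, hX, ← pow_add] at h1
      have := Nat.pow_right_injective (le_refl 2) h1
      rw [hj, show j = 2 by omega]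
      norm_num
  -- the subgroup `N`
  set N := S.N.map M.subtype with hN
  have hNn : N.Normal := by
    refine ⟨fun x hx g => ?_⟩
    obtain ⟨y, hy, rfl⟩ := hx
    obtain ⟨i, rfl⟩ := hy
    have h2 : g * (((S.a ^ 2 : ↥M) : X)) * g⁻¹ ∈ D := hDn.conj_mem _ ⟨_, mem_zpowers _, rfl⟩ g
    obtain ⟨e, he, hee⟩ := h2
    have h3 := S.N.zpow_mem (S.sq_mem_N he) i
    refine ⟨_, h3, ?_⟩
    rw [map_zpow, map_pow, hee, Subgroup.coe_subtype]
    simp only [SubgroupClass.coe_zpow, SubgroupClass.coe_pow]
    rw [conj_pow, conj_zpow, ← pow_mul]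
  let π : X →* X ⧸ N := QuotientGroup.mk' N
  have hNM : N.comap M.subtype = S.N := comap_map_eq_self_of_injective M.subtype_injective _
  have hπ1 : ∀ x : ↥M, π x = 1 ↔ S.π x = 1 := fun x => by
    rw [QuotientGroup.mk'_apply, QuotientGroup.mk'_apply, QuotientGroup.eq_one_iff,
      QuotientGroup.eq_one_iff, ← hNM]
    exact Iff.rfl
  have hπeq : ∀ x y : ↥M, π x = π y ↔ S.π x = S.π y := fun x y => by
    rw [← inv_mul_eq_one, ← inv_mul_eq_one (a := S.π x), ← map_inv, ← map_inv, ← map_mul, ← map_mul]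
    exact hπ1 (x⁻¹ * y)
  have hπcomm : ∀ x y : ↥M, Commute (π x) (π y) ↔ Commute (S.π x) (S.π y) := fun x y => by
    show π x * π y = π y * π x ↔ S.π x * S.π y = S.π y * S.π x
    rw [← map_mul, ← map_mul, ← map_mul, ← map_mul]
    exact hπeq (x * y) (y * x)
  set A := π S.a with hA
  set B := π S.b with hB
  set z := A * A with hz
  have hAB : ¬ Commute A B := fun h => hncommM ((hπcomm _ _).mp h)
  have hzD : ∀ d ∈ D, π d = 1 ∨ π d = z := by
    rintro _ ⟨d, hd, rfl⟩
    rcases S.π_D hd with h | h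
    · exact Or.inl ((hπ1 d).mpr h)
    · refine Or.inr ?_
      rw [hz, hA, ← map_mul]
      exact (hπeq d (S.a * S.a)).mpr (by rw [map_mul]; exact h)
  have hz1 : z ≠ 1 := by
    rw [hz, hA, ← map_mul]
    exact fun h => S.π_sq_ne (by rw [← map_mul]; exact (hπ1 (S.a * S.a)).mp h)
  have hzz : z * z = 1 := by
    rw [hz, hA, ← map_mul, ← map_mul]
    refine (hπ1 (S.a * S.a * (S.a * S.a))).mpr ((QuotientGroup.eq_one_iff _).mpr ?_)
    rw [← sq (S.a * S.a)]
    exact S.sq_mem_N (by rw [← sq]; exact mem_zpowers _)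
  have hzc : ∀ x, Commute z (π x) := by
    intro x
    have hmem : x * ((S.a : X) * (S.a : X)) * x⁻¹ ∈ D :=
      hDn.conj_mem _ ⟨S.a ^ 2, mem_zpowers _, by simp [sq]⟩ x
    have h := hzD _ hmem
    rw [map_mul, map_mul, map_inv, map_mul, ← hA, ← hz] at h
    rcases h with h | h
    · rw [mul_inv_eq_one] at h
      exact absurd (mul_eq_left.mp h) hz1
    · rw [mul_inv_eq_iff_eq_mul] at h
      exact h.symm
  have hcomm : ∀ x y, ⁅π x, π y⁆ = 1 ∨ ⁅π x, π y⁆ = z := fun x y => by
    rw [← map_commutatorElement]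
    exact hzD _ (hXD ▸ commutator_mem_commutator (mem_top x) (mem_top y))
  -- squares are in `D`
  have hCM : ∀ x : ↥M, Commute (π x) A → Commute (π x) B → x ∈ S.D := by
    intro x hxa hxb
    obtain ⟨Lb, Lba, hh, -, -, -, hLb, -⟩ := S.hyper_struct
    have key : ∀ i : ℤ, Commute (π ((S.a ^ i : ↥M) : X)) B → S.a ^ i ∈ S.D := by
      intro i hi
      rcases Int.even_or_odd' i with ⟨j, rfl | rfl⟩
      · exact ⟨j, by show (S.a ^ 2) ^ j = _; rw [← zpow_natCast, ← zpow_mul]; rfl⟩
      · exfalso
        have h2 : Commute (π (((S.a ^ 2) ^ j : ↥M) : X)) B := by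
          rcases hzD _ (⟨(S.a ^ 2) ^ j, zpow_mem (mem_zpowers _) j, rfl⟩ : (((S.a ^ 2) ^ j : ↥M) : X) ∈ D) with h | h
          · rw [h]; exact Commute.one_left _
          · rw [h]; exact hzc _
        have e : S.a = ((S.a ^ 2) ^ j)⁻¹ * S.a ^ (2 * j + 1) := by
          rw [← zpow_natCast, ← zpow_mul, zpow_add_one]
          simp
        refine hAB ?_
        rw [hA]
        conv_lhs => rw [e]
        rw [Subgroup.coe_mul, Subgroup.coe_inv, map_mul, map_inv]
        exact h2.inv_left.mul_left hi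
    by_cases hx : x ∈ zpowers S.a
    · obtain ⟨i, rfl⟩ := hx
      exact key i hxb
    · exfalso
      have hbx : S.b⁻¹ * x ∈ zpowers S.a := by
        rw [mul_mem_iff_of_index_two S.indexA, inv_mem_iff]
        exact iff_of_false S.not_mem hx
      obtain ⟨i, hi⟩ := hbx
      simp only at hi
      have hb : S.b = x * (S.a ^ i)⁻¹ := by rw [hi]; group
      refine hAB ?_
      rw [hB, hb, Subgroup.coe_mul, Subgroup.coe_inv, map_mul, map_inv,
        SubgroupClass.coe_zpow, map_zpow, ← hA]
      exact hxa.symm.mul_right ((Commute.refl A).zpow_right i).inv_right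
  have hsq : ∀ x : X, x ^ 2 ∈ D := by
    intro x
    have hxM : x ^ 2 ∈ M := by rw [← hMi]; exact M.pow_index_mem x
    have hcen : ∀ y : X, Commute (π (x ^ 2)) (π y) := by
      intro y
      rcases hcomm x y with h | h
      · rw [map_pow]; exact (commutatorElement_eq_one_iff_commute.mp h).pow_left 2
      · rw [map_pow]
        rw [commutatorElement_def, mul_inv_eq_iff_eq_mul, mul_inv_eq_iff_eq_mul] at h
        show π x ^ 2 * π y = π y * π x ^ 2
        calc π x ^ 2 * π y = π x * (π x * π y) := by rw [sq, mul_assoc]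
          _ = π x * (z * π y * π x) := by rw [h]
          _ = z * (π x * π y) * π x := by
            rw [← mul_assoc, ← mul_assoc, ← (hzc x).eq]; simp only [mul_assoc]
          _ = z * z * (π y * π x ^ 2) := by rw [h, sq]; simp only [mul_assoc]
          _ = π y * π x ^ 2 := by rw [hzz, one_mul]
    exact ⟨⟨x ^ 2, hxM⟩, hCM ⟨x ^ 2, hxM⟩ (hcen S.a) (hcen S.b), rfl⟩
  have hΦD : frat (⊤ : Subgroup X) = D := by
    refine le_antisymm ?_ (hDX.trans hXΦ)
    intro x hx
    obtain ⟨y, hy, rfl⟩ := hx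
    have hle : frattini ↥(⊤ : Subgroup X) ≤ D.subgroupOf ⊤ := by
      refine PGroupFrattini.frattini_le Nat.prime_two _ ?_ fun w => hsq w
      rw [_root_.commutator_def, Subgroup.commutator_le]
      intro u _ v _
      exact hXD ▸ commutator_mem_commutator (mem_top (u : X)) (mem_top (v : X))
    exact hle hy
  have hD8 : D.index = 8 := by
    have h := D.card_mul_index
    rw [hDc, add_zero, hX, show k + 1 + 1 = (k - 1) + 3 by omega, pow_add] at h
    exact Nat.eq_of_mul_eq_mul_left (pow_pos two_pos _) h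
  -- a central element outside `M`
  obtain ⟨c, hcM, hca, hcb⟩ : ∃ c, c ∉ M ∧ Commute (π c) A ∧ Commute (π c) B := by
    obtain ⟨g, hg⟩ : ∃ g, g ∉ M := by
      by_contra! h
      rw [(eq_top_iff' _).mpr h, index_top] at hMi
      norm_num at hMi
    have hABz : B * A = z * (A * B) := by
      rcases hcomm (S.b : X) (S.a : X) with h | h
      · exact absurd (commutatorElement_eq_one_iff_commute.mp h).symm hAB
      · rw [commutatorElement_def, mul_inv_eq_iff_eq_mul, mul_inv_eq_iff_eq_mul] at h
        rw [← hA, ← hB] at h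
        rw [h, mul_assoc]
    have hABz' : A * B = z * (B * A) := by rw [hABz, ← mul_assoc, hzz, one_mul]
    -- multiply by `b`, then by `a`
    obtain ⟨g, hg, hga⟩ : ∃ g, g ∉ M ∧ Commute (π g) A := by
      rcases hcomm g S.a with h | h
      · exact ⟨g, hg, commutatorElement_eq_one_iff_commute.mp h⟩
      · rw [commutatorElement_def, mul_inv_eq_iff_eq_mul, mul_inv_eq_iff_eq_mul, ← hA] at h
        refine ⟨g * S.b, fun h' => hg (by simpa using M.mul_mem h' (M.inv_mem S.b.2)), ?_⟩
        rw [map_mul, ← hB]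
        show π g * B * A = A * (π g * B)
        rw [mul_assoc, hABz, ← mul_assoc, ← (hzc g).eq, mul_assoc z, ← mul_assoc (π g), h]
        simp only [← mul_assoc]
        rw [hzz, one_mul]
    rcases hcomm g S.b with h | h
    · exact ⟨g, hg, hga, commutatorElement_eq_one_iff_commute.mp h⟩
    · rw [commutatorElement_def, mul_inv_eq_iff_eq_mul, mul_inv_eq_iff_eq_mul, ← hB] at h
      refine ⟨g * S.a, fun h' => hg (by simpa using M.mul_mem h' (M.inv_mem S.a.2)), ?_, ?_⟩
      · rw [map_mul, ← hA]; exact hga.mul_left (Commute.refl _)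
      · rw [map_mul, ← hA]
        show π g * A * B = B * (π g * A)
        rw [mul_assoc, hABz', ← mul_assoc, ← (hzc g).eq, mul_assoc z, ← mul_assoc (π g), h]
        simp only [← mul_assoc]
        rw [hzz, one_mul]
  have hMgen : ∀ (Y : Subgroup (X ⧸ N)), A ∈ Y → B ∈ Y → M ≤ Y.comap π := by
    intro Y hYA hYB
    have h : zpowers S.a ⊔ zpowers S.b ≤ (Y.comap π).comap M.subtype :=
      sup_le (zpowers_le.mpr hYA) (zpowers_le.mpr hYB)
    rw [S.gen] at h
    exact fun x hx => h (mem_top (⟨x, hx⟩ : ↥M))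
  have hXgen : ∀ (K : Subgroup X), M ≤ K → c ∈ K → K = ⊤ := by
    intro K hK hc
    have hd := relIndex_mul_index hK
    rw [hMi] at hd
    rcases (Nat.dvd_prime Nat.prime_two).mp (Dvd.intro _ hd) with h1 | h1
    · exact absurd (relIndex_eq_one.mp h1 hc) hcM
    · rw [h1] at hd
      exact index_eq_one.mp (by omega)
  set Z := (center (X ⧸ N)).comap π with hZ
  have hcZ : c ∈ Z := by
    show π c ∈ center (X ⧸ N)
    rw [mem_center_iff]
    intro q
    obtain ⟨x, rfl⟩ := QuotientGroup.mk'_surjective N q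
    have hK : x ∈ (centralizer {π c}).comap π := by
      rw [hXgen ((centralizer {π c}).comap π)
        (hMgen _ (mem_centralizer_singleton_iff.mpr hca.eq.symm) (mem_centralizer_singleton_iff.mpr hcb.eq.symm))
        (mem_centralizer_singleton_iff.mpr rfl)]
      trivial
    exact mem_centralizer_singleton_iff.mp hK
  have hDZ : D ≤ Z := fun d hd => by
    show π d ∈ center (X ⧸ N)
    rw [mem_center_iff]
    intro q
    obtain ⟨x, rfl⟩ := QuotientGroup.mk'_surjective N q
    rcases hzD d hd with h | h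
    · rw [h, mul_one, one_mul]
    · rw [h]; exact (hzc x).eq.symm
  have hZne : Z ≠ ⊤ := fun h => by
    have hm : (S.a : X) ∈ Z := by rw [h]; trivial
    exact hAB ((mem_center_iff.mp hm B)).symm
  have hiff : ∀ L ∈ hyper 2 (⊤ : Subgroup X) D, MC L ↔ ¬ Z ≤ L := by
    intro L hL
    obtain ⟨hDL, -, hLi⟩ := mem_hyper.mp hL
    rw [relIndex_top_right] at hLi
    have hLc : Nat.card L = 2 ^ (k + 1) := by
      have := card_le_of_mem_hyper hL
      rw [card_top, hX, pow_succ] at this
      omega
    have hcard : Nat.card (commutator ↥L) = Nat.card ↥⁅L, L⁆ := by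
      rw [← Subgroup.map_subtype_commutator L, card_map_of_injective L.subtype_injective]
    have hLD : ⁅L, L⁆ ≤ D := hXD ▸ commutator_mono le_top le_top
    have habiff : MC L ↔ ¬ ∀ u ∈ L, ∀ v ∈ L, Commute (π u) (π v) := by
      constructor
      · rintro ⟨-, h4⟩ hcom
        have hle : ⁅L, L⁆ ≤ N := by
          rw [commutator_le]
          intro u hu v hv
          rw [← QuotientGroup.eq_one_iff, ← QuotientGroup.mk'_apply, map_commutatorElement]
          exact commutatorElement_eq_one_iff_commute.mpr (hcom u hu v hv)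
        have h1 := Subgroup.card_le_of_le hle
        have h2 := (commutator ↥L).card_mul_index
        rw [h4, hcard, hLc] at h2
        have h3 : Nat.card N * 2 = 2 ^ (k - 1) := by
          rw [hN, card_map_of_injective M.subtype_injective, S.card_N]
        rw [show k + 1 = (k - 1) + 2 by omega, pow_add] at h2
        have : 0 < Nat.card N := Nat.card_pos
        omega
      · intro hnot
        refine ⟨?_, ?_⟩
        · rw [hLc]
          calc 8 = 2 ^ 3 := by norm_num
            _ ≤ _ := Nat.pow_le_pow_right two_pos hm3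
        · have heq : ⁅L, L⁆ = D := by
            have hsub : ⁅L, L⁆.subgroupOf M = S.D := by
              refine S.eq_D ?_ fun h => hnot fun u hu v hv => ?_
              · intro x hx
                have := hLD hx
                rwa [hD, mem_map_iff_mem M.subtype_injective] at this
              · rw [← commutatorElement_eq_one_iff_commute, ← map_commutatorElement,
                  QuotientGroup.mk'_apply, QuotientGroup.eq_one_iff]
                have hm := hLD (commutator_mem_commutator hu hv)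
                obtain ⟨y, -, hy⟩ := hm
                exact ⟨y, h (show (y : X) ∈ ⁅L, L⁆ by
                  rw [show (y : X) = ⁅u, v⁆ from hy]; exact commutator_mem_commutator hu hv), hy⟩
            refine le_antisymm hLD ?_
            rw [hD, ← hsub]
            exact (map_subgroupOf_eq_of_le (hLD.trans (map_subtype_le _))).le
          have h2 := (commutator ↥L).card_mul_index
          rw [hcard, heq, hDc, add_zero, hLc, show k + 1 = (k - 1) + 2 by omega, pow_add] at h2
          exact Nat.eq_of_mul_eq_mul_left (pow_pos two_pos _) h2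
    rw [habiff, not_iff_not]
    constructor
    · intro hcom
      by_contra hZL
      refine hAB ?_
      have hLZ : L ⊔ Z = ⊤ := by
        have hlt : L < L ⊔ Z := lt_of_le_of_ne le_sup_left fun h => hZL (h ▸ le_sup_right)
        have hd := relIndex_mul_index hlt.le
        rw [hLi] at hd
        rcases (Nat.dvd_prime Nat.prime_two).mp (Dvd.intro _ hd) with h1 | h1
        · exact absurd (relIndex_eq_one.mp h1) (not_le_of_gt hlt)
        · rw [h1] at hd
          exact index_eq_one.mp (by omega)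
      have hall : ∀ u ∈ L, ∀ x : X, Commute (π u) (π x) := by
        intro u hu x
        have hle : L ⊔ Z ≤ (centralizer {π u}).comap π :=
          sup_le (fun v hv => mem_centralizer_singleton_iff.mpr (hcom v hv u hu).eq)
            (fun v hv => mem_centralizer_singleton_iff.mpr (mem_center_iff.mp hv (π u)).symm)
        rw [hLZ] at hle
        exact (mem_centralizer_singleton_iff.mp (hle (mem_top x))).symm
      have hle : L ⊔ Z ≤ (center (X ⧸ N)).comap π :=
        sup_le (fun v hv => by
          show π v ∈ center (X ⧸ N)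
          rw [mem_center_iff]
          intro q
          obtain ⟨x, rfl⟩ := QuotientGroup.mk'_surjective N q
          exact (hall v hv x).eq.symm) le_rfl
      rw [hLZ] at hle
      exact (mem_center_iff.mp (hle (mem_top (S.a : X))) B).symm
    · intro hZL u hu v hv
      -- modulo `c`, reduce to `L ⊓ M`
      have hred : ∀ u ∈ L, ∃ w ∈ L ⊓ M, ∀ q, Commute (π w) q → Commute (π u) q ∨ ∃ i, u = w * c ^ (i : ℕ) := by
        intro u hu
        by_cases h : u ∈ M
        · exact ⟨u, ⟨hu, h⟩, fun q hq => Or.inl hq⟩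
        · refine ⟨u * c⁻¹, ⟨L.mul_mem hu (L.inv_mem (hZL hcZ)), ?_⟩, fun q _ => Or.inr ⟨1, by simp⟩⟩
          show u * c⁻¹ ∈ M
          rw [mul_mem_iff_of_index_two hMi, inv_mem_iff]
          exact iff_of_false h hcM
      obtain ⟨w, hw, hwu⟩ := hred u hu
      obtain ⟨w', hw', hwv⟩ := hred v hv
      have hcc : ∀ q, Commute (π c) q := fun q => (mem_center_iff.mp hcZ q).symm
      suffices hww : Commute (π w) (π w') by
        have h1 : Commute (π u) (π w') := by
          rcases hwu _ hww with h | ⟨i, rfl⟩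
          · exact h
          · rw [map_mul, map_pow]; exact hww.mul_left ((hcc _).pow_left i)
        rcases hwv _ h1.symm with h | ⟨i, rfl⟩
        · exact h.symm
        · rw [map_mul, map_pow]; exact h1.mul_right ((hcc _).symm.pow_right i)
      -- `(L ⊓ M) / D` has order two
      by_cases hwD : w ∈ D
      · rcases hzD w hwD with h | h
        · rw [h]; exact Commute.one_left _
        · rw [h]; exact hzc _
      by_cases hwD' : w' ∈ D
      · rcases hzD w' hwD' with h | h
        · rw [h]; exact Commute.one_right _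
        · rw [h]; exact (hzc _).symm
      have hidx : D.relIndex (L ⊓ M) = 2 := by
        have hDM : D ≤ M := map_subtype_le _
        have hd := relIndex_mul_relIndex D (L ⊓ M) M (le_inf hDL hDM) inf_le_right
        have h4 : D.relIndex M = 4 := by
          rw [hD, relIndex, subgroupOf, comap_map_eq_self_of_injective M.subtype_injective, S.index_D]
        rw [h4] at hd
        have hle2 : (L ⊓ M).relIndex M ≤ 2 := by
          rw [inf_relIndex_right]
          exact Nat.le_of_dvd two_pos (hLi ▸ (haveI : L.Normal := normal_of_index_eq_two hLi; relIndex_dvd_index_of_normal L M))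
        have hne0 : (L ⊓ M).relIndex M ≠ 0 := fun h => by rw [h, mul_zero] at hd; norm_num at hd
        have hne1 : (L ⊓ M).relIndex M ≠ 1 := fun h => by
          have hL' := hXgen L ((relIndex_eq_one.mp h).trans inf_le_left) (hZL hcZ)
          rw [hL', index_top] at hLi
          norm_num at hLi
        have h2 : (L ⊓ M).relIndex M = 2 := by omega
        rw [h2] at hd
        omega
      have hm : (⟨w, hw⟩ : ↥(L ⊓ M))⁻¹ * ⟨w', hw'⟩ ∈ D.subgroupOf (L ⊓ M) := by
        rw [mul_mem_iff_of_index_two hidx, inv_mem_iff]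
        exact iff_of_false hwD hwD'
      have e : π w' = π w * π (w⁻¹ * w') := by rw [← map_mul, mul_inv_cancel_left]
      rw [e]
      refine (Commute.refl _).mul_right ?_
      rcases hzD _ (show w⁻¹ * w' ∈ D from hm) with h | h
      · rw [h]; exact Commute.one_right _
      · rw [h]; exact (hzc _).symm
  rw [hΦD]
  refine ⟨?_, fun _ L hL hLc => ?_⟩
  · have hcongr : (hyper 2 (⊤ : Subgroup X) D).filter (fun L : Subgroup X => MC L) =
        (hyper 2 (⊤ : Subgroup X) D).filter fun L => ¬ Z ≤ L := Finset.filter_congr hiff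
    rw [hcongr]
    have hsplit := Finset.card_filter_add_card_filter_not (s := hyper 2 (⊤ : Subgroup X) D) (fun L => Z ≤ L)
    have hsub : (hyper 2 (⊤ : Subgroup X) D).filter (fun L => Z ≤ L) = hyper 2 ⊤ Z := by
      ext L
      simp only [Finset.mem_filter, mem_hyper]
      exact ⟨fun h => ⟨h.2, h.1.2⟩, fun h => ⟨⟨hDZ.trans h.1, h.2⟩, h.1⟩⟩
    rw [hsub] at hsplit
    have hEZ : ElemQuot 2 (⊤ : Subgroup X) Z := ((hΦD ▸ hE).mono hDZ le_top).2
    have h1 := hyper_modEq_one (hXp.to_subgroup _) hEZ hZne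
    have h2 := hyper_modEq_one (hXp.to_subgroup _) (hΦD ▸ hE : ElemQuot 2 (⊤ : Subgroup X) D)
      (fun h => by rw [h, index_top] at hD8; norm_num at hD8)
    have h1' : (hyper 2 (⊤ : Subgroup X) Z).card % 2 = 1 := h1
    have h2' : (hyper 2 (⊤ : Subgroup X) D).card % 2 = 1 := h2
    omega
  · obtain ⟨hDL, -, hLi⟩ := mem_hyper.mp hL
    rw [relIndex_top_right] at hLi
    obtain ⟨S', -⟩ := exists_setup (m := k + 1) (by omega) hX hnc L hLc hLi
    have := S'.index_D
    rw [← S'.frat_eq, hΦD, hD8] at this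
    norm_num at this

theorem not_cyclic_top [Finite X] (h : ¬ IsCyclic X) : ¬ IsCyclic ↥(⊤ : Subgroup X) :=
  fun hc => h (topEquiv.isCyclic.mp hc)

/-- Kulakoff for `p = 2`. -/
theorem kulakoff_two.{u} (m : ℕ) : ∀ (X : Type u) [Group X] [Finite X], Nat.card X = 2 ^ m →
    ¬ IsCyclic X → ∀ k, 1 ≤ k → k < m →
      (MC X → k + 2 ≤ m → (subs 2 (⊤ : Subgroup X) k).card ≡ 1 [MOD 2 ^ 2]) ∧
      ((¬ MC X ∨ k + 1 = m) → (subs 2 (⊤ : Subgroup X) k).card ≡ 1 + 2 [MOD 2 ^ 2]) := by
  induction m with
  | zero => intro X _ _ _ _ k _ h; omega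
  | succ m ih =>
    intro X _ _ hX hnc k hk1 hk2
    classical
    have hXp : IsPGroup 2 X := IsPGroup.of_card hX
    have hT : Nat.card ↥(⊤ : Subgroup X) = 2 ^ (m + 1) := by rw [card_top]; exact hX
    have hTnc := not_cyclic_top hnc
    rcases Nat.lt_or_ge k m with hkm | hkm
    swap
    · obtain rfl : k = m := by omega
      refine ⟨fun _ h => by omega, fun _ => ?_⟩
      rw [subs_eq_hyper hT]
      exact hyper_frat_modEq (hXp.to_subgroup _) hTnc
    have hsub : ∀ M ∈ hyper 2 (⊤ : Subgroup X) (frat ⊤),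
        Nat.card ↥M = 2 ^ m ∧ (subs 2 M k).card = (subs 2 (⊤ : Subgroup ↥M) k).card := by
      intro M hM
      refine ⟨?_, by rw [card_subs_eq, card_subs_top]⟩
      have := card_le_of_mem_hyper hM
      rw [card_top, hX, pow_succ] at this
      omega
    have hfin : ∀ (Good : Subgroup X → Prop) [DecidablePred Good],
        (∀ M ∈ hyper 2 (⊤ : Subgroup X) (frat ⊤), Good M → (subs 2 M k).card ≡ 1 + 2 [MOD 2 ^ 2]) →
        (∀ M ∈ hyper 2 (⊤ : Subgroup X) (frat ⊤), ¬ Good M → (subs 2 M k).card ≡ 1 [MOD 2 ^ 2]) →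
        (((hyper 2 (⊤ : Subgroup X) (frat ⊤)).filter Good).card % 2 = 0 →
          (subs 2 (⊤ : Subgroup X) k).card ≡ 1 [MOD 2 ^ 2]) ∧
        (((hyper 2 (⊤ : Subgroup X) (frat ⊤)).filter Good).card % 2 = 1 →
          (subs 2 (⊤ : Subgroup X) k).card ≡ 1 + 2 [MOD 2 ^ 2]) := by
      intro Good _ hg hb
      have h := combine hT (by omega) hTnc Good hg hb
      generalize (subs 2 (⊤ : Subgroup X) k).card = n at h ⊢
      generalize ((hyper 2 (⊤ : Subgroup X) (frat ⊤)).filter Good).card = t at h ⊢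
      unfold Nat.ModEq at h ⊢
      constructor <;> intro ht <;> omega
    have hcycparity : ∀ C ∈ hyper 2 (⊤ : Subgroup X) (frat ⊤), IsCyclic C →
        ((MC X → ((hyper 2 (⊤ : Subgroup X) (frat ⊤)).filter fun L : Subgroup X => ¬ IsCyclic L).card % 2 = 0) ∧
        (¬ MC X → ((hyper 2 (⊤ : Subgroup X) (frat ⊤)).filter fun L : Subgroup X => ¬ IsCyclic L).card % 2 = 1)) := by
      intro C hC hCc
      obtain ⟨-, -, hCi⟩ := mem_hyper.mp hC
      rw [relIndex_top_right] at hCi
      obtain ⟨S, -⟩ := exists_setup (by omega) hX hnc C hCc hCi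
      rw [S.frat_eq]
      exact S.cyclic_count
    have hodd : (hyper 2 (⊤ : Subgroup X) (frat ⊤)).card % 2 = 1 := by
      have h := hyper_frat_modEq (p := 2) (hXp.to_subgroup (⊤ : Subgroup X)) hTnc
      unfold Nat.ModEq at h
      omega
    have hCex : MC X → ∃ C ∈ hyper 2 (⊤ : Subgroup X) (frat ⊤), IsCyclic C := by
      rintro ⟨-, h4⟩
      obtain ⟨C, hC, hCi⟩ := Lib.Thompson.exists_cyclic_index_two (by omega) hX h4
      exact ⟨C, (relIndex_p_iff_hyper (hXp.to_subgroup _)).mpr ⟨le_top, by rw [relIndex_top_right, hCi]⟩, hC⟩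
    rcases Nat.lt_or_ge (k + 1) m with hk3 | hk3
    · -- `k` is small: the good maximal subgroups are neither cyclic nor of maximal class
      obtain ⟨g0, g1⟩ := hfin (fun M : Subgroup X => ¬ IsCyclic M ∧ ¬ MC M)
        (fun M hM hMg => by
          obtain ⟨hc, he⟩ := hsub M hM
          rw [he]; exact (ih ↥M hc hMg.1 k hk1 (by omega)).2 (Or.inl hMg.2))
        (fun M hM hMg => by
          obtain ⟨hc, he⟩ := hsub M hM
          by_cases hMc : IsCyclic M
          · rw [card_subs_of_isCyclic hc (by omega) hMc]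
          · rw [he]; exact (ih ↥M hc hMc k hk1 (by omega)).1 (by tauto) (by omega))
      refine ⟨fun hmc _ => g0 ?_, fun h => g1 ?_⟩
      · rw [Finset.filter_false_of_mem, Finset.card_empty]
        rintro M hM ⟨hMc, hMm⟩
        obtain ⟨C, hC, hCc⟩ := hCex hmc
        obtain ⟨-, -, hCi⟩ := mem_hyper.mp hC
        rw [relIndex_top_right] at hCi
        obtain ⟨S, -⟩ := exists_setup (by omega) hX hnc C hCc hCi
        rw [S.frat_eq] at hM
        exact hMm (S.mc_hyper (by omega) hmc hM hMc)
      · have hmc : ¬ MC X := h.resolve_right (by omega)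
        obtain ⟨heven, hnocyc⟩ := mc_count_even hX hnc hmc
        have hsplit := Finset.card_filter_add_card_filter_not
          (s := hyper 2 (⊤ : Subgroup X) (frat ⊤)) (fun M : Subgroup X => MC M)
        by_cases h0 : ((hyper 2 (⊤ : Subgroup X) (frat ⊤)).filter fun L : Subgroup X => MC L).card = 0
        · have hnone : ∀ M ∈ hyper 2 (⊤ : Subgroup X) (frat ⊤), ¬ MC M :=
            Finset.filter_eq_empty_iff.mp (Finset.card_eq_zero.mp h0)
          rw [Finset.filter_congr fun M hM => and_iff_left (hnone M hM)]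
          by_cases hex : ∃ C ∈ hyper 2 (⊤ : Subgroup X) (frat ⊤), IsCyclic C
          · obtain ⟨C, hC, hCc⟩ := hex
            exact (hcycparity C hC hCc).2 hmc
          · push Not at hex
            rw [Finset.filter_true_of_mem hex]; exact hodd
        · rw [Finset.filter_congr fun M hM => and_iff_right (hnocyc h0 M hM)]
          omega
    · -- `k + 1 = m`
      obtain ⟨g0, g1⟩ := hfin (fun M : Subgroup X => ¬ IsCyclic M)
        (fun M hM hMg => by
          obtain ⟨hc, he⟩ := hsub M hM
          rw [he]; exact (ih ↥M hc hMg k hk1 (by omega)).2 (Or.inr (by omega)))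
        (fun M hM hMg => by
          obtain ⟨hc, he⟩ := hsub M hM
          rw [card_subs_of_isCyclic hc (by omega) (not_not.mp hMg)])
      refine ⟨fun hmc _ => g0 ?_, fun h => g1 ?_⟩
      · obtain ⟨C, hC, hCc⟩ := hCex hmc
        exact (hcycparity C hC hCc).1 hmc
      · have hmc : ¬ MC X := h.resolve_right (by omega)
        by_cases hex : ∃ C ∈ hyper 2 (⊤ : Subgroup X) (frat ⊤), IsCyclic C
        · obtain ⟨C, hC, hCc⟩ := hex
          exact (hcycparity C hC hCc).2 hmc
        · push Not at hex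
          rw [Finset.filter_true_of_mem hex]; exact hodd

end Cfsg.Agent.Lib.CountModSq
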