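import Cfsg.Prelude.Def_PLocal
import Cfsg.Agent.Lib.Hall.Solvable
import Cfsg.Agent.Lib.Coprime.Abelian
import Cfsg.Agent.Lib.PLength.Basic
import Cfsg.Agent.Lib.Transfer.Fusion

/-!
Solvable groups with an abelian Hall `p'`-subgroup, and maximal abelian `p'`-subgroups of a finite
group in which all `p'`-subgroups are abelian.
-/

set_option autoImplicit false

open Subgroup
open scoped Pointwise commutatorElement

namespace Cfsg.Agent.Lib.PPrimeAbelian

universe u

variable {G : Type u} [Group G] [Finite G] {p : ℕ} [hp : Fact p.Prime]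

theorem exists_pow_of_forall_prime {n : ℕ} (hn : n ≠ 0)
    (h : ∀ q : ℕ, q.Prime → q ∣ n → q = p) : ∃ k : ℕ, n = p ^ k :=
  ⟨_, Nat.eq_prime_pow_of_unique_prime_dvd hn fun {q} hq hd => h q hq hd⟩

/-- A Hall `p'`-subgroup of a solvable group. -/
theorem exists_hall [Group.IsSolvable G] (p : ℕ) [hp : Fact p.Prime] :
    ∃ T : Subgroup G, (Nat.card T).Coprime p ∧ ∃ k : ℕ, T.index = p ^ k := by
  obtain ⟨T, hT, hTi⟩ := Hall.exists_piHall (G := G) {q : ℕ | q ≠ p}
  refine ⟨T, ((Nat.Prime.coprime_iff_not_dvd hp.out).2 fun h => hT p hp.out h rfl).symm,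
    exists_pow_of_forall_prime index_ne_zero_of_finite fun q hq hd => ?_⟩
  by_contra hne
  exact hTi q hq hne hd

/-- In a solvable group with an abelian Hall `p'`-subgroup `T`, the product `O_p T` is normal and
contains every `p`-subgroup normalised by `T` in its `p`-part. -/
theorem abelian_hall_structure [Group.IsSolvable G] (T : Subgroup G) [IsMulCommutative T]
    (hT : (Nat.card T).Coprime p) (hidx : ∃ k : ℕ, T.index = p ^ k) :
    (pCore p G ⊔ T).Normal ∧
      ∀ X : Subgroup G, IsPGroup p X → T ≤ normalizer (X : Set G) → X ≤ pCore p G := by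
  set O := pCore p G with hO
  set f := QuotientGroup.mk' O with hf
  set Tb := T.map f with hTbdef
  set B := pPrimeCore p (G ⧸ O) with hB
  have hOb : pCore p (G ⧸ O) = ⊥ := PLength.pCore_quotient_pCore_eq_bot
  have hTbc : (Nat.card Tb).Coprime p := hT.coprime_dvd_left (card_map_dvd _ _)
  obtain ⟨k, hk⟩ := hidx
  have hTbi : (Nat.card Tb).Coprime Tb.index :=
    Nat.Coprime.coprime_dvd_right (hk ▸ index_map_dvd T (QuotientGroup.mk'_surjective O))
      (hTbc.pow_right k)
  have hBi : (Nat.card B).Coprime Tb.index :=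
    Nat.Coprime.coprime_dvd_right (hk ▸ index_map_dvd T (QuotientGroup.mk'_surjective O))
      ((Hall.coprime_card_pPrimeCore p).pow_right k)
  have hBT : B ≤ Tb := by
    obtain ⟨g, hg⟩ := Hall.exists_le_conj hTbi hBi
    intro b hb
    have h1 := hg ((inferInstance : B.Normal).conj_mem b hb g)
    rw [Coprime.mem_conj_smul] at h1
    simpa [mul_assoc] using h1
  have hFB : fittingSubgroup (G ⧸ O) ≤ B := by
    rw [Hall.fittingSubgroup_eq_iSup_pCore]
    refine iSup_le fun q => ?_
    by_cases hq : (q : ℕ) = p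
    · rw [hq, hOb]; exact bot_le
    · have : Fact (q : ℕ).Prime := ⟨q.2⟩
      obtain ⟨m, hm⟩ := IsPGroup.iff_card.mp (Hall.isPGroup_pCore (G := G ⧸ O) (q : ℕ))
      refine Hall.le_pPrimeCore ?_
      rw [hm]
      exact Nat.Coprime.pow_left m ((Nat.coprime_primes q.2 hp.out).mpr hq)
  have hCB : centralizer (B : Set (G ⧸ O)) ≤ B :=
    (centralizer_le hFB).trans (Hall.centralizer_fittingSubgroup_le.trans hFB)
  have hTB : Tb = B := by
    refine le_antisymm (fun t ht => hCB (mem_centralizer_iff.mpr fun b hb => ?_)) hBT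
    obtain ⟨x, hx, rfl⟩ := ht
    obtain ⟨y, hy, rfl⟩ := hBT hb
    rw [← map_mul, ← map_mul]
    exact congrArg f (congrArg Subtype.val (mul_comm' (⟨y, hy⟩ : T) ⟨x, hx⟩))
  have hcomap : O ⊔ T = Tb.comap f := by
    rw [hTbdef, comap_map_eq, QuotientGroup.ker_mk', sup_comm]
  refine ⟨?_, fun X hX hTX => ?_⟩
  · rw [hcomap, hTB]; exact Subgroup.Normal.comap inferInstance f
  · set Xb := X.map f
    have hdis : B ⊓ Xb = ⊥ := by
      refine Coprime.inf_eq_bot_of_coprime ?_
      obtain ⟨m, hm⟩ := IsPGroup.iff_card.mp (hX.map f)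
      rw [hm]
      exact (Hall.coprime_card_pPrimeCore p).pow_right m
    have hXC : Xb ≤ centralizer (B : Set (G ⧸ O)) := by
      intro x hx
      rw [mem_centralizer_iff]
      intro b hb
      have h1 : b * x * b⁻¹ * x⁻¹ ∈ B ⊓ Xb := by
        refine ⟨?_, ?_⟩
        · have := B.mul_mem hb ((inferInstance : B.Normal).conj_mem b⁻¹ (B.inv_mem hb) x)
          simpa [mul_assoc] using this
        · obtain ⟨y, hy, rfl⟩ := hBT hb
          obtain ⟨z, hz, rfl⟩ := hx
          refine ⟨y * z * y⁻¹ * z⁻¹, X.mul_mem ?_ (X.inv_mem hz), by simp⟩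
          exact (mem_normalizer_iff.mp (hTX hy) z).mp hz
      rw [hdis, mem_bot, mul_inv_eq_one, mul_inv_eq_iff_eq_mul] at h1
      exact h1
    have hXb : Xb = ⊥ := eq_bot_iff.mpr (hdis ▸ le_inf (hXC.trans hCB) le_rfl)
    rw [show O = f.ker from (QuotientGroup.ker_mk' O).symm]
    exact (map_eq_bot_iff X).mp hXb

/-- A `p'`-subgroup contained in no larger one. -/
def IsMaxPPrime (p : ℕ) (A : Subgroup G) : Prop :=
  (Nat.card A).Coprime p ∧ ∀ B : Subgroup G, (Nat.card B).Coprime p → A ≤ B → B = A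

omit hp in
theorem exists_isMaxPPrime {S : Subgroup G} (hS : (Nat.card S).Coprime p) :
    ∃ A : Subgroup G, S ≤ A ∧ IsMaxPPrime p A := by
  obtain ⟨A, hSA, hA⟩ := Finite.exists_le_maximal
    (p := fun B : Subgroup G => (Nat.card B).Coprime p) (a := S) hS
  exact ⟨A, hSA, hA.prop, fun B hB hAB => (hA.eq_of_ge hB hAB)⟩

/-- The structure of a solvable subgroup containing a maximal `p'`-subgroup. -/
theorem overgroup {A H : Subgroup G} [IsMulCommutative A] (hA : IsMaxPPrime p A)
    (hH : Group.IsSolvable H) (hAH : A ≤ H) :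
    ∃ R : Subgroup G, R ≤ H ∧ IsPGroup p R ∧ A ≤ normalizer (R : Set G) ∧
      (∀ X : Subgroup G, X ≤ H → IsPGroup p X → A ≤ normalizer (X : Set G) → X ≤ R) ∧
      H ≤ R ⊔ normalizer (A : Set G) ∧
      (∀ P : Sylow p G, (P : Subgroup G) ≤ ⁅H, H⁆ → H ≤ R ⊔ A) := by
  set A' := A.subgroupOf H with hA'
  obtain ⟨T₀, hT₀, k, hk⟩ := exists_hall (G := H) p
  have hA'c : (Nat.card A').Coprime p := by rw [hA', Coprime.card_subgroupOf hAH]; exact hA.1
  obtain ⟨g, hg⟩ := Hall.exists_le_conj (H := T₀) (K := A')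
    (hk ▸ hT₀.pow_right k) (hk ▸ hA'c.pow_right k)
  have hgA : MulAut.conj g • T₀ = A' := by
    refine le_antisymm ?_ hg
    have h1 : (MulAut.conj g • T₀).map H.subtype = A := by
      refine hA.2 _ ?_ ?_
      · rw [card_subtype, Coprime.card_conj_smul]; exact hT₀
      · calc A = A'.map H.subtype := by rw [hA', subgroupOf_map_subtype, inf_eq_left.mpr hAH]
          _ ≤ _ := map_mono hg
    intro x hx
    rw [hA', mem_subgroupOf, ← h1]
    exact mem_map_of_mem _ hx
  have hidx : A'.index = p ^ k := by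
    refine mul_left_cancel₀ (Nat.card_pos (α := A')).ne' ?_
    rw [card_mul_index, ← hk, ← T₀.card_mul_index]
    congr 1
    rw [← hgA, Coprime.card_conj_smul]
  haveI : IsMulCommutative A' := ⟨⟨fun a b => by
    have h : ((a : H) : G) * ((b : H) : G) = ((b : H) : G) * ((a : H) : G) :=
      congrArg Subtype.val (mul_comm' (⟨_, mem_subgroupOf.mp a.2⟩ : A) ⟨_, mem_subgroupOf.mp b.2⟩)
    exact Subtype.ext (Subtype.ext h)⟩⟩
  obtain ⟨hn, hmax⟩ := abelian_hall_structure A' hA'c ⟨k, hidx⟩
  set O := pCore p H with hO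
  have hAN : A ≤ normalizer ((O.map H.subtype : Subgroup G) : Set G) := by
    intro a ha
    refine mem_normalizer_fintype ?_
    rintro _ ⟨x, hx, rfl⟩
    exact ⟨⟨a, hAH ha⟩ * x * (⟨a, hAH ha⟩ : H)⁻¹,
      (inferInstance : O.Normal).conj_mem x hx _, rfl⟩
  refine ⟨O.map H.subtype, map_subtype_le _, (Hall.isPGroup_pCore p).map _, hAN, ?_, ?_, ?_⟩
  · intro X hXH hX hAX
    have h1 : X.subgroupOf H ≤ O := by
      refine hmax _ hX.comap_subtype fun a ha => ?_
      rw [mem_normalizer_iff]
      intro x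
      exact mem_normalizer_iff.mp (hAX ha) (x : G)
    calc X = (X.subgroupOf H).map H.subtype := by rw [subgroupOf_map_subtype, inf_eq_left.mpr hXH]
      _ ≤ _ := map_mono h1
  · intro h hh
    set h' : H := ⟨h, hh⟩
    have hA'N : A' ≤ normalizer (O : Set H) := le_normalizer_of_normal
    have hcop : (Nat.card A').Coprime (Nat.card O) := by
      obtain ⟨m, hm⟩ := IsPGroup.iff_card.mp (Hall.isPGroup_pCore (G := H) p)
      rw [hO, hm]; exact hA'c.pow_right m
    have hle : MulAut.conj h' • A' ≤ A' ⊔ O := by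
      intro x hx
      rw [Coprime.mem_conj_smul] at hx
      have h1 := hn.conj_mem _ (mem_sup_right (S := O) hx) h'
      rw [sup_comm] at h1
      simpa [mul_assoc] using h1
    obtain ⟨n, hnO, hne⟩ := Coprime.exists_conj_eq_of_le_sup hA'N hcop
      (Or.inr inferInstance) hle (Coprime.card_conj_smul _ _)
    have key : n⁻¹ * h' ∈ normalizer (A' : Set H) := by
      refine mem_normalizer_fintype fun a ha => ?_
      have h1 : h' * a * h'⁻¹ ∈ MulAut.conj n • A' := by
        rw [hne, Coprime.mem_conj_smul]; simpa [mul_assoc] using ha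
      rw [Coprime.mem_conj_smul] at h1
      simpa [mul_assoc] using h1
    rw [show h = ((n : H) : G) * (((n⁻¹ * h' : H)) : G) by simp [h']]
    refine mul_mem_sup (mem_map_of_mem _ hnO) ?_
    refine mem_normalizer_fintype fun a ha => ?_
    have h2 := (mem_normalizer_iff.mp key ⟨a, hAH ha⟩).mp (mem_subgroupOf.mpr ha)
    exact mem_subgroupOf.mp h2
  · intro P hP
    have hPH : (P : Subgroup G) ≤ H := hP.trans (commutator_le_self H)
    haveI := hn
    set N := O ⊔ A' with hN
    have hq : IsPGroup p (H ⧸ N) := by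
      obtain ⟨j, -, hj⟩ := (Nat.dvd_prime_pow hp.out).mp
        (hidx ▸ index_dvd_of_le (le_sup_right : A' ≤ N))
      exact IsPGroup.of_card (n := j) (by rw [← index_eq_card]; exact hj)
    have htop : N = ⊤ := by
      have hPs : ((P.subtype hPH : Sylow p H) : Subgroup H) ≤ commutator H := by
        intro x hx
        have h1 : (x : G) ∈ ⁅H, H⁆ := hP hx
        rw [← map_subtype_commutator] at h1
        obtain ⟨y, hy, hyx⟩ := h1
        rwa [← H.subtype_injective hyx]
      have h2 := Transfer.sup_sylow_eq_top_of_isPGroup_quotient (P.subtype hPH) hq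
      have h3 : commutator (H ⧸ N) = ⊤ := by
        rw [eq_top_iff, ← map_top_of_surjective _ (QuotientGroup.mk'_surjective N), ← h2, Subgroup.map_sup,
          QuotientGroup.map_mk'_self, bot_sup_eq]
        refine (map_mono hPs).trans ?_
        rw [_root_.commutator_def, _root_.commutator_def, map_commutator]
        exact commutator_mono le_top le_top
      by_contra hne
      haveI : Nontrivial (H ⧸ N) := QuotientGroup.nontrivial_iff.mpr hne
      haveI : Group.IsNilpotent (H ⧸ N) := hq.isNilpotent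
      haveI : Group.IsSolvable (H ⧸ N) := inferInstance
      exact (Group.IsSolvable.commutator_lt_top_of_nontrivial (H ⧸ N)).ne h3
    calc H = (⊤ : Subgroup H).map H.subtype := by rw [← MonoidHom.range_eq_map, range_subtype]
      _ = O.map H.subtype ⊔ A'.map H.subtype := by rw [← htop, hN, Subgroup.map_sup]
      _ ≤ _ := sup_le_sup le_rfl (by rw [hA', subgroupOf_map_subtype]; exact inf_le_left)

end Cfsg.Agent.Lib.PPrimeAbelian
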