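import Mathlib

/-!
Stabilisers of uniform partitions are maximal in the symmetric group.
-/

set_option autoImplicit false

namespace Cfsg.Agent.Lib.PartitionStab

open Equiv MulAction
open scoped Pointwise

variable {Ω : Type*} [Fintype Ω] [DecidableEq Ω]

/-- The stabiliser of the partition into fibres of `f`. -/
def K {ι : Type*} (f : Ω → ι) : Subgroup (Perm Ω) where
  carrier := {g | ∀ x y : Ω, f x = f y ↔ f (g x) = f (g y)}
  one_mem' := fun _ _ => Iff.rfl
  mul_mem' := fun {g h} hg hh x y => (hh x y).trans (hg (h x) (h y))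
  inv_mem' := fun {g} hg x y => by
    rw [hg (g⁻¹ x) (g⁻¹ y)]
    simp

omit [Fintype Ω] [DecidableEq Ω] in
lemma closure_eq_K {ι : Type*} (f : Ω → ι) :
    Subgroup.closure {g : Perm Ω | ∀ x y : Ω, f x = f y ↔ f (g x) = f (g y)} = K f :=
  Subgroup.closure_eq (K f)

omit [Fintype Ω] in
lemma swap_mem_K {ι : Type*} (f : Ω → ι) {u v : Ω} (h : f u = f v) : Equiv.swap u v ∈ K f := by
  have : ∀ x, f (Equiv.swap u v x) = f x := fun x => by
    rw [Equiv.swap_apply_def]; split_ifs with h1 h2 <;> simp [*]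
  intro x y
  rw [this, this]

theorem isCoatom_K (a b : ℕ) (ha : 2 ≤ a) (hb : 2 ≤ b) (f : Ω → Fin b)
    (hf : ∀ i : Fin b, Nat.card {x : Ω // f x = i} = a) : IsCoatom (K f) := by
  classical
  have he : ∀ i, Nonempty ({x : Ω // f x = i} ≃ Fin a) := fun i => by
    rw [← Finite.card_eq, hf, Nat.card_fin]
  let ei := fun i => (he i).some
  let e : Ω ≃ Fin b × Fin a :=
    (Equiv.sigmaFiberEquiv f).symm.trans
      ((Equiv.sigmaCongrRight fun i => ei i).trans (Equiv.sigmaEquivProd _ _))
  have he1 : ∀ x, (e x).1 = f x := fun x => rfl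
  -- permutations of the blocks
  let P : Perm (Fin b) → Perm Ω := fun σ => e.trans ((σ.prodCongr (Equiv.refl _)).trans e.symm)
  have hP : ∀ σ x, f (P σ x) = σ (f x) := fun σ x => by
    rw [← he1, ← he1]; simp [P]
  have hPmem : ∀ σ, P σ ∈ K f := fun σ x y => by rw [hP, hP, σ.injective.eq_iff]
  have hPfix : ∀ σ x, σ (f x) = f x → P σ x = x := fun σ x h => by
    apply e.injective
    ext1
    · rw [he1, hP, he1, h]
    · simp [P]
  obtain ⟨u, v, huv, hfuv⟩ : ∃ u v : Ω, u ≠ v ∧ f u = f v := by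
    have : 1 < Nat.card {x : Ω // f x = ⟨0, by omega⟩} := by rw [hf]; omega
    obtain ⟨p, q, hpq⟩ := @exists_pair_ne _ (Finite.one_lt_card_iff_nontrivial.1 this)
    exact ⟨p, q, fun h => hpq (Subtype.ext h), p.2.trans q.2.symm⟩
  have hsur : ∀ i, ∃ x, f x = i := fun i => by
    have : 0 < Nat.card {x : Ω // f x = i} := by rw [hf]; omega
    obtain ⟨x⟩ := (Finite.card_pos_iff.1 this); exact ⟨x, x.2⟩
  refine ⟨fun htop => ?_, fun M hM => ?_⟩
  · obtain ⟨w, hw⟩ : ∃ w, f w ≠ f u := by
      have : Nontrivial (Fin b) := Fin.nontrivial_iff_two_le.2 hb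
      obtain ⟨i, hi⟩ := exists_ne (f u)
      obtain ⟨w, rfl⟩ := hsur i
      exact ⟨w, hi⟩
    have hm : Equiv.swap v w ∈ K f := htop ▸ Subgroup.mem_top _
    have h2 := (hm u v).1 hfuv
    rw [Equiv.swap_apply_of_ne_of_ne huv (fun h => hw (h ▸ rfl)), Equiv.swap_apply_left] at h2
    exact hw h2.symm
  have htr : IsPretransitive M Ω := ⟨fun x y => by
    let x' := P (Equiv.swap (f x) (f y)) x
    have hx' : f x' = f y := by rw [hP, Equiv.swap_apply_left]
    exact ⟨⟨Equiv.swap x' y * P (Equiv.swap (f x) (f y)),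
      M.mul_mem (hM.le (swap_mem_K f hx')) (hM.le (hPmem _))⟩, Equiv.swap_apply_left x' y⟩⟩
  -- the nontrivial blocks
  have hblock : ∀ B : Set Ω, IsBlock M B → ∀ x ∈ B, (∃ y ∈ B, y ≠ x) → B ≠ Set.univ →
      ∀ y, y ∈ B ↔ f y = f x := by
    intro B hB x hx hnt hne
    have hfix : ∀ k ∈ K f, k x = x → ∀ y ∈ B, k y ∈ B := by
      intro k hk hkx y hy
      have hk' : k⁻¹ ∈ K f := Subgroup.inv_mem _ hk
      have := hB.smul_eq_of_mem (g := (⟨k, hM.le hk⟩ : M)) (a := x) hx
        (by change k x ∈ B; rw [hkx]; exact hx)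
      rw [← this]
      exact Set.smul_mem_smul_set hy
    -- a point in another fibre gives everything
    have hout : ∀ y ∈ B, f y ≠ f x → False := by
      intro y hy hfy
      refine hne (Set.eq_univ_iff_forall.2 fun z => ?_)
      have hfib : ∀ y ∈ B, f y ≠ f x → ∀ z, f z = f y → z ∈ B := by
        intro y hy hfy z hz
        have := hfix _ (swap_mem_K f hz.symm) (Equiv.swap_apply_of_ne_of_ne
          (fun h => hfy (by rw [h])) (fun h => hfy (by rw [← hz, ← h]))) y hy
        rwa [Equiv.swap_apply_left] at this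
      have hall : ∀ i, i ≠ f x → ∃ y' ∈ B, f y' = i := by
        intro i hi
        refine ⟨P (Equiv.swap (f y) i) y, hfix _ (hPmem _) (hPfix _ _ ?_) y hy, ?_⟩
        · exact Equiv.swap_apply_of_ne_of_ne (Ne.symm hfy) hi.symm
        · rw [hP, Equiv.swap_apply_left]
      by_cases hz : f z = f x
      · -- move inside the fibre of `x`, fixing `y`
        have hs := swap_mem_K f hz.symm
        have h1 : (Equiv.swap x z) y = y :=
          Equiv.swap_apply_of_ne_of_ne (fun h => hfy (by rw [h])) (fun h => hfy (by rw [h, hz]))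
        have := hB.smul_eq_of_mem (g := (⟨_, hM.le hs⟩ : M)) (a := y) hy
          (by change (Equiv.swap x z) y ∈ B; rw [h1]; exact hy)
        rw [← this]
        exact ⟨x, hx, Equiv.swap_apply_left x z⟩
      · obtain ⟨y', hy', hy''⟩ := hall (f z) hz
        exact hfib y' hy' (hy'' ▸ hz) z hy''.symm
    intro y
    refine ⟨fun hy => by by_contra h; exact hout y hy h, fun hfy => ?_⟩
    obtain ⟨y₀, hy₀, hy₀x⟩ := hnt
    rcases eq_or_ne y x with rfl | hyx
    · exact hx
    have hfy₀ : f y₀ = f x := by by_contra h; exact hout y₀ hy₀ h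
    have := hfix _ (swap_mem_K f (hfy₀.trans hfy.symm)) (Equiv.swap_apply_of_ne_of_ne hy₀x.symm hyx.symm)
      y₀ hy₀
    rwa [Equiv.swap_apply_left] at this
  have hprim : IsPreprimitive M Ω :=
    { htr with
      isTrivialBlock_of_isBlock := fun {B} hB => by
        by_contra hcon
        rw [IsTrivialBlock] at hcon
        push Not at hcon
        obtain ⟨hsub, hne⟩ := hcon
        obtain ⟨x, hx, y, hy, hxy⟩ := hsub
        refine hM.not_ge fun g hg => ?_
        intro p q
        obtain ⟨k, hk⟩ := exists_smul_eq M x p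
        have hB' := hB.translate k
        have hx' : p ∈ k • B := hk ▸ Set.smul_mem_smul_set hx
        have hnt' : ∃ y ∈ k • B, y ≠ p := ⟨k • y, Set.smul_mem_smul_set hy, fun h => hxy
          ((MulAction.injective k) (hk.trans h.symm))⟩
        have hne' : k • B ≠ Set.univ := fun h => hne (by
          rw [← inv_smul_smul k B, h, Set.smul_set_univ])
        have h1 := hblock _ hB' p hx' hnt' hne'
        have hB'' := hB'.translate (⟨g, hg⟩ : M)
        have h2 := hblock _ hB'' (g p) ⟨p, hx', rfl⟩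
          (by obtain ⟨z, hz, hzp⟩ := hnt'; exact ⟨g z, ⟨z, hz, rfl⟩, fun h => hzp (g.injective h)⟩)
          (fun h => hne' (by rw [← inv_smul_smul (⟨g, hg⟩ : M) (k • B), h, Set.smul_set_univ]))
        constructor
        · intro hpq
          exact ((h2 (g q)).1 ⟨q, (h1 q).2 hpq.symm, rfl⟩).symm
        · intro hpq
          obtain ⟨q', hq', hq''⟩ := (h2 (g q)).2 hpq.symm
          have : q' = q := g.injective hq''
          exact ((h1 q).1 (this ▸ hq')).symm }
  exact Equiv.Perm.subgroup_eq_top_of_isPreprimitive_of_isSwap_mem hprim _ ⟨u, v, huv, rfl⟩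
    (hM.le (swap_mem_K f hfuv))

end Cfsg.Agent.Lib.PartitionStab
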