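import Cfsg.Agent.Lib.Char.Abelian
import Cfsg.Agent.Lib.Char.Ito
import Cfsg.Agent.Lib.Char.Kernel
import Cfsg.Agent.Lib.Char.Degree
import Cfsg.Agent.Lib.Char.Clifford
import Cfsg.Agent.Lib.Transfer.Tate
import Cfsg.Agent.Lib.Transfer.Fusion
import Cfsg.Agent.Lib.PGroupFrattini
import Cfsg.Agent.Lib.Hall.Basic

/-!
# The sum of the squares of the degrees prime to `p`

It is at least `[N(P) : P']`, with equality exactly if `N(P)` has a normal complement.
-/

set_option autoImplicit false
set_option linter.unusedSectionVars false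
set_option linter.style.haveILetI false

namespace Cfsg.Agent.Lib.PrimeDegreeSum

open Cfsg Cfsg.Agent.Lib Cfsg.Agent.Lib.Char Subgroup
open scoped commutatorElement

universe u

variable {p : ℕ} [hp : Fact p.Prime]

/-- With a normal Sylow subgroup `Q` the degrees prime to `p` are those of `H / Q'`. -/
theorem not_dvd_iff_commutator_le {H : Type u} [Group H] [Fintype H] (Q : Sylow p H)
    [(Q : Subgroup H).Normal] (ψ : IrrCharacter H) :
    ¬ p ∣ charDegree (ψ : H → ℂ) ↔
      ∀ d ∈ (commutator (Q : Subgroup H)).map (Q : Subgroup H).subtype,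
        (ψ : H → ℂ) d = (ψ : H → ℂ) 1 := by
  classical
  haveI := Fintype.ofFinite (Q : Subgroup H)
  constructor
  · rintro hdeg _ ⟨d, hd, rfl⟩
    have hlin : ∀ [Fintype (Q : Subgroup H)] (θ : IrrCharacter (Q : Subgroup H)),
        classInner (fun x : (Q : Subgroup H) => (ψ : H → ℂ) x) (θ : ↥(Q : Subgroup H) → ℂ) ≠ 0 →
          (θ : ↥(Q : Subgroup H) → ℂ) 1 = 1 := by
      intro _ θ hθ
      obtain ⟨a, ha⟩ := classInner_natCast (isCharacter_restrict (isCharacter_of_isIrr ψ.2) _)
        (isCharacter_of_isIrr θ.2)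
      have h := clifford_degree (Q : Subgroup H) ψ.2 θ.2 hθ
      rw [ha, apply_one_eq_charDegree (isCharacter_of_isIrr ψ.2),
        apply_one_eq_charDegree (isCharacter_of_isIrr θ.2)] at h
      have h' : charDegree (ψ : H → ℂ) = a * (inertia (Q : Subgroup H) (θ : _ → ℂ)).index *
          charDegree (θ : ↥(Q : Subgroup H) → ℂ) := by exact_mod_cast h
      obtain ⟨n, hn⟩ := IsPGroup.iff_card.mp Q.2
      obtain ⟨k, -, hk⟩ := (Nat.dvd_prime_pow hp.out).1 (hn ▸ charDegree_dvd_card θ.2)
      rcases Nat.eq_zero_or_pos k with rfl | hk0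
      · rw [apply_one_eq_charDegree (isCharacter_of_isIrr θ.2), hk, pow_zero, Nat.cast_one]
      · exact absurd (h' ▸ (hk ▸ dvd_pow_self p hk0.ne').mul_left _) hdeg
    exact commutator_apply_of_linear_constituents
      (isCharacter_restrict (isCharacter_of_isIrr ψ.2) _) hlin d hd
  · intro hker hdvd
    set D := (commutator (Q : Subgroup H)).map (Q : Subgroup H).subtype with hD
    haveI : D.Normal := ConjAct.normal_of_characteristic_of_normal
    obtain ⟨χ, hχ, he⟩ := exists_irr_deflation ψ.2 D hker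
    haveI : ((Q : Subgroup H).map (QuotientGroup.mk' D)).Normal :=
      Subgroup.Normal.map inferInstance _ (QuotientGroup.mk'_surjective D)
    haveI := Fintype.ofFinite ((Q : Subgroup H).map (QuotientGroup.mk' D))
    have hab : ∀ a ∈ (Q : Subgroup H).map (QuotientGroup.mk' D),
        ∀ b ∈ (Q : Subgroup H).map (QuotientGroup.mk' D), a * b = b * a := by
      rintro _ ⟨a, ha, rfl⟩ _ ⟨b, hb, rfl⟩
      rw [← map_mul, ← map_mul]
      refine QuotientGroup.eq.2 ?_
      refine ⟨⁅(⟨b, hb⟩ : (Q : Subgroup H))⁻¹, (⟨a, ha⟩ : (Q : Subgroup H))⁻¹⁆,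
        commutator_mem_commutator (mem_top _) (mem_top _), ?_⟩
      simp [commutatorElement_def, mul_assoc]
    have h1 := degree_dvd_index_of_abelian (N := (Q : Subgroup H).map (QuotientGroup.mk' D)) hχ hab
    have h2 : charDegree χ = charDegree (ψ : H → ℂ) := by
      refine charDegree_eq_of_apply_one ?_
      rw [← QuotientGroup.mk_one, he, apply_one_eq_charDegree (isCharacter_of_isIrr ψ.2)]
    rw [h2] at h1
    exact Q.not_dvd_index ((hdvd.trans h1).trans
      (Subgroup.index_map_dvd _ (QuotientGroup.mk'_surjective D)))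

/-- The sum over a normalizer. -/
theorem sum_sq_normal_sylow {H : Type u} [Group H] [Fintype H] (Q : Sylow p H)
    [(Q : Subgroup H).Normal] :
    Nat.card H = Nat.card (commutator (Q : Subgroup H)) *
      ∑ ψ ∈ Finset.univ.filter (fun ψ : IrrCharacter H => ¬ p ∣ charDegree (ψ : H → ℂ)),
        charDegree (ψ : H → ℂ) ^ 2 := by
  classical
  set D := (commutator (Q : Subgroup H)).map (Q : Subgroup H).subtype with hD
  haveI : D.Normal := ConjAct.normal_of_characteristic_of_normal
  rw [show Nat.card (commutator (Q : Subgroup H)) = Nat.card D from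
    (card_map_of_injective (Q : Subgroup H).subtype_injective).symm, ← D.card_mul_index,
    index_eq_card, ← sum_charDegree_sq (G := H ⧸ D)]
  congr 1
  rw [Finset.sum_subtype (p := fun ψ : IrrCharacter H => ∀ n ∈ D, (ψ : H → ℂ) n = (ψ : H → ℂ) 1)
    ((Finset.univ : Finset (IrrCharacter H)).filter fun ψ => ¬ p ∣ charDegree (ψ : H → ℂ))
    (fun ψ => by rw [Finset.mem_filter, not_dvd_iff_commutator_le Q ψ]; simp [hD])]
  refine Fintype.sum_equiv (inflateEquiv D) _ _ fun χ => ?_
  congr 1

variable {G : Type u} [Group G] [Fintype G]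

/-- Some constituent of an induced character has degree prime to `p`. -/
theorem exists_constituent_not_dvd (N : Subgroup G) [Fintype N] (hN : ¬ p ∣ N.index)
    (ψ : IrrCharacter N) (hψ : ¬ p ∣ charDegree (ψ : N → ℂ)) :
    ∃ χ : IrrCharacter G, ¬ p ∣ charDegree (χ : G → ℂ) ∧
      classInner (fun n : N => (χ : G → ℂ) n) (ψ : N → ℂ) ≠ 0 := by
  classical
  by_contra! hc
  have hind := isCharacter_indFun N (isCharacter_of_isIrr ψ.2)
  obtain ⟨m, hm⟩ := isCharacter_eq_sum hind
  have h1 := congrFun hm 1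
  rw [apply_one_eq_charDegree hind, charDegree_indFun N (isCharacter_of_isIrr ψ.2)] at h1
  simp only [Finset.sum_apply, Pi.smul_apply, smul_eq_mul] at h1
  rw [Finset.sum_congr rfl fun χ _ => by
    rw [apply_one_eq_charDegree (isCharacter_of_isIrr χ.2)]] at h1
  have h2 : N.index * charDegree (ψ : N → ℂ) = ∑ χ, m χ * charDegree (χ : G → ℂ) := by
    exact_mod_cast h1
  refine (hp.out.prime.not_dvd_mul hN hψ) (h2 ▸ Finset.dvd_sum fun χ _ => ?_)
  by_cases hd : p ∣ charDegree (χ : G → ℂ)
  · exact hd.mul_left _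
  refine dvd_mul_of_dvd_left ?_ _
  have h3 : classInner (indFun N (ψ : N → ℂ)) (χ : G → ℂ) = m χ := by
    rw [hm, classInner_sum_left, Finset.sum_eq_single χ]
    · rw [classInner_smul_left, classInner_irr_self χ.2, mul_one]
    · intro γ _ hγ
      rw [classInner_smul_left, classInner_irrCharacter, if_neg hγ, mul_zero]
    · intro hh; exact absurd (Finset.mem_univ χ) hh
  rw [classInner_indFun N _ (isClassFunction_of_isIrr χ.2), classInner_conj_symm, hc χ hd,
    map_zero, eq_comm, Nat.cast_eq_zero] at h3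
  rw [h3]
  exact dvd_zero p

/-- Constituents of a restriction bound the degree. -/
theorem sum_le_degree (N : Subgroup G) [Fintype N] (χ : IrrCharacter G)
    (s : Finset (IrrCharacter N))
    (hs : ∀ ψ ∈ s, classInner (fun n : N => (χ : G → ℂ) n) (ψ : N → ℂ) ≠ 0) :
    ∑ ψ ∈ s, charDegree (ψ : N → ℂ) ≤ charDegree (χ : G → ℂ) := by
  classical
  obtain ⟨m, hm⟩ := isCharacter_eq_sum (isCharacter_restrict (isCharacter_of_isIrr χ.2) N)
  have h1 := congrFun hm 1
  simp only [Finset.sum_apply, Pi.smul_apply, smul_eq_mul, OneMemClass.coe_one] at h1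
  rw [apply_one_eq_charDegree (isCharacter_of_isIrr χ.2), Finset.sum_congr rfl fun ψ _ => by
    rw [apply_one_eq_charDegree (isCharacter_of_isIrr ψ.2)]] at h1
  have h2 : charDegree (χ : G → ℂ) = ∑ ψ, m ψ * charDegree (ψ : N → ℂ) := by exact_mod_cast h1
  rw [h2]
  refine (Finset.sum_le_sum fun ψ hψ => Nat.le_mul_of_pos_left _ ?_).trans
    (Finset.sum_le_sum_of_subset (Finset.subset_univ s))
  refine Nat.pos_of_ne_zero fun h0 => hs ψ hψ ?_
  rw [hm, classInner_sum_left, Finset.sum_eq_single ψ]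
  · rw [classInner_smul_left, classInner_irr_self ψ.2, mul_one, h0, Nat.cast_zero]
  · intro γ _ hγ
    rw [classInner_smul_left, classInner_irrCharacter, if_neg hγ, mul_zero]
  · intro hh; exact absurd (Finset.mem_univ ψ) hh

/-- A constituent of full degree is the whole restriction. -/
theorem restrict_eq_of_degree (N : Subgroup G) [Fintype N] (χ : IrrCharacter G)
    (ψ : IrrCharacter N) (h : classInner (fun n : N => (χ : G → ℂ) n) (ψ : N → ℂ) ≠ 0)
    (hd : charDegree (χ : G → ℂ) ≤ charDegree (ψ : N → ℂ)) :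
    ∀ n : N, (χ : G → ℂ) n = (ψ : N → ℂ) n := by
  classical
  obtain ⟨m, hm⟩ := isCharacter_eq_sum (isCharacter_restrict (isCharacter_of_isIrr χ.2) N)
  have h1 := congrFun hm 1
  simp only [Finset.sum_apply, Pi.smul_apply, smul_eq_mul, OneMemClass.coe_one] at h1
  rw [apply_one_eq_charDegree (isCharacter_of_isIrr χ.2), Finset.sum_congr rfl fun φ _ => by
    rw [apply_one_eq_charDegree (isCharacter_of_isIrr φ.2)]] at h1
  have h2 : charDegree (χ : G → ℂ) = ∑ φ, m φ * charDegree (φ : N → ℂ) := by exact_mod_cast h1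
  have hψ0 : m ψ ≠ 0 := fun h0 => h (by
    rw [hm, classInner_sum_left, Finset.sum_eq_single ψ]
    · rw [classInner_smul_left, classInner_irr_self ψ.2, mul_one, h0, Nat.cast_zero]
    · intro γ _ hγ
      rw [classInner_smul_left, classInner_irrCharacter, if_neg hγ, mul_zero]
    · intro hh; exact absurd (Finset.mem_univ ψ) hh)
  rw [h2, ← Finset.add_sum_erase _ _ (Finset.mem_univ ψ)] at hd
  have h3 : charDegree (ψ : N → ℂ) ≤ m ψ * charDegree (ψ : N → ℂ) :=
    Nat.le_mul_of_pos_left _ (Nat.pos_of_ne_zero hψ0)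
  have hψd := charDegree_pos ψ.2
  have hm1 : m ψ = 1 := Nat.eq_of_mul_eq_mul_right hψd (by omega)
  have h4 : ∑ φ ∈ Finset.univ.erase ψ, m φ * charDegree (φ : N → ℂ) = 0 := by
    rw [hm1, one_mul] at hd; omega
  intro n
  have h5 := congrFun hm n
  simp only [Finset.sum_apply, Pi.smul_apply, smul_eq_mul] at h5
  rw [h5, Finset.sum_eq_single ψ (fun φ _ hφ => ?_) (fun hh => absurd (Finset.mem_univ ψ) hh),
    hm1, Nat.cast_one, one_mul]
  have h6 := Finset.sum_eq_zero_iff.1 h4 φ (Finset.mem_erase.2 ⟨hφ, Finset.mem_univ φ⟩)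
  rcases Nat.mul_eq_zero.1 h6 with h7 | h7
  · rw [h7, Nat.cast_zero, zero_mul]
  · exact absurd h7 (charDegree_pos φ.2).ne'

/-- A nonprincipal character of a normal `p'`-subgroup is not fixed by a `p`-group with trivial
fixed points. -/
theorem not_invariant_of_centralizer_eq_bot (K : Subgroup G) [K.Normal] [Fintype K]
    (hK : ¬ p ∣ Nat.card K) (P : Subgroup G) (hP : IsPGroup p P)
    (hfix : K ⊓ centralizer (P : Set G) = ⊥) (θ : IrrCharacter K) (hne : (θ : K → ℂ) ≠ fun _ => 1) :
    ∃ x ∈ P, conjChar K x (θ : K → ℂ) ≠ θ := by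
  classical
  by_contra! hinv
  letI : MulAction P K :=
    { smul := fun x k => ⟨x * k * (x : G)⁻¹, ‹K.Normal›.conj_mem k k.2 x⟩
      one_smul := fun k => Subtype.ext (show (1 : G) * k * (1 : G)⁻¹ = k by simp)
      mul_smul := fun x y k => Subtype.ext
        (show (x * y : G) * k * (x * y : G)⁻¹ = x * (y * k * (y : G)⁻¹) * (x : G)⁻¹ by group) }
  have hsum : ∑ k : K, (θ : K → ℂ) k = 0 := by
    have h1 := classInner_irr θ.2 (isIrrCharacter_one (G := K))
    rw [if_neg hne] at h1
    simpa [classInner, Nat.card_pos.ne'] using h1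
  have hfixed : ∀ k : K, k ∈ MulAction.fixedPoints P K → k = 1 := by
    intro k hk
    refine Subtype.ext (Subgroup.mem_bot.1 (hfix ▸ mem_inf.2 ⟨k.2, ?_⟩))
    rw [mem_centralizer_iff]
    intro x hx
    have h1 : x * (k : G) * x⁻¹ = k := congrArg Subtype.val (hk ⟨x, hx⟩)
    exact mul_inv_eq_iff_eq_mul.1 h1
  have hconst : ∀ (x : P) (k : K), (θ : K → ℂ) (x • k) = (θ : K → ℂ) k := fun x k =>
    congrFun (hinv x x.2) k
  -- the nontrivial orbits contribute multiples of `p`
  haveI := Fintype.ofFinite (MulAction.orbitRel.Quotient P K)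
  have h2 : ∑ k : K, (θ : K → ℂ) k = ∑ ω : MulAction.orbitRel.Quotient P K,
      (Nat.card ω.orbit : ℂ) * (θ : K → ℂ) ω.out := by
    rw [← Fintype.sum_equiv (MulAction.selfEquivSigmaOrbits' P K).symm
      (fun y => (θ : K → ℂ) ((MulAction.selfEquivSigmaOrbits' P K).symm y)) _ fun _ => rfl,
      Fintype.sum_sigma]
    refine Finset.sum_congr rfl fun ω _ => ?_
    rw [Finset.sum_congr rfl (g := fun _ => (θ : K → ℂ) ω.out) fun y _ => ?_, Finset.sum_const,
      Finset.card_univ, nsmul_eq_mul, Nat.card_eq_fintype_card]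
    have hy : (y : K) ∈ MulAction.orbit P ω.out := by
      rw [← MulAction.orbitRel.Quotient.orbit_eq_orbit_out ω Quotient.out_eq']
      exact y.2
    obtain ⟨x, hx⟩ := hy
    exact (congrArg (θ : K → ℂ) hx).symm.trans (hconst x _)
  set ω₁ : MulAction.orbitRel.Quotient P K := Quotient.mk'' 1 with hω₁
  have hone : Nat.card ω₁.orbit = 1 ∧ (θ : K → ℂ) ω₁.out = (θ : K → ℂ) 1 := by
    have ho : ω₁.orbit = {1} := by
      rw [hω₁, MulAction.orbitRel.Quotient.orbit_mk]
      ext k
      refine ⟨fun ⟨x, hx⟩ => ?_, fun hk => ⟨1, by rw [Set.mem_singleton_iff.1 hk]; simp⟩⟩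
      rw [Set.mem_singleton_iff, ← hx]
      exact Subtype.ext (show (x : G) * (1 : K) * (x : G)⁻¹ = 1 by simp)
    refine ⟨by rw [ho]; simp, ?_⟩
    have : ω₁.out ∈ ω₁.orbit := by
      rw [MulAction.orbitRel.Quotient.orbit_eq_orbit_out ω₁ Quotient.out_eq']
      exact MulAction.mem_orbit_self _
    rw [ho] at this
    rw [Set.mem_singleton_iff.1 this]
  rw [h2, ← Finset.add_sum_erase _ _ (Finset.mem_univ ω₁), hone.1, hone.2, Nat.cast_one, one_mul] at hsum
  have hθi : ∀ k : K, IsIntegral ℤ ((θ : K → ℂ) k) := fun k =>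
    char_isIntegral (isCharacter_of_isIrr θ.2) k
  have hint : IsIntegral ℤ (((charDegree (θ : K → ℂ) : ℚ) / p : ℚ) : ℂ) := by
    have h4 : (((charDegree (θ : K → ℂ) : ℚ) / p : ℚ) : ℂ) =
        -∑ ω ∈ Finset.univ.erase ω₁, ((Nat.card ω.orbit / p : ℕ) : ℂ) * (θ : K → ℂ) ω.out := by
      push_cast
      rw [← apply_one_eq_charDegree (isCharacter_of_isIrr θ.2), div_eq_iff
        (Nat.cast_ne_zero.2 hp.out.ne_zero), neg_mul, Finset.sum_mul, eq_neg_iff_add_eq_zero]
      refine Eq.trans ?_ hsum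
      congr 1
      refine Finset.sum_congr rfl fun ω hω => ?_
      have hdvd : p ∣ Nat.card ω.orbit := by
        rw [MulAction.orbitRel.Quotient.orbit_eq_orbit_out ω Quotient.out_eq']
        obtain ⟨n, hn⟩ := hP.card_orbit ω.out
        rcases Nat.eq_zero_or_pos n with rfl | hn0
        · exfalso
          refine (Finset.mem_erase.1 hω).1 ?_
          rw [pow_zero, Nat.card_eq_one_iff_unique] at hn
          have hf : ω.out ∈ MulAction.fixedPoints P K := fun x =>
            congrArg Subtype.val (@Subsingleton.elim _ hn.1 ⟨x • ω.out, MulAction.mem_orbit _ x⟩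
              ⟨ω.out, MulAction.mem_orbit_self _⟩)
          rw [← Quotient.out_eq' ω, hfixed _ hf, hω₁]
        · exact hn ▸ dvd_pow_self p hn0.ne'
      obtain ⟨c, hc⟩ := hdvd
      rw [hc, Nat.mul_div_cancel_left _ hp.out.pos, Nat.cast_mul]
      ring
    rw [h4]
    exact (IsIntegral.sum _ fun ω _ => (isIntegral_natCast _).mul (hθi _)).neg
  obtain ⟨z, hz⟩ := exists_int_of_isIntegral hint
  have h5 : (charDegree (θ : K → ℂ) : ℤ) = p * z := by
    rw [div_eq_iff (Nat.cast_ne_zero.2 hp.out.ne_zero), mul_comm] at hz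
    exact_mod_cast hz
  exact hK ((Int.natCast_dvd_natCast.1 ⟨z, h5⟩).trans (charDegree_dvd_card θ.2))

theorem sum_sq_le {ι : Type*} (s : Finset ι) (a : ι → ℕ) :
    ∑ i ∈ s, a i ^ 2 ≤ (∑ i ∈ s, a i) ^ 2 := by
  classical
  induction s using Finset.induction_on with
  | empty => simp
  | insert i s hi ih =>
    rw [Finset.sum_insert hi, Finset.sum_insert hi, add_sq]
    linarith [Nat.zero_le (2 * a i * ∑ x ∈ s, a x)]

/-- The inequality and the equality case. -/
theorem sum_sq_ge (P : Sylow p G) :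
    Nat.card (normalizer ((P : Subgroup G) : Set G)) ≤ Nat.card (commutator (P : Subgroup G)) *
      ∑ χ ∈ Finset.univ.filter (fun χ : IrrCharacter G => ¬ p ∣ charDegree (χ : G → ℂ)),
        charDegree (χ : G → ℂ) ^ 2 ∧
    (Nat.card (normalizer ((P : Subgroup G) : Set G)) = Nat.card (commutator (P : Subgroup G)) *
      ∑ χ ∈ Finset.univ.filter (fun χ : IrrCharacter G => ¬ p ∣ charDegree (χ : G → ℂ)),
        charDegree (χ : G → ℂ) ^ 2 ↔
      ∃ K : Subgroup G, K.Normal ∧ K ⊓ normalizer ((P : Subgroup G) : Set G) = ⊥ ∧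
        K ⊔ normalizer ((P : Subgroup G) : Set G) = ⊤) := by
  classical
  obtain ⟨N, hNdef⟩ : ∃ N : Subgroup G, N = normalizer ((P : Subgroup G) : Set G) := ⟨_, rfl⟩
  have hPN : (P : Subgroup G) ≤ N := hNdef ▸ le_normalizer
  rw [← hNdef]
  haveI := Fintype.ofFinite N
  have hQc : (P.subtype hPN : Subgroup N) = (P : Subgroup G).subgroupOf N := Sylow.coe_subtype ..
  haveI hQn : (P.subtype hPN : Subgroup N).Normal := by
    rw [hQc]
    subst hNdef
    exact Subgroup.normal_in_normalizer
  obtain ⟨eC, heC⟩ : ∃ e : (P.subtype hPN : Subgroup N) ≃* (P : Subgroup G),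
      ∀ d, ((e d : (P : Subgroup G)) : G) = ((d : N) : G) :=
    ⟨(MulEquiv.subgroupCongr hQc).trans (subgroupOfEquivOfLe hPN), fun d => rfl⟩
  have hcomm : Nat.card (commutator (P.subtype hPN : Subgroup N)) =
      Nat.card (commutator (P : Subgroup G)) := by
    rw [← card_map_of_injective (f := eC.toMonoidHom) eC.injective]
    refine congrArg (fun S : Subgroup (P : Subgroup G) => Nat.card S) ?_
    rw [_root_.commutator_def, map_commutator, map_top_of_surjective _ eC.surjective, ← _root_.commutator_def]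
  have hsumN := sum_sq_normal_sylow (P.subtype hPN)
  rw [hcomm] at hsumN
  set SN := Finset.univ.filter (fun ψ : IrrCharacter N => ¬ p ∣ charDegree (ψ : N → ℂ)) with hSN
  set SG := Finset.univ.filter (fun χ : IrrCharacter G => ¬ p ∣ charDegree (χ : G → ℂ)) with hSG
  have hNidx : ¬ p ∣ N.index := fun h => P.not_dvd_index (h.trans (index_dvd_of_le hPN))
  have hex : ∀ ψ : IrrCharacter N, ∃ χ : IrrCharacter G, ¬ p ∣ charDegree (ψ : N → ℂ) →
      χ ∈ SG ∧ classInner (fun n : N => (χ : G → ℂ) n) (ψ : N → ℂ) ≠ 0 := by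
    intro ψ
    by_cases h : ¬ p ∣ charDegree (ψ : N → ℂ)
    · obtain ⟨χ, h1, h2⟩ := exists_constituent_not_dvd N hNidx ψ h
      exact ⟨χ, fun _ => ⟨Finset.mem_filter.2 ⟨Finset.mem_univ _, h1⟩, h2⟩⟩
    · exact ⟨⟨_, isIrrCharacter_one⟩, fun hh => absurd hh h⟩
  choose f hf using hex
  have hmap : ∀ ψ ∈ SN, f ψ ∈ SG := fun ψ hψ => (hf ψ (Finset.mem_filter.1 hψ).2).1
  have hfib : ∀ χ ∈ SG, ∑ ψ ∈ SN.filter (fun ψ => f ψ = χ), charDegree (ψ : N → ℂ) ≤
      charDegree (χ : G → ℂ) := fun χ _ => sum_le_degree N χ _ fun ψ hψ => by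
    obtain ⟨h1, h2⟩ := Finset.mem_filter.1 hψ
    exact h2 ▸ (hf ψ (Finset.mem_filter.1 h1).2).2
  have hsq : ∀ χ ∈ SG, ∑ ψ ∈ SN.filter (fun ψ => f ψ = χ), charDegree (ψ : N → ℂ) ^ 2 ≤
      charDegree (χ : G → ℂ) ^ 2 := fun χ hχ =>
    (sum_sq_le _ fun ψ : IrrCharacter N => charDegree (ψ : N → ℂ)).trans (Nat.pow_le_pow_left (hfib χ hχ) 2)
  have hfibsum : ∑ ψ ∈ SN, charDegree (ψ : N → ℂ) ^ 2 =
      ∑ χ ∈ SG, ∑ ψ ∈ SN.filter (fun ψ => f ψ = χ), charDegree (ψ : N → ℂ) ^ 2 :=
    (Finset.sum_fiberwise_of_maps_to hmap _).symm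
  have hle : ∑ ψ ∈ SN, charDegree (ψ : N → ℂ) ^ 2 ≤ ∑ χ ∈ SG, charDegree (χ : G → ℂ) ^ 2 :=
    hfibsum ▸ Finset.sum_le_sum hsq
  rw [hsumN]
  refine ⟨Nat.mul_le_mul_left _ hle, ?_⟩
  rw [Nat.mul_right_inj Nat.card_pos.ne']
  constructor
  · intro heq
    have heach : ∀ χ ∈ SG, ∑ ψ ∈ SN.filter (fun ψ => f ψ = χ), charDegree (ψ : N → ℂ) ^ 2 =
        charDegree (χ : G → ℂ) ^ 2 :=
      (Finset.sum_eq_sum_iff_of_le hsq).1 (hfibsum.symm.trans heq)
    -- restriction is a bijection
    have hres : ∀ ψ ∈ SN, ∀ n : N, (f ψ : G → ℂ) n = (ψ : N → ℂ) n := by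
      intro ψ hψ
      refine restrict_eq_of_degree N (f ψ) ψ (hf ψ (Finset.mem_filter.1 hψ).2).2 ?_
      by_contra! hlt
      have h1 := heach (f ψ) (hmap ψ hψ)
      have h2 := hfib (f ψ) (hmap ψ hψ)
      have hψs : ψ ∈ SN.filter (fun φ => f φ = f ψ) := Finset.mem_filter.2 ⟨hψ, rfl⟩
      rw [← Finset.add_sum_erase _ _ hψs] at h1 h2
      obtain ⟨r, hr⟩ : ∃ r, r = ∑ φ ∈ (SN.filter (fun φ => f φ = f ψ)).erase ψ,
          charDegree (φ : N → ℂ) := ⟨_, rfl⟩
      have h3 : ∑ φ ∈ (SN.filter (fun φ => f φ = f ψ)).erase ψ,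
          charDegree (φ : N → ℂ) ^ 2 ≤ r ^ 2 :=
        hr ▸ sum_sq_le _ fun φ : IrrCharacter N => charDegree (φ : N → ℂ)
      rw [← hr] at h2
      have h4 := Nat.pow_le_pow_left h2 2
      have hψd := charDegree_pos ψ.2
      rcases Nat.eq_zero_or_pos r with h5 | h5
      · rw [h5] at h3
        nlinarith
      · nlinarith [Nat.mul_pos hψd h5]
    have hsurj : ∀ χ ∈ SG, ∃ ψ ∈ SN, f ψ = χ := by
      intro χ hχ
      by_contra! hne
      have h1 := heach χ hχ
      rw [Finset.filter_eq_empty_iff.2 fun ψ hψ => hne ψ hψ, Finset.sum_empty] at h1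
      exact (pow_ne_zero 2 (charDegree_pos χ.2).ne') h1.symm
    -- the kernels
    obtain ⟨K, hK⟩ : ∃ K : Subgroup G, K = ⨅ χ ∈ SG, charKer ((χ : IrrCharacter G) : G → ℂ) :=
      ⟨_, rfl⟩
    obtain ⟨W, hW⟩ : ∃ W : Subgroup G, W = ⨅ χ ∈ SG.filter (fun χ : IrrCharacter G =>
        ∀ x ∈ (P : Subgroup G), (χ : G → ℂ) x = (χ : G → ℂ) 1),
          charKer ((χ : IrrCharacter G) : G → ℂ) := ⟨_, rfl⟩
    haveI hKn : K.Normal := hK ▸ normal_iInf_normal fun χ => normal_iInf_normal fun _ =>
      charKer_normal (isCharacter_of_isIrr χ.2)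
    haveI hWn : W.Normal := hW ▸ normal_iInf_normal fun χ => normal_iInf_normal fun _ =>
      charKer_normal (isCharacter_of_isIrr χ.2)
    have hKW : K ≤ W := by
      rw [hK, hW]
      exact le_iInf₂ fun χ hχ => iInf₂_le χ (Finset.mem_filter.1 hχ).1
    have hPW : (P : Subgroup G) ≤ W := by
      rw [hW]
      exact le_iInf₂ fun χ hχ x hx =>
        (mem_charKer (isCharacter_of_isIrr χ.2)).2 ((Finset.mem_filter.1 hχ).2 x hx)
    have hmemK : ∀ x : G, x ∈ K → ∀ hx : x ∈ N, ∀ ψ ∈ SN,
        (ψ : N → ℂ) ⟨x, hx⟩ = (ψ : N → ℂ) 1 := by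
      intro x hxK hx ψ hψ
      rw [← hres ψ hψ, ← hres ψ hψ, OneMemClass.coe_one]
      exact (mem_charKer (isCharacter_of_isIrr (f ψ).2)).1
        (by rw [hK] at hxK; exact mem_iInf.1 (mem_iInf.1 hxK (f ψ)) (hmap ψ hψ))
    have hKP : ∀ x ∈ K, ∀ hx : x ∈ (P : Subgroup G), (⟨x, hx⟩ : (P : Subgroup G)) ∈
        commutator (P : Subgroup G) := by
      intro x hxK hx
      set D := (commutator (P.subtype hPN : Subgroup N)).map (P.subtype hPN : Subgroup N).subtype
        with hD
      haveI : D.Normal := ConjAct.normal_of_characteristic_of_normal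
      have h1 : (QuotientGroup.mk' D) ⟨x, hPN hx⟩ = 1 := by
        refine eq_one_of_forall_irr fun φ => ?_
        have h2 := (inflateEquiv D φ).2
        have h3 : (inflateEquiv D φ).1 ∈ SN := Finset.mem_filter.2 ⟨Finset.mem_univ _,
          (not_dvd_iff_commutator_le (P.subtype hPN) _).2 h2⟩
        have h4 := hmemK x hxK (hPN hx) _ h3
        rwa [inflateEquiv_apply, inflateEquiv_apply, QuotientGroup.mk_one] at h4
      obtain ⟨d, hd, hde⟩ := (QuotientGroup.eq_one_iff _).1 h1
      have h5 : eC d = ⟨x, hx⟩ := by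
        have h6 : ((d : (P.subtype hPN : Subgroup N)) : N) = ⟨x, hPN hx⟩ := hde
        refine Subtype.ext ?_
        rw [heC]
        exact congrArg Subtype.val h6
      rw [← h5]
      have h7 : (commutator (P.subtype hPN : Subgroup N)).map eC.toMonoidHom =
          commutator (P : Subgroup G) := by
        rw [_root_.commutator_def, map_commutator, map_top_of_surjective _ eC.surjective, ← _root_.commutator_def]
      exact h7 ▸ mem_map_of_mem _ hd
    have hWN : W ⊓ N ≤ (P : Subgroup G) := by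
      intro x hx
      obtain ⟨hxW, hxN⟩ := mem_inf.1 hx
      set Q := (P.subtype hPN : Subgroup N) with hQ
      have h1 : (QuotientGroup.mk' Q) ⟨x, hxN⟩ = 1 := by
        refine eq_one_of_forall_irr fun φ => ?_
        have h2 := (inflateEquiv Q φ).2
        have h3 : (inflateEquiv Q φ).1 ∈ SN := by
          refine Finset.mem_filter.2 ⟨Finset.mem_univ _,
            (not_dvd_iff_commutator_le (P.subtype hPN) _).2 ?_⟩
          rintro _ ⟨d, -, rfl⟩
          exact h2 _ d.2
        have h4 : f (inflateEquiv Q φ).1 ∈ SG.filter (fun χ : IrrCharacter G =>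
            ∀ x ∈ (P : Subgroup G), (χ : G → ℂ) x = (χ : G → ℂ) 1) := by
          refine Finset.mem_filter.2 ⟨hmap _ h3, fun y hy => ?_⟩
          have := hres _ h3 ⟨y, hPN hy⟩
          rw [this, h2 _ (by rw [hQc]; exact hy), ← hres _ h3, OneMemClass.coe_one]
        have h5 : (inflateEquiv Q φ).1.1 ⟨x, hxN⟩ = (inflateEquiv Q φ).1.1 1 := by
          rw [← hres _ h3, ← hres _ h3, OneMemClass.coe_one]
          exact (mem_charKer (isCharacter_of_isIrr (f _).2)).1
            (by rw [hW] at hxW; exact mem_iInf.1 (mem_iInf.1 hxW _) h4)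
        rwa [inflateEquiv_apply, inflateEquiv_apply, QuotientGroup.mk_one] at h5
      have h6 := (QuotientGroup.eq_one_iff _).1 h1
      rw [hQc] at h6
      exact h6
    obtain ⟨hPW', -⟩ : ∃ h : (P : Subgroup G) ≤ W, True := ⟨hPW, trivial⟩
    -- the image modulo `K` has a normal `p`-complement
    set PW : Sylow p W := P.subtype hPW with hPW2
    set g : W →* W ⧸ K.subgroupOf W := QuotientGroup.mk' _ with hg
    have hgs : Function.Surjective g := QuotientGroup.mk'_surjective _
    haveI : Finite (Sylow p W) := inferInstance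
    set Pb : Sylow p (W ⧸ K.subgroupOf W) := PW.mapSurjective hgs with hPb
    have hPbc : (Pb : Subgroup (W ⧸ K.subgroupOf W)) = (PW : Subgroup W).map g :=
      Sylow.coe_mapSurjective hgs PW
    have hnc : normalizer ((Pb : Subgroup (W ⧸ K.subgroupOf W)) : Set (W ⧸ K.subgroupOf W)) ≤
        centralizer ((Pb : Subgroup (W ⧸ K.subgroupOf W)) : Set (W ⧸ K.subgroupOf W)) := by
      have hself : normalizer ((Pb : Subgroup (W ⧸ K.subgroupOf W)) : Set (W ⧸ K.subgroupOf W)) ≤
          (Pb : Subgroup (W ⧸ K.subgroupOf W)) := by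
        intro y hy
        obtain ⟨w, rfl⟩ := hgs y
        set L : Subgroup W := (PW : Subgroup W) ⊔ K.subgroupOf W with hL
        have hLc : (Pb : Subgroup (W ⧸ K.subgroupOf W)).comap g = L := by
          rw [hPbc, comap_map_eq, hg, QuotientGroup.ker_mk', hL]
        have hwL : w ∈ normalizer (L : Set W) := by
          rw [← hLc]
          rw [mem_normalizer_iff] at hy ⊢
          intro z
          rw [mem_comap, mem_comap, map_mul, map_mul, map_inv]
          exact hy (g z)
        have hPL : (PW : Subgroup W) ≤ L := le_sup_left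
        haveI : (K.subgroupOf W).Normal := inferInstance
        have hc : w⁻¹ * w = 1 := inv_mul_cancel w
        -- the Sylow subgroups of `L` are conjugate in `L`
        obtain ⟨l, hl⟩ := MulAction.exists_smul_eq L
          ((w • PW).subtype (fun z hz => by
            rw [Sylow.coe_subgroup_smul, Subgroup.mem_pointwise_smul_iff_inv_smul_mem] at hz
            have h1 : w⁻¹ * z * w ∈ L := hPL (by simpa [MulAut.smul_def] using hz)
            have h2 := (mem_normalizer_iff.1 hwL (w⁻¹ * z * w)).1 h1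
            simpa [mul_assoc] using h2)) (PW.subtype hPL)
        have hlw : ((l : W) * w) ∈ normalizer ((PW : Subgroup W) : Set W) := by
          rw [Sylow.smul_subtype] at hl
          refine Sylow.smul_eq_iff_mem_normalizer.1 ?_
          rw [mul_smul]
          exact Sylow.subtype_injective hl
        have hlwP : ((l : W) * w) ∈ (PW : Subgroup W) := by
          have h1 : (((l : W) * w : W) : G) ∈ normalizer ((P : Subgroup G) : Set G) := by
            rw [mem_normalizer_iff]
            intro z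
            constructor
            · intro hz
              exact (mem_normalizer_iff.1 hlw ⟨z, hPW hz⟩).1 hz
            · intro hz
              have hzW : z ∈ W := by
                have := hWn.conj_mem _ (hPW hz) (((l : W) * w : W) : G)⁻¹
                simpa [mul_assoc] using this
              exact (mem_normalizer_iff.1 hlw ⟨z, hzW⟩).2 hz
          exact hWN (mem_inf.2 ⟨((l : W) * w : W).2, hNdef ▸ h1⟩)
        have h2 : w ∈ L := by
          have := mul_mem (inv_mem l.2) (hPL hlwP)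
          simpa using this
        rw [← hLc] at h2
        exact h2
      refine hself.trans fun a ha => mem_centralizer_iff.2 fun b hb => ?_
      rw [hPbc] at ha hb
      obtain ⟨a', ha', rfl⟩ := ha
      obtain ⟨b', hb', rfl⟩ := hb
      rw [← map_mul, ← map_mul]
      refine QuotientGroup.eq.2 (mem_subgroupOf.2 ?_)
      have hCK : ∀ c : (P : Subgroup G), c ∈ commutator (P : Subgroup G) → (c : G) ∈ K := by
        intro c hc
        rw [hK]
        refine mem_iInf.2 fun χ => mem_iInf.2 fun hχ =>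
          (mem_charKer (isCharacter_of_isIrr χ.2)).2 ?_
        obtain ⟨ψ, hψ, rfl⟩ := hsurj χ hχ
        rw [show ((c : G)) = ((⟨c, hPN c.2⟩ : N) : G) from rfl, hres ψ hψ,
          ← OneMemClass.coe_one N, hres ψ hψ]
        refine (not_dvd_iff_commutator_le (P.subtype hPN) ψ).1 (Finset.mem_filter.1 hψ).2 _
          ⟨eC.symm c, ?_, ?_⟩
        · have h7 : (commutator (P : Subgroup G)).map eC.symm.toMonoidHom =
              commutator (P.subtype hPN : Subgroup N) := by
            rw [_root_.commutator_def, map_commutator, map_top_of_surjective _ eC.symm.surjective,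
              ← _root_.commutator_def]
          exact h7 ▸ mem_map_of_mem _ hc
        · refine Subtype.ext ?_
          have := heC (eC.symm c)
          rw [MulEquiv.apply_symm_apply] at this
          exact this.symm
      have := hCK ⁅(⟨_, ha'⟩ : (P : Subgroup G))⁻¹, (⟨_, hb'⟩ : (P : Subgroup G))⁻¹⁆
        (commutator_mem_commutator (mem_top _) (mem_top _))
      simpa [commutatorElement_def, mul_assoc] using this
    obtain ⟨P', U, hUn, hUc⟩ := Transfer.hasNormalPComplement_of_normalizer_le_centralizer Pb hnc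
    haveI := hUn
    set U₁ : Subgroup W := U.comap g with hU₁
    have hUb : ∀ u ∈ U, u ∈ (Pb : Subgroup (W ⧸ K.subgroupOf W)) → u = 1 := by
      intro u hu hu'
      have hnd : ¬ p ∣ Nat.card U := by
        rw [← hUc.index_eq_card]
        exact P'.not_dvd_index
      have hbot := Transfer.inf_eq_bot_of_not_dvd hnd Pb.2
      exact mem_bot.1 (hbot ▸ mem_inf.2 ⟨hu, hu'⟩)
    have hUΦ : U₁ ⊓ (PW : Subgroup W) ≤
        (frattini (PW : Subgroup W)).map (PW : Subgroup W).subtype := by
      intro x hx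
      obtain ⟨hxU, hxP⟩ := mem_inf.1 hx
      have h1 : g x = 1 := hUb _ hxU (hPbc ▸ mem_map_of_mem g hxP)
      have h2 : (x : G) ∈ K := mem_subgroupOf.1 ((QuotientGroup.eq_one_iff _).1 h1)
      have h3 := hKP _ h2 hxP
      refine ⟨⟨x, hxP⟩, PGroupFrattini.commutator_le_frattini PW.2 ?_, rfl⟩
      let e : (P : Subgroup G) ≃* (PW : Subgroup W) :=
        ((MulEquiv.subgroupCongr (Sylow.coe_subtype ..)).trans (subgroupOfEquivOfLe hPW)).symm
      have h7 : (commutator (P : Subgroup G)).map e.toMonoidHom = commutator (PW : Subgroup W) := by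
        rw [_root_.commutator_def, map_commutator, map_top_of_surjective _ e.surjective, ← _root_.commutator_def]
      exact h7 ▸ mem_map_of_mem e.toMonoidHom h3
    have hUcompl := Transfer.tate PW U₁ hUΦ
    rw [Transfer.hasNormalPComplement_iff] at hUcompl
    -- `p'`-elements of `W` lie in `U₁`
    have hres' : pResidual p W ≤ (pResidual p U₁).map U₁.subtype := by
      rw [pResidual, closure_le]
      intro x hx
      have hxU : x ∈ U₁ := by
        rw [hU₁, mem_comap]
        have h1 : Nat.Coprime (orderOf ((QuotientGroup.mk' U) (g x))) p :=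
          Nat.Coprime.coprime_dvd_left ((orderOf_map_dvd _ _).trans (orderOf_map_dvd _ _)) hx
        have hq : IsPGroup p ((W ⧸ K.subgroupOf W) ⧸ U) := by
          obtain ⟨n, hn⟩ := IsPGroup.iff_card.mp P'.2
          exact IsPGroup.of_card (n := n) (by rw [← index_eq_card, hUc.symm.index_eq_card, hn])
        exact (QuotientGroup.eq_one_iff _).1 (Transfer.eq_one_of_isPGroup_of_coprime hq h1)
      exact ⟨⟨x, hxU⟩, Transfer.mem_pResidual (by rwa [← orderOf_coe]), rfl⟩
    set M : Subgroup G := (pResidual p W).map W.subtype with hM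
    haveI : (pResidual p W).Characteristic := Transfer.pResidual_characteristic
    haveI hMn : M.Normal := ConjAct.normal_of_characteristic_of_normal
    have hMp : ¬ p ∣ Nat.card M := by
      rw [hM, card_map_of_injective W.subtype_injective]
      intro hd
      refine hUcompl (hd.trans ?_)
      rw [← card_map_of_injective U₁.subtype_injective]
      exact card_dvd_of_le hres'
    refine ⟨M, hMn, ?_, ?_⟩
    · have h1 : M ⊓ N ≤ M ⊓ (P : Subgroup G) := le_inf inf_le_left
        ((inf_le_inf_right N (map_subtype_le _)).trans hWN)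
      rw [Transfer.inf_eq_bot_of_not_dvd hMp P.2] at h1
      exact le_bot_iff.1 h1
    · have h1 : M ⊔ (P : Subgroup G) = W := by
        have := congrArg (Subgroup.map W.subtype) (Transfer.pResidual_sup_sylow PW)
        rw [Subgroup.map_sup, ← MonoidHom.range_eq_map, range_subtype, hPW2, Sylow.coe_subtype,
          subgroupOf_map_subtype, inf_eq_left.2 hPW] at this
        exact this
      rw [eq_top_iff, ← Sylow.normalizer_sup_eq_top' P hPW, ← h1, hNdef]
      exact sup_le le_sup_right (sup_le le_sup_left (le_normalizer.trans le_sup_right))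
  · rintro ⟨K, hKn, hKN, hKsup⟩
    haveI := hKn
    haveI := Fintype.ofFinite K
    have hcardK : Nat.card K = N.index := (isComplement'_of_disjoint_and_mul_eq_univ
      (disjoint_iff.2 hKN) (by rw [← normal_mul, hKsup, coe_top])).index_eq_card.symm
    have hKp : ¬ p ∣ Nat.card K := hcardK ▸ hNidx
    have hKC : K ⊓ centralizer ((P : Subgroup G) : Set G) = ⊥ :=
      le_bot_iff.1 ((inf_le_inf_left K (hNdef ▸ centralizer_le_normalizer _)).trans hKN.le)
    have hker : ∀ χ ∈ SG, ∀ k : K, (χ : G → ℂ) k = (χ : G → ℂ) 1 := by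
      intro χ hχ
      obtain ⟨θ, hθ⟩ := exists_constituent (isCharacter_restrict (isCharacter_of_isIrr χ.2) K)
        (fun h => irr_degree_ne_zero χ.2 (by simpa using congrFun h 1))
      have hc := clifford K χ.2 θ.2 hθ
      suffices hall : ∀ φ ∈ orbit K (θ : K → ℂ), φ = fun _ => 1 by
        intro k
        have h1 := congrFun hc k
        have h2 := congrFun hc 1
        rw [Finset.sum_congr rfl hall] at h1 h2
        simp only [Pi.smul_apply, Finset.sum_apply, OneMemClass.coe_one] at h1 h2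
        rw [h1, h2]
      by_contra! hne
      obtain ⟨φ₀, hφ₀, hne₀⟩ := hne
      obtain ⟨g₀, hg₀⟩ := (mem_orbit K).1 hφ₀
      have hθ1 : (θ : K → ℂ) ≠ fun _ => 1 := fun h => hne₀ (by rw [← hg₀, h]; rfl)
      -- some conjugate is fixed by `P`
      have hidx : ¬ p ∣ (inertia K (θ : K → ℂ)).index := by
        intro hd
        obtain ⟨a, ha⟩ := classInner_natCast (isCharacter_restrict (isCharacter_of_isIrr χ.2) K)
          (isCharacter_of_isIrr θ.2)
        have h1 := clifford_degree K χ.2 θ.2 hθ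
        rw [ha, apply_one_eq_charDegree (isCharacter_of_isIrr χ.2),
          apply_one_eq_charDegree (isCharacter_of_isIrr θ.2)] at h1
        refine (Finset.mem_filter.1 hχ).2 ?_
        rw [show charDegree (χ : G → ℂ) = a * (inertia K (θ : K → ℂ)).index *
          charDegree (θ : K → ℂ) by exact_mod_cast h1]
        exact (hd.mul_left a).mul_right _
      set T := inertia K (θ : K → ℂ) with hT
      obtain ⟨R⟩ := (inferInstance : Nonempty (Sylow p T))
      have hRG : IsPGroup p ((R : Subgroup T).map T.subtype) := R.2.map _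
      obtain ⟨R', hR'⟩ := hRG.exists_le_sylow
      have hRR : (R : Subgroup T).map T.subtype = (R' : Subgroup G) := by
        refine eq_of_le_of_card_ge hR' ?_
        rw [card_map_of_injective T.subtype_injective, R'.card_eq_multiplicity,
          R.card_eq_multiplicity]
        refine Nat.pow_le_pow_right hp.out.pos (le_of_eq ?_)
        rw [← T.card_mul_index, Nat.factorization_mul Nat.card_pos.ne' index_ne_zero_of_finite,
          Finsupp.add_apply, Nat.factorization_eq_zero_of_not_dvd hidx, add_zero]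
      obtain ⟨h₀, hh₀⟩ := MulAction.exists_smul_eq G R' P
      obtain ⟨x, hxP, hx⟩ := not_invariant_of_centralizer_eq_bot K hKp (P : Subgroup G) P.2 hKC
        ⟨conjChar K h₀⁻¹ (θ : K → ℂ), isIrrCharacter_conjChar K _ θ.2⟩
        (fun h => hθ1 (by
          have h' : conjChar K h₀⁻¹ (θ : K → ℂ) = fun _ => 1 := h
          rw [← conjChar_one K (θ : K → ℂ), ← inv_mul_cancel h₀, conjChar_mul, h']
          rfl))
      refine hx ?_
      have h2 : h₀⁻¹ * x * h₀ ∈ T := by
        rw [← hh₀] at hxP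
        change x ∈ ((h₀ • R' : Sylow p G) : Subgroup G) at hxP
        rw [Sylow.coe_subgroup_smul, Subgroup.mem_pointwise_smul_iff_inv_smul_mem] at hxP
        have h3 : h₀⁻¹ * x * h₀ ∈ (R' : Subgroup G) := by simpa [MulAut.smul_def] using hxP
        rw [← hRR] at h3
        exact map_subtype_le _ h3
      show conjChar K x (conjChar K h₀⁻¹ (θ : K → ℂ)) = conjChar K h₀⁻¹ (θ : K → ℂ)
      rw [← conjChar_mul, show h₀⁻¹ * x = h₀⁻¹ * x * h₀ * h₀⁻¹ by rw [mul_inv_cancel_right],
        conjChar_mul, (mem_inertia K).1 h2]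
    -- so the restriction is a bijection
    have hdec : ∀ g : G, ∃ k : K, ∃ n : N, g = k * n := fun g => by
      obtain ⟨k, hk, n, hn, h⟩ := mem_sup_of_normal_left.1 (hKsup ▸ mem_top g : g ∈ K ⊔ N)
      exact ⟨⟨k, hk⟩, ⟨n, hn⟩, h.symm⟩
    have hval : ∀ χ ∈ SG, ∀ (k : K) (n : G), (χ : G → ℂ) (k * n) = (χ : G → ℂ) n :=
      fun χ hχ k n => by
        exact (char_mul_of_eq_one (isCharacter_of_isIrr χ.2) (hker χ hχ k) n).1
    obtain ⟨e, he, hek⟩ : ∃ e : G →* N, (∀ n : N, e n = n) ∧ ∀ k : K, e k = 1 := by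
      choose k n hkn using hdec
      have huniq : ∀ (g : G) (k' : K) (n' : N), g = k' * n' → n g = n' := by
        intro g k' n' h
        have h1 : (k' : G)⁻¹ * k g = n' * (n g : G)⁻¹ := by
          have h0 := (hkn g).symm.trans h
          rw [inv_mul_eq_iff_eq_mul, ← mul_assoc, ← h0, mul_inv_cancel_right]
        have h2 : (n' : G) * (n g : G)⁻¹ ∈ K ⊓ N :=
          ⟨h1 ▸ K.mul_mem (K.inv_mem k'.2) (k g).2, N.mul_mem n'.2 (N.inv_mem (n g).2)⟩
        rw [hKN, mem_bot, mul_inv_eq_one] at h2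
        exact Subtype.ext h2.symm
      refine ⟨MonoidHom.mk' n fun a b => huniq _ (k a * ⟨(n a : G) * k b * (n a : G)⁻¹,
        hKn.conj_mem _ (k b).2 _⟩) _ ?_, fun m => huniq _ 1 m (by simp),
        fun k' => huniq _ k' 1 (by simp)⟩
      conv_lhs => rw [hkn a, hkn b]
      push_cast
      group
    have hin : ∀ (χ : IrrCharacter G), χ ∈ SG → ∀ g : G, (χ : G → ℂ) g = (χ : G → ℂ) (e g) := by
      intro χ hχ g
      obtain ⟨k, n, rfl⟩ := hdec g
      rw [map_mul, hek, one_mul, he, hval χ hχ]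
    have hirrN : ∀ χ ∈ SG, IsIrrCharacter N (fun n : N => (χ : G → ℂ) n) := by
      intro χ hχ
      obtain ⟨ψ, hψ, hψe⟩ := exists_irr_deflation χ.2 K (fun k hk => hker χ hχ ⟨k, hk⟩)
      have h1 := isIrrCharacter_comp hψ ((QuotientGroup.mk' K).comp N.subtype) fun y => by
        obtain ⟨g, rfl⟩ := QuotientGroup.mk'_surjective K y
        obtain ⟨k, n, rfl⟩ := hdec g
        exact ⟨n, by simp [(QuotientGroup.eq_one_iff _).2 k.2]⟩
      convert h1 using 1
      exact funext fun n => (hψe n).symm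
    refine Eq.symm (Finset.sum_bij (fun χ hχ => (⟨_, hirrN χ hχ⟩ : IrrCharacter N))
      (fun χ hχ => ?_) (fun χ hχ χ' hχ' h => ?_) (fun ψ hψ => ?_) (fun χ hχ => ?_))
    · refine Finset.mem_filter.2 ⟨Finset.mem_univ _, ?_⟩
      rw [show charDegree (fun n : N => (χ : G → ℂ) n) = charDegree (χ : G → ℂ) from
        charDegree_eq_of_apply_one (apply_one_eq_charDegree (isCharacter_of_isIrr χ.2))]
      exact (Finset.mem_filter.1 hχ).2
    · refine Subtype.ext (funext fun g => ?_)
      rw [hin χ hχ, hin χ' hχ']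
      exact congrFun (congrArg Subtype.val h) (e g)
    · refine ⟨⟨_, isIrrCharacter_comp ψ.2 e fun n => ⟨n, he n⟩⟩,
        Finset.mem_filter.2 ⟨Finset.mem_univ _, ?_⟩, Subtype.ext (funext fun n => ?_)⟩
      · rw [charDegree_eq_of_apply_one (n := charDegree (ψ : N → ℂ))
          (show (ψ : N → ℂ) (e 1) = _ by
            rw [map_one, apply_one_eq_charDegree (isCharacter_of_isIrr ψ.2)])]
        exact (Finset.mem_filter.1 hψ).2
      · exact congrArg (ψ : N → ℂ) (he n)
    · congr 1

end Cfsg.Agent.Lib.PrimeDegreeSum
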