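/-
Pronormality of the overgroups of Sylow subgroups through an extension.
-/
import Mathlib.GroupTheory.Sylow
import Mathlib.GroupTheory.QuotientGroup.Basic
import Cfsg.Prelude.Def_HallClasses

set_option autoImplicit false

namespace Cfsg.Agent.Lib.PronormalSylow

variable {G : Type*} [Group G]

/-- Conjugate of a subgroup. -/
def cj (g : G) (K : Subgroup G) : Subgroup G := K.map (MulAut.conj g).toMonoidHom

lemma mem_cj {g x : G} {K : Subgroup G} : x ∈ cj g K ↔ g⁻¹ * x * g ∈ K := by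
  constructor
  · rintro ⟨y, hy, rfl⟩; simpa [mul_assoc] using hy
  · exact fun h => ⟨_, h, by simp [mul_assoc]⟩

lemma cj_mul (a b : G) (K : Subgroup G) : cj (a * b) K = cj a (cj b K) := by
  ext x; simp [mem_cj, mul_assoc]

lemma cj_one (K : Subgroup G) : cj 1 K = K := by
  ext x; simp [mem_cj]

lemma cj_inv_cancel (a : G) (K : Subgroup G) : cj a⁻¹ (cj a K) = K := by
  rw [← cj_mul, inv_mul_cancel, cj_one]

lemma cj_eq_self_iff {a : G} {K : Subgroup G} :
    cj a K = K ↔ a ∈ Subgroup.normalizer (K : Set G) :=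
  Subgroup.mem_normalizer_iff_map_conj_eq.symm

lemma cj_of_mem {a : G} {K : Subgroup G} (ha : a ∈ K) : cj a K = K :=
  cj_eq_self_iff.2 (Subgroup.le_normalizer ha)

lemma cj_mono (a : G) {K M : Subgroup G} (h : K ≤ M) : cj a K ≤ cj a M := Subgroup.map_mono h

lemma cj_sup (a : G) (K M : Subgroup G) : cj a (K ⊔ M) = cj a K ⊔ cj a M := Subgroup.map_sup _ _ _

lemma cj_le_of_mem {a : G} {K J : Subgroup G} (ha : a ∈ J) (h : K ≤ J) : cj a K ≤ J :=
  (cj_mono a h).trans (cj_of_mem ha).le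

lemma cj_map {H : Type*} [Group H] (f : G →* H) (g : G) (K : Subgroup G) :
    (cj g K).map f = cj (f g) (K.map f) := by
  simp only [cj, Subgroup.map_map]
  congr 1
  ext x; simp

lemma cj_normal {N : Subgroup G} [N.Normal] (a : G) : cj a N = N :=
  cj_eq_self_iff.2 (by rw [Subgroup.normalizer_eq_top]; trivial)

lemma cj_inf_normal (a : G) (K : Subgroup G) {N : Subgroup G} [N.Normal] :
    cj a (K ⊓ N) = cj a K ⊓ N := by
  rw [cj, Subgroup.map_inf _ _ _ (MulAut.conj a).injective]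
  exact congrArg _ (cj_normal a)

lemma pronormal_iff {K : Subgroup G} :
    IsPronormal K ↔ ∀ g, ∃ x ∈ K ⊔ cj g K, cj g K = cj x K := Iff.rfl

lemma pronormal_cj {K : Subgroup G} (a : G) (h : IsPronormal K) : IsPronormal (cj a K) := by
  intro g
  obtain ⟨x, hx, hxe⟩ := h (a⁻¹ * g * a)
  change cj (a⁻¹ * g * a) K = cj x K at hxe
  refine ⟨a * x * a⁻¹, ?_, ?_⟩
  · have : a * x * a⁻¹ ∈ cj a (K ⊔ cj (a⁻¹ * g * a) K) := mem_cj.2 (by rwa [show a⁻¹ * (a * x * a⁻¹) * a = x by group])
    rw [cj_sup, ← cj_mul, show a * (a⁻¹ * g * a) = g * a by group, cj_mul] at this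
    exact this
  · change cj g (cj a K) = cj (a * x * a⁻¹) (cj a K)
    rw [← cj_mul, ← cj_mul, show a * x * a⁻¹ * a = a * x by group, cj_mul a x, ← hxe, ← cj_mul,
      show a * (a⁻¹ * g * a) = g * a by group]

lemma pronormal_subgroupOf {K N : Subgroup G} (hKN : K ≤ N) (h : IsPronormal K) :
    IsPronormal (K.subgroupOf N) := by
  intro g
  obtain ⟨x, hx, hxe⟩ := h (g : G)
  change cj (g : G) K = cj x K at hxe
  have hmap : ∀ y : N, (cj y (K.subgroupOf N)).map N.subtype = cj (y : G) K := fun y => by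
    rw [cj_map, Subgroup.subgroupOf_map_subtype, inf_of_le_left hKN]
    rfl
  have hsup : (K.subgroupOf N ⊔ cj g (K.subgroupOf N)).map N.subtype = K ⊔ cj (g : G) K := by
    rw [Subgroup.map_sup, hmap, Subgroup.subgroupOf_map_subtype, inf_of_le_left hKN]
  change x ∈ K ⊔ cj (g : G) K at hx
  rw [← hsup] at hx
  obtain ⟨y, hy, rfl⟩ := hx
  refine ⟨y, hy, Subgroup.map_injective N.subtype_injective ?_⟩
  change (cj g (K.subgroupOf N)).map N.subtype = (cj y (K.subgroupOf N)).map N.subtype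
  rw [hmap, hmap]; exact hxe

lemma pronormal_map {H : Type*} [Group H] (f : G →* H) (hf : Function.Surjective f)
    {K : Subgroup G} (h : IsPronormal K) : IsPronormal (K.map f) := by
  intro g
  obtain ⟨g, rfl⟩ := hf g
  obtain ⟨x, hx, hxe⟩ := h g
  change cj g K = cj x K at hxe
  refine ⟨f x, ?_, ?_⟩
  · have := Subgroup.mem_map_of_mem f hx
    rw [Subgroup.map_sup] at this
    exact (congrArg (fun M => f x ∈ K.map f ⊔ M) (cj_map f g K)).mp this
  · change cj (f g) (K.map f) = cj (f x) (K.map f)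
    rw [← cj_map, ← cj_map, hxe]

variable [Finite G] {p : ℕ} [Fact p.Prime]

lemma sylow_inf_normal (A : Subgroup G) [A.Normal] (P : Sylow p G) :
    ¬ p ∣ ((P : Subgroup G) ⊓ A).relIndex A := by
  intro h
  apply P.not_dvd_index
  refine h.trans ?_
  have card_rel : ∀ {H M : Subgroup G}, H ≤ M → Nat.card H * H.relIndex M = Nat.card M := fun {H M} hle => by
    rw [← Subgroup.relIndex_bot_left H, ← Subgroup.relIndex_bot_left M,
      Subgroup.relIndex_mul_relIndex ⊥ H M bot_le hle]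
  have h1 := card_rel (inf_le_right : (P : Subgroup G) ⊓ A ≤ A)
  have h2 := card_rel (inf_le_left : (P : Subgroup G) ⊓ A ≤ (P : Subgroup G))
  have h3 := card_rel (le_sup_right : A ≤ (P : Subgroup G) ⊔ A)
  rw [Subgroup.inf_relIndex_left] at h2
  rw [Subgroup.relIndex_sup_right] at h3
  have h4 : Nat.card ((P : Subgroup G) ⊔ A : Subgroup G) ∣ Nat.card G := Subgroup.card_subgroup_dvd_card _
  rw [← h3, ← h1, ← (P : Subgroup G).card_mul_index] at h4
  refine Nat.dvd_of_mul_dvd_mul_left (Nat.card_pos (α := (P : Subgroup G))) (dvd_trans (dvd_of_eq ?_) h4)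
  rw [← h2]; ring

lemma sylow_conj_in {B : Subgroup G} {T T' : Subgroup G} (hT : T ≤ B) (hT' : T' ≤ B)
    (h1 : IsPGroup p T) (h2 : ¬ p ∣ T.relIndex B) (h1' : IsPGroup p T') (h2' : ¬ p ∣ T'.relIndex B) :
    ∃ b ∈ B, cj b T = T' := by
  let S : Sylow p B := (h1.comap_of_injective B.subtype B.subtype_injective).toSylow h2
  let S' : Sylow p B := (h1'.comap_of_injective B.subtype B.subtype_injective).toSylow h2'
  obtain ⟨b, hb⟩ := MulAction.exists_smul_eq B S S'
  refine ⟨b, b.2, ?_⟩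
  have h := congrArg (fun X : Sylow p B => (X : Subgroup B).map B.subtype) hb
  simp only [Sylow.coe_subgroup_smul] at h
  change (cj b (T.subgroupOf B)).map B.subtype = (T'.subgroupOf B).map B.subtype at h
  rw [cj_map, Subgroup.subgroupOf_map_subtype, Subgroup.subgroupOf_map_subtype,
    inf_of_le_left hT, inf_of_le_left hT'] at h
  exact h

/-- Any Sylow subgroup of a normal subgroup is conjugate to the trace of any Sylow subgroup. -/
lemma exists_cj_inf (A : Subgroup G) [A.Normal] (P : Sylow p G) {T : Subgroup G} (hTA : T ≤ A)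
    (hT1 : IsPGroup p T) (hT2 : ¬ p ∣ T.relIndex A) :
    ∃ a : G, cj a ((P : Subgroup G) ⊓ A) = T := by
  obtain ⟨a, -, ha⟩ := sylow_conj_in inf_le_right hTA (P.isPGroup'.to_le inf_le_left)
    (sylow_inf_normal A P) hT1 hT2
  exact ⟨a, ha⟩

lemma core (A : Subgroup G) [A.Normal] (K : Subgroup G) (T : Subgroup G)
    [(T.subgroupOf (Subgroup.normalizer (T : Set G))).Normal] (hTA : T ≤ A) (hTK : T ≤ K)
    (hT1 : IsPGroup p T) (hT2 : ¬ p ∣ T.relIndex A)
    (h1 : IsPronormal (K.map (QuotientGroup.mk' A)))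
    (h2 : (Subgroup.normalizer (K : Set G)).map (QuotientGroup.mk' A) =
      Subgroup.normalizer ((K.map (QuotientGroup.mk' A) : Subgroup (G ⧸ A)) : Set (G ⧸ A)))
    (h3 : IsPronormal ((K ⊓ A).subgroupOf A))
    (h4 : IsPronormal (((K ⊓ Subgroup.normalizer (T : Set G)).subgroupOf
        (Subgroup.normalizer (T : Set G))).map
      (QuotientGroup.mk' (T.subgroupOf (Subgroup.normalizer (T : Set G)))))) :
    IsPronormal K := by
  set B := K ⊓ A with hB
  set N := Subgroup.normalizer (T : Set G) with hN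
  have hTB : T ≤ B := le_inf hTK hTA
  have hT2B : ¬ p ∣ T.relIndex B := fun h =>
    hT2 (h.trans ⟨_, (Subgroup.relIndex_mul_relIndex T B A hTB inf_le_right).symm⟩)
  have hKB : K ≤ Subgroup.normalizer (B : Set G) := fun k hk =>
    cj_eq_self_iff.1 (by
      ext x
      simp only [mem_cj, hB, Subgroup.mem_inf]
      refine and_congr ⟨fun h => ?_, fun h => mul_mem (mul_mem (inv_mem hk) h) hk⟩ ⟨fun h => ?_, fun h => ?_⟩
      · have := mul_mem (mul_mem hk h) (inv_mem hk)
        simpa [mul_assoc] using this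
      · have := (inferInstance : A.Normal).conj_mem _ h k
        simpa [mul_assoc] using this
      · have := (inferInstance : A.Normal).conj_mem _ h k⁻¹
        simpa [mul_assoc] using this)
  -- elements normalizing both
  have stepC : ∀ a ∈ A, cj a B = B → cj a T = T → ∃ y ∈ K ⊔ cj a K, cj a K = cj y K := by
    intro a ha haB haT
    have haN : a ∈ N := cj_eq_self_iff.1 haT
    set M := K ⊓ N with hM
    have hKM : K = B ⊔ M := by
      refine le_antisymm (fun k hk => ?_) (sup_le inf_le_left inf_le_left)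
      have hkB : cj k T ≤ B := (cj_mono k hTB).trans (cj_eq_self_iff.2 (hKB hk)).le
      have hr : (cj k T).relIndex B = T.relIndex B := by
        conv_lhs => rw [← cj_eq_self_iff.2 (hKB hk)]
        exact Subgroup.relIndex_map_map_of_injective _ _ (MulAut.conj k).injective
      obtain ⟨b, hb, hbe⟩ := sylow_conj_in hTB hkB hT1 hT2B (hT1.map _) (hr ▸ hT2B)
      have hn : b⁻¹ * k ∈ M := ⟨K.mul_mem (K.inv_mem hb.1) hk,
        cj_eq_self_iff.1 (by rw [cj_mul, ← hbe, cj_inv_cancel])⟩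
      have := mul_mem (Subgroup.mem_sup_left (T := M) hb) (Subgroup.mem_sup_right (S := B) hn)
      simpa using this
    obtain ⟨yb, hy, hye⟩ := h4 (QuotientGroup.mk' (T.subgroupOf N) ⟨a, haN⟩)
    set q := QuotientGroup.mk' (T.subgroupOf N)
    set M' := M.subgroupOf N
    change yb ∈ M'.map q ⊔ cj (q ⟨a, haN⟩) (M'.map q) at hy
    change cj (q ⟨a, haN⟩) (M'.map q) = cj yb (M'.map q) at hye
    rw [← cj_map, ← Subgroup.map_sup] at hy
    obtain ⟨y, hy, rfl⟩ := hy
    rw [← cj_map, ← cj_map] at hye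
    have hker : ∀ z : N, q.ker ≤ cj z M' := fun z => by
      rw [QuotientGroup.ker_mk', ← cj_normal (N := T.subgroupOf N) z]
      exact cj_mono z (Subgroup.comap_mono (le_inf hTK Subgroup.le_normalizer))
    have hcomap := congrArg (Subgroup.comap q) hye
    rw [Subgroup.comap_map_eq, Subgroup.comap_map_eq, sup_of_le_left (hker _), sup_of_le_left (hker _)] at hcomap
    have hmap : ∀ z : N, (cj z M').map N.subtype = cj (z : G) M := fun z => by
      rw [cj_map, Subgroup.subgroupOf_map_subtype, inf_of_le_left inf_le_right]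
      rfl
    have hMy : cj a M = cj (y : G) M := by
      have := congrArg (Subgroup.map N.subtype) hcomap
      rwa [hmap, hmap] at this
    have hyJ : (y : G) ∈ K ⊔ cj a K := by
      have := Subgroup.mem_map_of_mem N.subtype hy
      rw [Subgroup.map_sup, hmap, Subgroup.subgroupOf_map_subtype, inf_of_le_left inf_le_right] at this
      exact sup_le_sup inf_le_left (cj_mono a inf_le_left) this
    have hJB : K ⊔ cj a K ≤ Subgroup.normalizer (B : Set G) :=
      sup_le hKB (cj_le_of_mem (cj_eq_self_iff.1 haB) hKB)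
    refine ⟨y, hyJ, ?_⟩
    conv_lhs => rw [hKM]
    conv_rhs => rw [hKM]
    rw [cj_sup, cj_sup, haB, cj_eq_self_iff.2 (hJB hyJ), hMy]
  have stepB : ∀ a ∈ A, cj a B = B → ∃ y ∈ K ⊔ cj a K, cj a K = cj y K := by
    intro a ha haB
    have hle : cj a T ≤ B := (cj_mono a hTB).trans haB.le
    have hr : (cj a T).relIndex B = T.relIndex B := by
      conv_lhs => rw [← haB]
      exact Subgroup.relIndex_map_map_of_injective _ _ (MulAut.conj a).injective
    obtain ⟨b, hb, hbe⟩ := sylow_conj_in hTB hle hT1 hT2B (hT1.map _) (hr ▸ hT2B)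
    obtain ⟨y, hy, hye⟩ := stepC (b⁻¹ * a) (mul_mem (inv_mem (show b ∈ A from hb.2)) ha)
      (by rw [cj_mul, haB, cj_of_mem (inv_mem hb)]) (by rw [cj_mul, ← hbe, cj_inv_cancel])
    have hbJ : b ∈ K ⊔ cj a K := Subgroup.mem_sup_left hb.1
    refine ⟨b * y, mul_mem hbJ (?_ : y ∈ K ⊔ cj a K), ?_⟩
    · refine (sup_le le_sup_left ?_ : K ⊔ cj (b⁻¹ * a) K ≤ K ⊔ cj a K) hy
      rw [cj_mul]
      exact cj_le_of_mem (inv_mem hbJ) le_sup_right
    · rw [cj_mul b y, ← hye, ← cj_mul, mul_inv_cancel_left]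
  have stepA : ∀ a ∈ A, ∃ y ∈ K ⊔ cj a K, cj a K = cj y K := by
    intro a ha
    obtain ⟨y, hy, hye⟩ := h3 ⟨a, ha⟩
    set B' := B.subgroupOf A
    change y ∈ B' ⊔ cj ⟨a, ha⟩ B' at hy
    change cj ⟨a, ha⟩ B' = cj y B' at hye
    have hmap : ∀ z : A, (cj z B').map A.subtype = cj (z : G) B := fun z => by
      rw [cj_map, Subgroup.subgroupOf_map_subtype, inf_of_le_left inf_le_right]
      rfl
    have hBy : cj a B = cj (y : G) B := by
      have := congrArg (Subgroup.map A.subtype) hye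
      rwa [hmap, hmap] at this
    have hyJ : (y : G) ∈ K ⊔ cj a K := by
      have := Subgroup.mem_map_of_mem A.subtype hy
      rw [Subgroup.map_sup, hmap, Subgroup.subgroupOf_map_subtype, inf_of_le_left inf_le_right] at this
      exact sup_le_sup inf_le_left (cj_mono a inf_le_left) this
    obtain ⟨z, hz, hze⟩ := stepB ((y : G)⁻¹ * a) (mul_mem (inv_mem y.2) ha)
      (by rw [cj_mul, hBy, cj_inv_cancel])
    refine ⟨(y : G) * z, mul_mem hyJ (?_ : z ∈ K ⊔ cj a K), ?_⟩
    · refine (sup_le le_sup_left ?_ : K ⊔ cj ((y : G)⁻¹ * a) K ≤ K ⊔ cj a K) hz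
      rw [cj_mul]
      exact cj_le_of_mem (inv_mem hyJ) le_sup_right
    · rw [cj_mul (y : G) z, ← hze, ← cj_mul, mul_inv_cancel_left]
  intro g
  obtain ⟨xb, hx, hxe⟩ := h1 (QuotientGroup.mk' A g)
  set π := QuotientGroup.mk' A
  change xb ∈ K.map π ⊔ cj (π g) (K.map π) at hx
  change cj (π g) (K.map π) = cj xb (K.map π) at hxe
  rw [← cj_map, ← Subgroup.map_sup] at hx
  obtain ⟨j, hj, rfl⟩ := hx
  have hn : π (j⁻¹ * g) ∈ Subgroup.normalizer ((K.map π : Subgroup (G ⧸ A)) : Set (G ⧸ A)) := by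
    refine cj_eq_self_iff.1 ?_
    rw [map_mul, map_inv, cj_mul, hxe, cj_inv_cancel]
  rw [← h2] at hn
  obtain ⟨n, hn, hne⟩ := hn
  have haA : j⁻¹ * g * n⁻¹ ∈ A := by
    have : π (j⁻¹ * g * n⁻¹) = 1 := by rw [map_mul π (j⁻¹ * g), map_inv π n, hne, mul_inv_cancel]
    exact (QuotientGroup.eq_one_iff _).1 this
  obtain ⟨y, hy, hye⟩ := stepA _ haA
  have hg : cj g K = cj j (cj (j⁻¹ * g * n⁻¹) K) := by
    rw [← cj_mul, show j * (j⁻¹ * g * n⁻¹) = g * n⁻¹ by group, cj_mul,
      cj_eq_self_iff.2 (inv_mem hn)]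
  refine ⟨j * y, mul_mem hj (?_ : y ∈ K ⊔ cj g K), ?_⟩
  · refine (sup_le le_sup_left ?_ : K ⊔ cj (j⁻¹ * g * n⁻¹) K ≤ K ⊔ cj g K) hy
    have : cj (j⁻¹ * g * n⁻¹) K = cj j⁻¹ (cj g K) := by rw [hg, cj_inv_cancel]
    rw [this]
    exact cj_le_of_mem (inv_mem hj) le_sup_right
  · change cj g K = cj (j * y) K
    rw [hg, hye, cj_mul j y]

/-- Overgroups of a Sylow subgroup of the normalizer quotient come from `G`. -/
lemma quot_pronormal (A : Subgroup G) [A.Normal] (T : Subgroup G)
    [(T.subgroupOf (Subgroup.normalizer (T : Set G))).Normal] (hTA : T ≤ A)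
    (hT1 : IsPGroup p T) (hT2 : ¬ p ∣ T.relIndex A)
    (hG : ∀ K : Subgroup G, (∃ P : Sylow p G, (P : Subgroup G) ≤ K) → IsPronormal K)
    (K : Subgroup (↥(Subgroup.normalizer (T : Set G)) ⧸ T.subgroupOf (Subgroup.normalizer (T : Set G))))
    (hK : ∃ P : Sylow p (↥(Subgroup.normalizer (T : Set G)) ⧸ T.subgroupOf (Subgroup.normalizer (T : Set G))),
      (P : Subgroup _) ≤ K) : IsPronormal K := by
  set N := Subgroup.normalizer (T : Set G)
  set q := QuotientGroup.mk' (T.subgroupOf N)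
  obtain ⟨P₀⟩ : Nonempty (Sylow p G) := inferInstance
  obtain ⟨a, ha⟩ := exists_cj_inf A P₀ hTA hT1 hT2
  have hPN : cj a (P₀ : Subgroup G) ≤ N := fun x hx =>
    cj_eq_self_iff.1 (by rw [← ha, cj_inf_normal, cj_inf_normal, cj_of_mem hx])
  obtain ⟨Q, hQ⟩ := hK
  have hNi : ¬ p ∣ N.index := fun h => by
    have h1 : ¬ p ∣ (cj a (P₀ : Subgroup G)).index := by
      show ¬ p ∣ ((P₀ : Subgroup G).map ((MulAut.conj a : G ≃* G) : G →* G)).index
      rw [Subgroup.index_map_equiv]; exact P₀.not_dvd_index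
    exact h1 (h.trans (Subgroup.index_dvd_of_le hPN))
  set K₀ := (K.comap q).map N.subtype
  have hK₀ : ¬ p ∣ K₀.index := by
    rw [Subgroup.index_map_subtype, Subgroup.index_comap_of_surjective _ (QuotientGroup.mk'_surjective _)]
    intro h
    rcases (Fact.out : p.Prime).dvd_mul.1 h with h | h
    · exact Q.not_dvd_index (h.trans (Subgroup.index_dvd_of_le hQ))
    · exact hNi h
  let S : Sylow p K₀ := default
  have hS : ¬ p ∣ ((S : Subgroup K₀).map K₀.subtype).index := by
    rw [Subgroup.index_map_subtype]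
    intro h
    rcases (Fact.out : p.Prime).dvd_mul.1 h with h | h
    · exact S.not_dvd_index h
    · exact hK₀ h
  have := hG K₀ ⟨(S.isPGroup'.map _).toSylow hS, Subgroup.map_subtype_le _⟩
  have := pronormal_subgroupOf (Subgroup.map_subtype_le _) this
  rw [Subgroup.subgroupOf, Subgroup.comap_map_eq_self_of_injective N.subtype_injective] at this
  have := pronormal_map q (QuotientGroup.mk'_surjective _) this
  rwa [Subgroup.map_comap_eq_self_of_surjective (QuotientGroup.mk'_surjective _)] at this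

/-- The normalizer of a pronormal overgroup maps onto the normalizer of its image. -/
lemma normalizer_map (A : Subgroup G) [A.Normal] (K : Subgroup G) (hK : IsPronormal K) :
    (Subgroup.normalizer (K : Set G)).map (QuotientGroup.mk' A) =
      Subgroup.normalizer ((K.map (QuotientGroup.mk' A) : Subgroup (G ⧸ A)) : Set (G ⧸ A)) := by
  set π := QuotientGroup.mk' A
  apply le_antisymm
  · rintro _ ⟨n, hn, rfl⟩
    refine cj_eq_self_iff.1 ?_
    rw [← cj_map, cj_eq_self_iff.2 hn]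
  · intro x hx
    obtain ⟨g, rfl⟩ := QuotientGroup.mk'_surjective A x
    obtain ⟨j, hj, hje⟩ := hK g
    change cj g K = cj j K at hje
    have hjle : K ⊔ cj g K ≤ (K.map π).comap π :=
      sup_le (Subgroup.le_comap_map _ _)
        (Subgroup.map_le_iff_le_comap.1 (by rw [cj_map, cj_eq_self_iff.2 hx]))
    obtain ⟨k, hk, hke⟩ := hjle hj
    have hn : j⁻¹ * g ∈ Subgroup.normalizer (K : Set G) :=
      cj_eq_self_iff.1 (by rw [cj_mul, hje, cj_inv_cancel])
    refine ⟨k * (j⁻¹ * g), mul_mem (Subgroup.le_normalizer hk) hn, ?_⟩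
    rw [map_mul, hke, ← map_mul, mul_inv_cancel_left]

/-- The criterion: overgroups of Sylow subgroups are pronormal. -/
theorem pronormal_above (A : Subgroup G) [A.Normal] (T : Subgroup G)
    [(T.subgroupOf (Subgroup.normalizer (T : Set G))).Normal] (hTA : T ≤ A)
    (hT1 : IsPGroup p T) (hT2 : ¬ p ∣ T.relIndex A)
    (hA : ∀ K : Subgroup ↥A, (∃ P : Sylow p ↥A, (P : Subgroup ↥A) ≤ K) → IsPronormal K)
    (hQ : ∀ K : Subgroup (G ⧸ A), (∃ P : Sylow p (G ⧸ A), (P : Subgroup (G ⧸ A)) ≤ K) → IsPronormal K)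
    (hN : ∀ K : Subgroup (↥(Subgroup.normalizer (T : Set G)) ⧸ T.subgroupOf (Subgroup.normalizer (T : Set G))),
      (∃ P : Sylow p (↥(Subgroup.normalizer (T : Set G)) ⧸ T.subgroupOf (Subgroup.normalizer (T : Set G))),
        (P : Subgroup _) ≤ K) → IsPronormal K)
    (hnorm : ∀ K : Subgroup G, (∃ P : Sylow p G, (P : Subgroup G) ≤ K) →
      (Subgroup.normalizer (K : Set G)).map (QuotientGroup.mk' A) =
        Subgroup.normalizer ((K.map (QuotientGroup.mk' A) : Subgroup (G ⧸ A)) : Set (G ⧸ A)))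
    (K : Subgroup G) (hK : ∃ P : Sylow p G, (P : Subgroup G) ≤ K) : IsPronormal K := by
  obtain ⟨P₀, hP₀⟩ := hK
  obtain ⟨a, ha⟩ := exists_cj_inf A P₀ hTA hT1 hT2
  suffices h : IsPronormal (cj a K) by
    simpa [cj_inv_cancel] using pronormal_cj a⁻¹ h
  let P : Sylow p G := (P₀.isPGroup'.map _).toSylow (show ¬ p ∣ (cj a (P₀ : Subgroup G)).index by
      show ¬ p ∣ ((P₀ : Subgroup G).map ((MulAut.conj a : G ≃* G) : G →* G)).index
      rw [Subgroup.index_map_equiv]; exact P₀.not_dvd_index)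
  have hPK : (P : Subgroup G) ≤ cj a K := cj_mono a hP₀
  have hPT : (P : Subgroup G) ⊓ A = T := by
    rw [← ha, cj_inf_normal]; rfl
  have hTK : T ≤ cj a K := hPT ▸ inf_le_left.trans hPK
  have hPN : (P : Subgroup G) ≤ Subgroup.normalizer (T : Set G) := by
    intro x hx
    refine cj_eq_self_iff.1 ?_
    rw [← hPT, cj_inf_normal, cj_of_mem hx]
  refine core A (cj a K) T hTA hTK hT1 hT2 (hQ _ ⟨P.mapSurjective (QuotientGroup.mk'_surjective A),
    Subgroup.map_mono hPK⟩) (hnorm _ ⟨P, hPK⟩) (hA _ ⟨?_, ?_⟩) (hN _ ⟨?_, ?_⟩)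
  · exact (hT1.comap_of_injective A.subtype A.subtype_injective).toSylow hT2
  · exact Subgroup.comap_mono (le_inf hTK hTA)
  · exact (P.subtype hPN).mapSurjective (QuotientGroup.mk'_surjective _)
  · exact Subgroup.map_mono (Subgroup.comap_mono (le_inf hPK hPN))

end Cfsg.Agent.Lib.PronormalSylow
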