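import Cfsg.Agent.Lib.Uniq.PGroup
import Cfsg.Agent.Lib.OddLocal.CoprimeOdd
import Cfsg.Agent.Lib.Thompson.Cyclic
import Cfsg.Agent.Lib.Transfer.Alperin
import Cfsg.Prelude.Def_CaseTheorems

/-! Invariant sections of an odd `p`-group of rank at most two have rank at most two. -/

set_option autoImplicit false

namespace Cfsg.Agent.Lib.RankTwoSeries

open Subgroup
open scoped commutatorElement

variable {p : ℕ} [hp : Fact p.Prime]

/-- Buckley's lemma: if elements of order `p` are central then so are they modulo the subgroup they form. -/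
theorem commutator_pow_eq_one {R : Type*} [Group R] [Finite R] (hp2 : p ≠ 2) (hR : IsPGroup p R)
    (hc : ∀ x : R, x ^ p = 1 → ∀ y : R, Commute x y) :
    ∀ x y : R, (x ^ p) ^ p = 1 → ⁅y, x⁆ ^ p = 1 := by
  intro x y
  induction hn : Nat.card (closure ({x, y} : Set R)) using Nat.strong_induction_on generalizing x y with
  | _ n ih =>
  subst hn
  intro hx
  set U := closure ({x, y} : Set R) with hU
  have hxU : x ∈ U := subset_closure (by simp)
  have hyU : y ∈ U := subset_closure (by simp)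
  by_cases hcom : Commute y x
  · rw [commutatorElement_eq_one_iff_commute.mpr hcom, one_pow]
  have hne : (zpowers (⟨x, hxU⟩ : U)) ≠ ⊤ := by
    intro h
    obtain ⟨i, hi⟩ := mem_zpowers_iff.mp (h.ge (mem_top (⟨y, hyU⟩ : U)))
    have hib : x ^ i = y := by simpa using congrArg Subtype.val hi
    exact hcom (hib ▸ ((Commute.refl x).zpow_left i))
  obtain ⟨V, hV, hxV⟩ := (eq_top_or_exists_le_coatom _).resolve_left hne
  haveI : Group.IsNilpotent U := (hR.to_subgroup U).isNilpotent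
  haveI : V.Normal := NormalizerCondition.normal_of_coatom V Group.normalizerCondition_of_isNilpotent hV
  have hxV' : (⟨x, hxU⟩ : U) ∈ V := hxV (mem_zpowers _)
  set x' := y * x * y⁻¹ with hx'
  have hle : closure ({x, x'} : Set R) ≤ V.map U.subtype := by
    rw [closure_le]
    rintro z (rfl | rfl)
    · exact ⟨_, hxV', rfl⟩
    · exact ⟨⟨y, hyU⟩ * ⟨x, hxU⟩ * ⟨y, hyU⟩⁻¹, Subgroup.Normal.conj_mem inferInstance _ hxV' _, rfl⟩
  have hlt : Nat.card (closure ({x, x'} : Set R)) < Nat.card U := by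
    refine lt_of_le_of_lt (card_le_of_le hle) ?_
    rw [card_map_of_injective U.subtype_injective]
    exact Coprime.card_lt_of_ne_top hV.1
  have h1 := ih _ hlt x x' rfl hx
  -- `x⁻¹` and `x'` generate a subgroup of class two
  have hxp : ∀ z, Commute (x ^ p) z := hc _ hx
  have hz : Commute ⁅x', x⁆ x' ∧ Commute ⁅x', x⁆ x := ⟨hc _ h1 _, hc _ h1 _⟩
  have hrel : x' * x⁻¹ = ⁅x', x⁆⁻¹ * x⁻¹ * x' := by
    have e : x⁻¹ * ⁅x', x⁆ * x = ⁅x', x⁆ := by rw [(hz.2.symm.inv_left).eq, inv_mul_cancel_right]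
    rw [← e]
    simp [commutatorElement_def, mul_assoc]
  obtain ⟨-, h3⟩ := OddLocal.mul_pow_of_central_commutator
    (hz.2.inv_left.inv_right : Commute ⁅x', x⁆⁻¹ x⁻¹) hz.1.inv_left hrel p
  obtain ⟨k, hk⟩ : p ∣ p.choose 2 := Nat.Prime.dvd_choose_self hp.out two_ne_zero
    (lt_of_le_of_ne hp.out.two_le (Ne.symm hp2))
  have hx'p : x' ^ p = x ^ p := by rw [hx', conj_pow, ← (hxp y).eq, mul_inv_cancel_right]
  rw [hx'p, inv_pow, inv_mul_cancel, one_mul, hk, inv_pow, pow_mul, h1, one_pow, inv_one] at h3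
  have h4 : (x' * x⁻¹) ^ p = 1 := by
    rw [show x' * x⁻¹ = x * (x⁻¹ * x') * x⁻¹ by group, conj_pow, h3, mul_one, mul_inv_cancel]
  rw [show ⁅y, x⁆ = x' * x⁻¹ from rfl]
  exact h4

/-- A chief factor inside a smaller normal subgroup. -/
theorem descend {X : Type*} [Group X] (Q K R : Subgroup X) [K.Normal] [R.Normal] (hRQ : R ≤ Q) (hKQ : K < Q)
    (hchief : ∀ L : Subgroup X, L.Normal → K ≤ L → L ≤ Q → L = K ∨ L = Q) (hRK : ¬ R ≤ K) :
    (K ⊓ R).relIndex R = K.relIndex Q ∧ K ⊓ R < R ∧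
      ∀ L : Subgroup X, L.Normal → K ⊓ R ≤ L → L ≤ R → L = K ⊓ R ∨ L = R := by
  have hsup : R ⊔ K = Q := (hchief (R ⊔ K) inferInstance le_sup_right (sup_le hRQ hKQ.le)).resolve_left
    fun h => hRK (h ▸ le_sup_left)
  refine ⟨?_, lt_of_le_of_ne inf_le_right (fun h => hRK (h ▸ inf_le_left)), fun L hL hKL hLR => ?_⟩
  · rw [inf_relIndex_right, ← relIndex_sup_right, hsup]
  · haveI := hL
    rcases hchief (L ⊔ K) inferInstance le_sup_right (sup_le (hLR.trans hRQ) hKQ.le) with h | h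
    · exact Or.inl (le_antisymm (le_inf (h ▸ le_sup_left) hLR) hKL)
    · refine Or.inr (le_antisymm hLR fun r hr => ?_)
      have hr' : r ∈ L ⊔ K := h.symm ▸ hRQ hr
      obtain ⟨l, hl, k, hk, rfl⟩ := mem_sup_of_normal_left.mp hr'
      exact mul_mem hl (hKL ⟨hk, (mul_mem_cancel_left (hLR hl)).mp hr⟩)

/-- The elements of order dividing `p`, when they are central. -/
def omega {X : Type*} [Group X] (p : ℕ) (Q : Subgroup X)
    (hc : ∀ x ∈ Q, x ^ p = 1 → ∀ y ∈ Q, Commute x y) : Subgroup X where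
  carrier := {x | x ∈ Q ∧ x ^ p = 1}
  one_mem' := ⟨one_mem Q, one_pow p⟩
  mul_mem' := fun {a b} ha hb => ⟨mul_mem ha.1 hb.1, by rw [(hc a ha.1 ha.2 b hb.1).mul_pow, ha.2, hb.2, one_mul]⟩
  inv_mem' := fun {a} ha => ⟨inv_mem ha.1, by rw [inv_pow, ha.2, inv_one]⟩

theorem omega_normal {X : Type*} [Group X] (Q : Subgroup X) [Q.Normal]
    (hc : ∀ x ∈ Q, x ^ p = 1 → ∀ y ∈ Q, Commute x y) : (omega p Q hc).Normal :=
  ⟨fun n hn g => ⟨Subgroup.Normal.conj_mem inferInstance n hn.1 g, by rw [conj_pow, hn.2, mul_one, mul_inv_cancel]⟩⟩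

/-- The `p`-central case. -/
theorem chief_le_of_central.{u} (n : ℕ) : ∀ (X : Type u) [Group X] [Finite X] (Q K : Subgroup X) [Q.Normal] [K.Normal],
    Nat.card X = n → p ≠ 2 → IsPGroup p Q → K < Q →
    (∀ L : Subgroup X, L.Normal → K ≤ L → L ≤ Q → L = K ∨ L = Q) →
    (hc : ∀ x ∈ Q, x ^ p = 1 → ∀ y ∈ Q, Commute x y) → Nat.card (omega p Q hc) ≤ p ^ 2 →
    K.relIndex Q ≤ p ^ 2 := by
  induction n using Nat.strong_induction_on with
  | _ n ih =>
  intro X _ _ Q K _ _ hn hp2 hQ hKQ hchief hc hcard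
  set Z := omega p Q hc
  haveI : Z.Normal := omega_normal Q hc
  have hZQ : Z ≤ Q := fun x hx => hx.1
  by_cases hZK : ¬ Z ≤ K
  · obtain ⟨h1, -, -⟩ := descend Q K Z hZQ hKQ hchief hZK
    rw [← h1]
    exact le_trans (Nat.le_of_dvd Nat.card_pos (relIndex_dvd_card _ _)) hcard
  push Not at hZK
  -- pass to the quotient by `Z`
  have hZne : Nat.card Z ≠ 1 := by
    intro h
    obtain ⟨x, hx⟩ := SetLike.exists_of_lt hKQ
    obtain ⟨k, hk⟩ := IsPGroup.iff_card.mp hQ
    have hk0 : k ≠ 0 := by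
      rintro rfl
      rw [pow_zero, card_eq_one] at hk
      exact hx.2 (by
        have hx1 := hx.1
        rw [hk, mem_bot] at hx1
        exact hx1 ▸ one_mem K)
    obtain ⟨z, hz⟩ := exists_prime_orderOf_dvd_card' (G := Q) p (hk ▸ dvd_pow_self p hk0)
    have hz' : (z : X) ∈ Z := ⟨z.2, by rw [← Subgroup.coe_pow, ← hz, pow_orderOf_eq_one]; rfl⟩
    rw [card_eq_one] at h
    rw [h, mem_bot, OneMemClass.coe_eq_one] at hz'
    rw [hz', orderOf_one] at hz
    exact hp.out.one_lt.ne hz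
  let f := QuotientGroup.mk' Z
  have hf : Function.Surjective f := QuotientGroup.mk'_surjective Z
  haveI : (Q.map f).Normal := Subgroup.Normal.map inferInstance f hf
  haveI : (K.map f).Normal := Subgroup.Normal.map inferInstance f hf
  have hker : f.ker = Z := QuotientGroup.ker_mk' Z
  have hcomapQ : (Q.map f).comap f = Q := by rw [comap_map_eq, hker, sup_eq_left]; exact hZQ
  have hcomapK : (K.map f).comap f = K := by rw [comap_map_eq, hker, sup_eq_left]; exact hZK
  have hlt : Nat.card (X ⧸ Z) < n := by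
    rw [← hn, card_eq_card_quotient_mul_card_subgroup Z]
    have h2 : 1 < Nat.card Z := lt_of_le_of_ne Nat.card_pos (Ne.symm hZne)
    exact lt_mul_of_one_lt_right Nat.card_pos h2
  have hsq : ∀ x ∈ Q, f x ^ p = 1 → x ^ p ∈ Z := fun x _ h => by
    rwa [← map_pow, ← MonoidHom.mem_ker, hker] at h
  have hc' : ∀ x ∈ Q.map f, x ^ p = 1 → ∀ y ∈ Q.map f, Commute x y := by
    rintro _ ⟨x, hx, rfl⟩ hxp _ ⟨y, hy, rfl⟩
    have h1 := hsq x hx hxp
    have h2 := commutator_pow_eq_one hp2 hQ (fun a ha b => Subtype.ext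
      (hc a a.2 (by simpa using congrArg Subtype.val ha) b b.2).eq) ⟨x, hx⟩ ⟨y, hy⟩
      (Subtype.ext (by simpa using h1.2))
    have h3 : ⁅y, x⁆ ∈ Z := ⟨by
      rw [commutatorElement_def]
      exact mul_mem (mul_mem (mul_mem hy hx) (inv_mem hy)) (inv_mem hx),
      by simpa [commutatorElement_def] using congrArg Subtype.val h2⟩
    rw [← hker, MonoidHom.mem_ker, map_commutatorElement, commutatorElement_eq_one_iff_commute] at h3
    exact h3.symm
  have hcard' : Nat.card (omega p (Q.map f) hc') ≤ p ^ 2 := by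
    -- the `p`-th power map embeds it into `Z`
    have hlift : ∀ u : omega p (Q.map f) hc', ∃ x : X, x ∈ Q ∧ f x = u := fun u => u.2.1
    choose lift hl1 hl2 using hlift
    refine le_trans (Nat.card_le_card_of_injective (β := Z) (fun u => ⟨lift u ^ p,
      hsq _ (hl1 u) (by rw [hl2]; exact u.2.2)⟩) fun u v huv => ?_) hcard
    have he : lift u ^ p = lift v ^ p := congrArg Subtype.val huv
    refine Subtype.ext ?_
    rw [← hl2 u, ← hl2 v, ← mul_inv_eq_one, ← map_inv, ← map_mul, ← MonoidHom.mem_ker, hker]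
    refine ⟨mul_mem (hl1 u) (inv_mem (hl1 v)), ?_⟩
    set a := lift u
    set b := (lift v)⁻¹
    have ha : a ^ p ∈ Z := hsq _ (hl1 u) (by rw [hl2]; exact u.2.2)
    have hb : b ∈ Q := inv_mem (hl1 v)
    have hz : ⁅b, a⁆ ∈ Z := by
      have h2 := commutator_pow_eq_one hp2 hQ (fun c hcp d => Subtype.ext
        (hc c c.2 (by simpa using congrArg Subtype.val hcp) d d.2).eq) ⟨a, hl1 u⟩ ⟨b, hb⟩
        (Subtype.ext (by simpa using ha.2))
      exact ⟨by
        rw [commutatorElement_def]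
        exact mul_mem (mul_mem (mul_mem hb (hl1 u)) (inv_mem hb)) (inv_mem (hl1 u)),
        by simpa [commutatorElement_def] using congrArg Subtype.val h2⟩
    obtain ⟨-, h3⟩ := OddLocal.mul_pow_of_central_commutator (hc _ hz.1 hz.2 a (hl1 u))
      (hc _ hz.1 hz.2 b hb) (show b * a = ⁅b, a⁆ * a * b by simp [commutatorElement_def, mul_assoc]) p
    obtain ⟨k, hk⟩ : p ∣ p.choose 2 := Nat.Prime.dvd_choose_self hp.out two_ne_zero
      (lt_of_le_of_ne hp.out.two_le (Ne.symm hp2))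
    rw [h3, hk, pow_mul, hz.2, one_pow, mul_one, inv_pow, ← he, mul_inv_cancel]
  have key := ih _ hlt (X ⧸ Z) (Q.map f) (K.map f) rfl hp2 (hQ.map f)
    (lt_of_le_of_ne (map_mono hKQ.le) fun h => hKQ.ne (by rw [← hcomapK, h, hcomapQ]))
    (fun L hL h1 h2 => by
      rcases hchief (L.comap f) (hL.comap f) (hcomapK ▸ comap_mono h1) (hcomapQ ▸ comap_mono h2) with h | h
      · exact Or.inl (by rw [← map_comap_eq_self_of_surjective hf L, h])
      · exact Or.inr (by rw [← map_comap_eq_self_of_surjective hf L, h]))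
    hc' hcard'
  rw [← relIndex_comap, hcomapK] at key
  exact key

/-- In a group of odd `p`-rank at most two, chief factors inside normal `p`-subgroups have order at most `p ^ 2`. -/
theorem chief_le {X : Type*} [Group X] [Finite X] (hp2 : p ≠ 2) (Q K : Subgroup X) [Q.Normal] [K.Normal]
    (hQ : IsPGroup p Q) (hKQ : K < Q)
    (hchief : ∀ L : Subgroup X, L.Normal → K ≤ L → L ≤ Q → L = K ∨ L = Q)
    (hr : Cfsg.PRankLE p 2 X) : K.relIndex Q ≤ p ^ 2 := by
  let Z : Subgroup X :=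
    { carrier := {x | x ∈ Q ∧ x ^ p = 1 ∧ ∀ y ∈ Q, Commute x y}
      one_mem' := ⟨one_mem Q, one_pow p, fun y _ => Commute.one_left y⟩
      mul_mem' := fun {a b} ha hb => ⟨mul_mem ha.1 hb.1,
        by rw [(ha.2.2 b hb.1).mul_pow, ha.2.1, hb.2.1, one_mul],
        fun y hy => (ha.2.2 y hy).mul_left (hb.2.2 y hy)⟩
      inv_mem' := fun {a} ha => ⟨inv_mem ha.1, by rw [inv_pow, ha.2.1, inv_one],
        fun y hy => (ha.2.2 y hy).inv_left⟩ }
  have hZp : IsPGroup p Z := hQ.to_le fun x hx => hx.1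
  -- an element of order `p` centralising an abelian subgroup of order `p ^ 2` lies in it
  have hmem : ∀ (A : Subgroup X), (∀ a ∈ A, a ^ p = 1) → (∀ a ∈ A, ∀ b ∈ A, Commute a b) → p ^ 2 ≤ Nat.card A →
      ∀ x : X, x ^ p = 1 → (∀ a ∈ A, Commute x a) → x ∈ A := by
    intro A hA1 hA2 hA3 x hx hxA
    let B : Subgroup X := closure ((A : Set X) ∪ {x})
    have hpair : ∀ a ∈ (A : Set X) ∪ {x}, ∀ b ∈ (A : Set X) ∪ {x}, a * b = b * a := by
      rintro a (ha | rfl) b (hb | rfl)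
      · exact hA2 a ha b hb
      · exact (hxA a ha).symm.eq
      · exact (hxA b hb).eq
      · rfl
    have hBc : IsMulCommutative B := Subgroup.isMulCommutative_closure hpair
    have hBp : ∀ b ∈ B, b ^ p = 1 := by
      intro b hb
      induction hb using closure_induction with
      | mem y hy =>
        rcases hy with hy | rfl
        · exact hA1 y hy
        · exact hx
      | one => exact one_pow p
      | mul u v hu hv h1 h2 =>
        have : Commute u v := congrArg Subtype.val (hBc.is_comm.comm ⟨u, hu⟩ ⟨v, hv⟩)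
        rw [this.mul_pow, h1, h2, one_mul]
      | inv u _ h => rw [inv_pow, h, inv_one]
    have hAB : A ≤ B := fun a ha => subset_closure (Or.inl ha)
    have heq : A = B := eq_of_le_of_card_ge hAB ((hr B hBc hBp).trans hA3)
    rw [heq]
    exact subset_closure (Or.inr rfl)
  by_cases hA : p ^ 2 ≤ Nat.card Z
  · have hc : ∀ x ∈ Q, x ^ p = 1 → ∀ y ∈ Q, Commute x y := fun x hx hxp =>
      (hmem Z (fun a ha => ha.2.1) (fun a ha b hb => ha.2.2 b hb.1) hA x hxp
        fun a ha => (ha.2.2 x hx).symm).2.2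
    refine chief_le_of_central _ X Q K rfl hp2 hQ hKQ hchief hc ?_
    have heq : omega p Q hc = Z := le_antisymm (fun x hx => ⟨hx.1, hx.2, hc x hx.1 hx.2⟩) fun x hx => ⟨hx.1, hx.2.1⟩
    rw [heq]
    exact hr Z ⟨⟨fun a b => Subtype.ext (a.2.2.2 b b.2.1).eq⟩⟩ fun a ha => ha.2.1
  push Not at hA
  by_cases hcyc : IsCyclic Q
  · haveI := hcyc
    letI : CommGroup Q := IsCyclic.commGroup
    have hc : ∀ x ∈ Q, x ^ p = 1 → ∀ y ∈ Q, Commute x y := fun x hx _ y hy =>
      congrArg Subtype.val (mul_comm (⟨x, hx⟩ : Q) ⟨y, hy⟩)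
    refine chief_le_of_central _ X Q K rfl hp2 hQ hKQ hchief hc ?_
    exact hr _ ⟨⟨fun a b => Subtype.ext (hc a a.2.1 a.2.2 b b.2.1).eq⟩⟩ fun a ha => ha.2
  obtain ⟨E, -, hEn, hE, hEcard⟩ := Lib.Thompson.exists_elemAbelian_normal hp2 hQ ⊤
    (fun h => hcyc (isCyclic_of_surjective Subgroup.topEquiv Subgroup.topEquiv.surjective))
  haveI := hEn
  let E' : Subgroup X := E.map Q.subtype
  have hE'card : Nat.card E' = p ^ 2 := by rw [card_map_of_injective Q.subtype_injective, hEcard]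
  have hE'1 : ∀ a ∈ E', a ^ p = 1 := by
    rintro _ ⟨a, ha, rfl⟩
    rw [← map_pow, hE.2 a ha, map_one]
  have hE'2 : ∀ a ∈ E', ∀ b ∈ E', Commute a b := by
    rintro _ ⟨a, ha, rfl⟩ _ ⟨b, hb, rfl⟩
    exact congrArg Q.subtype (congrArg Subtype.val (hE.1.is_comm.comm (⟨a, ha⟩ : E) ⟨b, hb⟩))
  -- `Z` has order `p`, lies in `E` and contains `[E, Q]`
  have hEne : E ≠ ⊥ := by
    intro h
    rw [h, card_bot] at hEcard
    have := Nat.one_lt_pow two_ne_zero hp.out.one_lt
    omega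
  obtain ⟨z, hzE, hz1, hzc⟩ := Uniq.exists_central_mem hQ E hEne
  have hzZ : (z : X) ∈ Z := ⟨z.2, hE'1 _ ⟨z, hzE, rfl⟩,
    fun y hy => (congrArg Subtype.val (mem_center_iff.mp hzc ⟨y, hy⟩)).symm⟩
  have hZgen : Z = zpowers (z : X) := by
    symm
    refine eq_of_le_of_card_ge (zpowers_le.mpr hzZ) ?_
    rw [Nat.card_zpowers]
    obtain ⟨k, hk⟩ := IsPGroup.iff_card.mp hZp
    have hk2 : k < 2 := (Nat.pow_lt_pow_iff_right hp.out.one_lt).mp (hk ▸ hA)
    have hz' : orderOf (z : X) = p := orderOf_eq_prime hzZ.2.1 fun h => hz1 (Subtype.ext h)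
    rw [hz', hk]
    exact le_trans (Nat.pow_le_pow_right hp.out.pos (show k ≤ 1 by omega)) (pow_one p).le
  have hzord : orderOf (z : X) = p := orderOf_eq_prime hzZ.2.1 fun h => hz1 (Subtype.ext h)
  have hZE : Z ≤ E' := hZgen ▸ zpowers_le.mpr ⟨z, hzE, rfl⟩
  have hZcard : Nat.card Z = p := by rw [hZgen, Nat.card_zpowers, hzord]
  have hEQ : ∀ e ∈ E', ∀ y ∈ Q, ⁅e, y⁆ ∈ Z := by
    rintro _ ⟨e, he, rfl⟩ y hy
    haveI : Group.IsNilpotent Q := hQ.isNilpotent
    set L := ⁅E, (⊤ : Subgroup Q)⁆ with hL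
    have hLE : L ≤ E := commutator_le_left E ⊤
    have hLne : L ≠ E := fun h => hEne (Transfer.eq_bot_of_le_commutator_top h.ge)
    have hmemL : ⁅e, (⟨y, hy⟩ : Q)⁆ ∈ L := commutator_mem_commutator he (mem_top _)
    have hval : ((⁅e, (⟨y, hy⟩ : Q)⁆ : Q) : X) = ⁅Q.subtype e, y⁆ := by simp [commutatorElement_def]
    by_cases hL0 : L = ⊥
    · rw [hL0, mem_bot] at hmemL
      rw [← hval, hmemL]
      exact one_mem Z
    · haveI : L.Normal := inferInstance
      obtain ⟨w, hwL, hw1, hwc⟩ := Uniq.exists_central_mem hQ L hL0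
      have hwZ : (w : X) ∈ Z := ⟨w.2, hE'1 _ ⟨w, hLE hwL, rfl⟩,
        fun u hu => (congrArg Subtype.val (mem_center_iff.mp hwc ⟨u, hu⟩)).symm⟩
      have hlt : Nat.card L < Nat.card E :=
        lt_of_le_of_ne (card_le_of_le hLE) fun h => hLne (eq_of_le_of_card_ge hLE h.ge)
      obtain ⟨k, hk⟩ := IsPGroup.iff_card.mp (hQ.to_subgroup L)
      rw [hk, hEcard] at hlt
      have hk2 := (Nat.pow_lt_pow_iff_right hp.out.one_lt).mp hlt
      have hLgen : L = zpowers w := by
        symm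
        refine eq_of_le_of_card_ge (zpowers_le.mpr hwL) ?_
        rw [Nat.card_zpowers, hk, orderOf_eq_prime (hE.2 w (hLE hwL)) hw1]
        exact le_trans (Nat.pow_le_pow_right hp.out.pos (show k ≤ 1 by omega)) (pow_one p).le
      rw [hLgen] at hmemL
      obtain ⟨i, hi⟩ := mem_zpowers_iff.mp hmemL
      rw [← hval, ← hi, SubgroupClass.coe_zpow]
      exact zpow_mem hwZ i
  -- the elements of order `p` in the second centre
  let W : Subgroup X :=
    { carrier := {x | x ∈ Q ∧ x ^ p = 1 ∧ ∀ y ∈ Q, ⁅x, y⁆ ∈ Z}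
      one_mem' := ⟨one_mem Q, one_pow p, fun y _ => by rw [commutatorElement_one_left]; exact one_mem Z⟩
      mul_mem' := fun {a b} ha hb => by
        refine ⟨mul_mem ha.1 hb.1, ?_, fun y hy => ?_⟩
        · have hz := ha.2.2 b hb.1
          obtain ⟨-, h3⟩ := OddLocal.mul_pow_of_central_commutator ((inv_mem hz).2.2 a ha.1)
            ((inv_mem hz).2.2 b hb.1) (show b * a = ⁅a, b⁆⁻¹ * a * b by simp [commutatorElement_def, mul_assoc]) p
          obtain ⟨k, hk⟩ : p ∣ p.choose 2 := Nat.Prime.dvd_choose_self hp.out two_ne_zero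
            (lt_of_le_of_ne hp.out.two_le (Ne.symm hp2))
          rw [h3, ha.2.1, hb.2.1, hk, pow_mul, (inv_mem hz).2.1, one_pow, one_mul, one_mul]
        · have h1 : ⁅a * b, y⁆ = a * ⁅b, y⁆ * a⁻¹ * ⁅a, y⁆ := by simp [commutatorElement_def, mul_assoc]
          rw [h1, ← ((hb.2.2 y hy).2.2 a ha.1).eq, mul_inv_cancel_right]
          exact mul_mem (hb.2.2 y hy) (ha.2.2 y hy)
      inv_mem' := fun {a} ha => by
        refine ⟨inv_mem ha.1, by rw [inv_pow, ha.2.1, inv_one], fun y hy => ?_⟩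
        have h1 : ⁅a⁻¹, y⁆ = a⁻¹ * ⁅a, y⁆⁻¹ * a := by simp [commutatorElement_def, mul_assoc]
        rw [h1, ← ((inv_mem (ha.2.2 y hy)).2.2 a⁻¹ (inv_mem ha.1)).eq, inv_mul_cancel_right]
        exact inv_mem (ha.2.2 y hy) }
  have hEW : E' ≤ W := fun e he => ⟨map_subtype_le E he, hE'1 e he, hEQ e he⟩
  have hconj : ∀ (g : X), ∀ x ∈ Z, g * x * g⁻¹ ∈ Z := fun g x hx =>
    ⟨Subgroup.Normal.conj_mem inferInstance x hx.1 g, by rw [conj_pow, hx.2.1, mul_one, mul_inv_cancel],
      fun y hy => by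
        have := (hx.2.2 (g⁻¹ * y * g) (by simpa using Subgroup.Normal.conj_mem inferInstance y hy g⁻¹)).map
          (MulAut.conj g).toMonoidHom
        simpa [mul_assoc] using this⟩
  haveI : W.Normal := ⟨fun w hw g => ⟨Subgroup.Normal.conj_mem inferInstance w hw.1 g,
    by rw [conj_pow, hw.2.1, mul_one, mul_inv_cancel], fun y hy => by
      have h1 := hconj g _ (hw.2.2 (g⁻¹ * y * g) (by simpa using Subgroup.Normal.conj_mem inferInstance y hy g⁻¹))
      have h2 : ⁅g * w * g⁻¹, y⁆ = g * ⁅w, g⁻¹ * y * g⁆ * g⁻¹ := by simp [commutatorElement_def, mul_assoc]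
      rw [h2]; exact h1⟩⟩
  obtain ⟨e0, he0, he0Z⟩ : ∃ e ∈ E', e ∉ Z := by
    by_contra h
    push Not at h
    have := card_le_of_le (show E' ≤ Z from h)
    rw [hE'card] at this
    omega
  have hEgen : ∀ x : X, (∀ a ∈ Z, Commute x a) → Commute x e0 → ∀ a ∈ E', Commute x a := by
    intro x h1 h2 a ha
    have hgen : closure ((Z : Set X) ∪ {e0}) = E' := by
      refine eq_of_le_of_card_ge ((closure_le _).mpr (Set.union_subset hZE (Set.singleton_subset_iff.mpr he0))) ?_
      rw [hE'card]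
      have hlt : Nat.card Z < Nat.card (closure ((Z : Set X) ∪ {e0})) := by
        have hle : Z ≤ closure ((Z : Set X) ∪ {e0}) := fun y hy => subset_closure (Or.inl hy)
        refine lt_of_le_of_ne (card_le_of_le hle) fun h => he0Z ?_
        rw [eq_of_le_of_card_ge hle h.ge]
        exact subset_closure (Or.inr rfl)
      obtain ⟨k, hk⟩ := IsPGroup.iff_card.mp (hQ.to_le
        ((closure_le _).mpr (Set.union_subset (fun y hy => (hy : y ∈ Z).1)
          (Set.singleton_subset_iff.mpr (map_subtype_le E he0)))))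
      rw [hk, hZcard] at hlt
      rw [hk]
      exact Nat.pow_le_pow_right hp.out.pos ((Nat.pow_lt_pow_iff_right hp.out.one_lt).mp
        ((pow_one p).le.trans_lt hlt))
    rw [← hgen] at ha
    have : closure ((Z : Set X) ∪ {e0}) ≤ centralizer ({x} : Set X) := by
      rw [closure_le]
      rintro y (hy | rfl) <;> rw [SetLike.mem_coe, mem_centralizer_singleton_iff]
      · exact (h1 y hy).symm.eq
      · exact h2.symm.eq
    exact ((mem_centralizer_singleton_iff.mp (this ha)) : a * x = x * a).symm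
  have hZcom : ∀ x ∈ Q, ∀ a ∈ Z, Commute x a := fun x hx a ha => (ha.2.2 x hx).symm
  -- `W` has order at most `p ^ 3`
  have hWE : ∀ x ∈ W, Commute x e0 → x ∈ E' := fun x hx h =>
    hmem E' hE'1 hE'2 hE'card.ge x hx.2.1 (hEgen x (hZcom x hx.1) h)
  have he0W : e0 ∈ W := hEW he0
  obtain ⟨w0, hw0, hWgen⟩ : ∃ w0 ∈ W, ∀ g : X, (∀ a ∈ E', Commute g a) → Commute g w0 →
      ∀ x ∈ W, Commute g x := by
    by_cases hW : W ≤ E'
    · exact ⟨e0, he0W, fun g h1 _ x hx => h1 x (hW hx)⟩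
    obtain ⟨w0, hw0, hw0E⟩ := SetLike.not_le_iff_exists.mp hW
    refine ⟨w0, hw0, fun g h1 h2 x hx => ?_⟩
    have hle : closure ((E' : Set X) ∪ {w0}) ≤ W :=
      (closure_le _).mpr (Set.union_subset hEW (Set.singleton_subset_iff.mpr hw0))
    have hgen : closure ((E' : Set X) ∪ {w0}) = W := by
      refine eq_of_le_of_card_ge hle ?_
      have h3 : Nat.card W ≤ p * Nat.card E' := by
        rw [← card_mul_index (E'.subgroupOf W), Nat.card_congr (subgroupOfEquivOfLe hEW).toEquiv, mul_comm]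
        refine Nat.mul_le_mul_right _ ?_
        rw [index, ← hZcard]
        refine Nat.card_le_card_of_injective (β := Z)
          (fun q => ⟨⁅(q.out : X), e0⁆, q.out.2.2.2 e0 (map_subtype_le E he0)⟩) fun q r hqr => ?_
        have h4 : (q.out : X) * e0 * (q.out : X)⁻¹ * e0⁻¹ = (r.out : X) * e0 * (r.out : X)⁻¹ * e0⁻¹ :=
          congrArg Subtype.val hqr
        have h5 : Commute ((q.out⁻¹ * r.out : W) : X) e0 := by
          have h6 := mul_right_cancel h4
          rw [Subgroup.coe_mul, Subgroup.coe_inv, Commute, SemiconjBy, mul_assoc, inv_mul_eq_iff_eq_mul,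
            ← mul_assoc, ← mul_assoc, ← mul_inv_eq_iff_eq_mul]
          exact h6.symm
        rw [← QuotientGroup.out_eq' q, ← QuotientGroup.out_eq' r, QuotientGroup.eq, mem_subgroupOf]
        exact hWE _ (q.out⁻¹ * r.out).2 h5
      have hlt : Nat.card E' < Nat.card (closure ((E' : Set X) ∪ {w0})) := by
        have hle' : E' ≤ closure ((E' : Set X) ∪ {w0}) := fun y hy => subset_closure (Or.inl hy)
        refine lt_of_le_of_ne (card_le_of_le hle') fun h => hw0E ?_
        rw [eq_of_le_of_card_ge hle' h.ge]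
        exact subset_closure (Or.inr rfl)
      obtain ⟨k, hk⟩ := IsPGroup.iff_card.mp (hQ.to_le (hle.trans fun y hy => hy.1))
      rw [hE'card] at h3 hlt
      rw [hk] at hlt ⊢
      refine h3.trans ?_
      rw [← pow_succ']
      exact Nat.pow_le_pow_right hp.out.pos ((Nat.pow_lt_pow_iff_right hp.out.one_lt).mp hlt)
    have : W ≤ centralizer ({g} : Set X) := by
      rw [← hgen, closure_le]
      rintro y (hy | rfl) <;> rw [SetLike.mem_coe, mem_centralizer_singleton_iff]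
      · exact (h1 y hy).symm.eq
      · exact h2.symm.eq
    exact ((mem_centralizer_singleton_iff.mp (this hx)) : x * g = g * x).symm
  set R := Q ⊓ centralizer (W : Set X) with hR
  haveI : R.Normal := inferInstance
  have hRc : ∀ x ∈ R, x ^ p = 1 → x ∈ E' := fun x hx hxp =>
    hmem E' hE'1 hE'2 hE'card.ge x hxp fun a ha => (mem_centralizer_iff.mp hx.2 a (hEW ha)).symm
  by_cases hRK : R ≤ K
  · refine le_trans (Nat.le_of_dvd (Nat.pos_of_ne_zero index_ne_zero_of_finite)
      (relIndex_dvd_of_le_left Q hRK)) ?_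
    have h2 : p ^ 2 = Nat.card (Z × Z) := by rw [Nat.card_prod, hZcard, sq]
    show Nat.card (Q ⧸ R.subgroupOf Q) ≤ _
    rw [h2]
    refine Nat.card_le_card_of_injective (β := Z × Z) (fun q =>
      (⟨⁅e0, (q.out : X)⁆, he0W.2.2 _ q.out.2⟩, ⟨⁅w0, (q.out : X)⁆, hw0.2.2 _ q.out.2⟩)) fun q r hqr => ?_
    have hcm : ∀ w : X, ⁅w, (q.out : X)⁆ = ⁅w, (r.out : X)⁆ → Commute ((q.out⁻¹ * r.out : Q) : X) w := by
      intro w h
      have h' := congrArg (fun t => w⁻¹ * t) h
      simp only [commutatorElement_def, ← mul_assoc, inv_mul_cancel, one_mul] at h'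
      rw [Subgroup.coe_mul, Subgroup.coe_inv]
      have h2 : Commute ((q.out : X)⁻¹ * (r.out : X)) w⁻¹ := by
        show (q.out : X)⁻¹ * (r.out : X) * w⁻¹ = w⁻¹ * ((q.out : X)⁻¹ * (r.out : X))
        calc (q.out : X)⁻¹ * (r.out : X) * w⁻¹
            = (q.out : X)⁻¹ * ((r.out : X) * w⁻¹ * (r.out : X)⁻¹) * (r.out : X) := by group
          _ = (q.out : X)⁻¹ * ((q.out : X) * w⁻¹ * (q.out : X)⁻¹) * (r.out : X) := by rw [h']
          _ = w⁻¹ * ((q.out : X)⁻¹ * (r.out : X)) := by group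
      simpa using h2.inv_right
    rw [← QuotientGroup.out_eq' q, ← QuotientGroup.out_eq' r, QuotientGroup.eq, mem_subgroupOf]
    refine ⟨(q.out⁻¹ * r.out).2, mem_centralizer_iff.mpr fun x hx => ?_⟩
    exact (hWgen _ (hEgen _ (hZcom _ (q.out⁻¹ * r.out).2) (hcm e0 (congrArg (fun t => ((t.1 : Z) : X)) hqr)))
      (hcm w0 (congrArg (fun t => ((t.2 : Z) : X)) hqr)) x hx).symm.eq
  · obtain ⟨h1, h2, h3⟩ := descend Q K R inf_le_left hKQ hchief hRK
    rw [← h1]
    have hc : ∀ x ∈ R, x ^ p = 1 → ∀ y ∈ R, Commute x y := fun x hx hxp y hy =>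
      mem_centralizer_iff.mp hy.2 x (hEW (hRc x hx hxp))
    haveI : (K ⊓ R).Normal := inferInstance
    refine chief_le_of_central _ X R (K ⊓ R) rfl hp2 (hQ.to_le inf_le_left) h2 h3 hc ?_
    rw [← hE'card]
    exact card_le_of_le fun x hx => hRc x hx.1 hx.2

end Cfsg.Agent.Lib.RankTwoSeries
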