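import Mathlib
import Cfsg.Prelude.Def_SporadicB

/-! Elementary facts about sets of 3-transpositions. -/

set_option autoImplicit false

namespace Cfsg.Agent.Lib.ThreeTrans

variable {G : Type*} [Group G] {E : Set G}

theorem mul_self_eq_one (hE : Cfsg.IsThreeTranspositionSet E) {a : G} (ha : a ∈ E) : a * a = 1 := by
  rw [← sq, ← hE.1 a ha, pow_orderOf_eq_one]

theorem inv_eq_self (hE : Cfsg.IsThreeTranspositionSet E) {a : G} (ha : a ∈ E) : a⁻¹ = a :=
  inv_eq_of_mul_eq_one_right (mul_self_eq_one hE ha)

theorem pow_three_of_not_commute (hE : Cfsg.IsThreeTranspositionSet E) {a b : G} (ha : a ∈ E)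
    (hb : b ∈ E) (h : ¬ Commute a b) : (a * b) ^ 3 = 1 := by
  rcases hE.2 a ha b hb with h2 | h3
  · exfalso
    apply h
    rw [sq] at h2
    have := eq_inv_of_mul_eq_one_left h2
    rw [mul_inv_rev, inv_eq_self hE ha, inv_eq_self hE hb] at this
    exact this
  · exact h3

theorem braid (hE : Cfsg.IsThreeTranspositionSet E) {a b : G} (ha : a ∈ E)
    (hb : b ∈ E) (h : ¬ Commute a b) : a * b * a = b * a * b := by
  have h3 := pow_three_of_not_commute hE ha hb h
  have h4 : (a * b * a) * (b * a * b) = 1 := by
    rw [← h3]; simp only [pow_succ, pow_zero, one_mul, mul_assoc]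
  have := eq_inv_of_mul_eq_one_left h4
  rw [this]
  simp [mul_assoc, inv_eq_self hE ha, inv_eq_self hE hb]

theorem centralize_product_two (hE : Cfsg.IsThreeTranspositionSet E) {a b e : G} (ha : a ∈ E)
    (hb : b ∈ E) (he : e ∈ E) (hab : a ≠ b) (h : Commute e (a * b)) :
    Commute e a ∧ Commute e b := by
  have bb := mul_self_eq_one hE hb
  have aa := mul_self_eq_one hE ha
  have ee := mul_self_eq_one hE he
  by_cases hea : Commute e a
  · refine ⟨hea, ?_⟩
    have : Commute e (a⁻¹ * (a * b)) := (hea.inv_right).mul_right h
    simpa using this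
  · by_cases heb : Commute e b
    · refine ⟨?_, heb⟩
      have : Commute e ((a * b) * b⁻¹) := h.mul_right heb.inv_right
      simpa using this
    · exfalso
      apply hab
      have h1 := braid hE he ha hea
      have h2 := braid hE he hb heb
      have h3 : e * (a * b) * e = a * b := by rw [h.eq, mul_assoc, ee, mul_one]
      have h4 : (e * a * e) * (e * b * e) = a * b := by
        calc (e * a * e) * (e * b * e) = e * a * (e * e) * b * e := by simp only [mul_assoc]
          _ = e * (a * b) * e := by rw [ee]; simp only [mul_assoc, one_mul]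
          _ = a * b := h3
      rw [h1, h2] at h4
      have h5 : a * b = 1 := by
        calc a * b = e * (a * b) * e := h3.symm
          _ = a * (a * e * a * (b * e * b)) * b := by
            simp only [mul_assoc, bb, mul_one]
            rw [← mul_assoc a a, aa, one_mul]
          _ = a * (a * b) * b := by rw [h4]
          _ = 1 := by rw [← mul_assoc, aa, one_mul, bb]
      exact eq_of_mul_eq_one h5 bb
where
  eq_of_mul_eq_one {a b : G} (h : a * b = 1) (bb : b * b = 1) : a = b := by
    rw [eq_inv_of_mul_eq_one_left h, inv_eq_of_mul_eq_one_right bb]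

end Cfsg.Agent.Lib.ThreeTrans
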