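import Cfsg.Agent.Lib.CharKernel
import Cfsg.Agent.Lib.Char.Integral
import Cfsg.Agent.Lib.Char.Induced
import Cfsg.Prelude.Def_Transfer
import Mathlib.GroupTheory.PGroup
import Mathlib.GroupTheory.Sylow

/-!
# Irreducible characters that are nonzero on exactly two classes
-/

set_option autoImplicit false

open scoped ComplexConjugate

namespace Cfsg.Agent.Lib.TwoClass

open Cfsg.Agent.Lib.Char Cfsg.Agent.Lib.CharAux Cfsg.Agent.Lib.CharKernel

universe u

variable {G : Type u} [Group G]

/-- `χ` is nonzero exactly at the identity and on the class of `c`. -/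
structure Data (χ : IrrCharacter G) (c : G) : Prop where
  two_lt : 2 < Nat.card G
  ne_one : c ≠ 1
  nz : ∀ g : G, (χ : G → ℂ) g ≠ 0 ↔ g = 1 ∨ IsConj g c

variable [Finite G]

theorem exists_data (χ : IrrCharacter G) (hG : 2 < Nat.card G)
    (hχ : Nat.card {C : ConjClasses G // ∃ g ∈ C.carrier, (χ : G → ℂ) g ≠ 0} = 2) :
    ∃ c, Data χ c := by
  classical
  have := Fintype.ofFinite G
  have hclass : ∀ g h : G, ConjClasses.mk g = ConjClasses.mk h → (χ : G → ℂ) g = (χ : G → ℂ) h := by
    intro g h hgh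
    exact (isConj_iff_forall_irr g h).1 (ConjClasses.mk_eq_mk_iff_isConj.1 hgh) χ
  have h1 : (χ : G → ℂ) 1 ≠ 0 := irr_degree_ne_zero χ.2
  let C1 : {C : ConjClasses G // ∃ g ∈ C.carrier, (χ : G → ℂ) g ≠ 0} :=
    ⟨ConjClasses.mk 1, 1, ConjClasses.mem_carrier_mk, h1⟩
  obtain ⟨C2, hne, huniq⟩ := (Nat.card_eq_two_iff' C1).1 hχ
  obtain ⟨c, hc, hcnz⟩ := C2.2
  have hcC : ConjClasses.mk c = C2.1 := ConjClasses.mem_carrier_iff_mk_eq.1 hc
  refine ⟨c, hG, ?_, fun g => ⟨fun hg => ?_, ?_⟩⟩
  · rintro rfl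
    exact hne (Subtype.ext (by rw [← hcC]))
  · by_cases h : ConjClasses.mk g = ConjClasses.mk 1
    · exact Or.inl (isConj_one_left.1 (ConjClasses.mk_eq_mk_iff_isConj.1 h))
    · refine Or.inr (ConjClasses.mk_eq_mk_iff_isConj.1 ?_)
      have := huniq ⟨ConjClasses.mk g, g, ConjClasses.mem_carrier_mk, hg⟩
        (fun e => h (congrArg Subtype.val e))
      rw [hcC, ← this]
  · rintro (rfl | hg)
    · exact h1
    · rw [hclass g c (ConjClasses.mk_eq_mk_iff_isConj.2 hg)]
      exact hcnz

variable {χ : IrrCharacter G} {c : G}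

theorem Data.apply_conj (h : Data χ c) {g : G} (hg : IsConj g c) :
    (χ : G → ℂ) g = (χ : G → ℂ) c :=
  (isConj_iff_forall_irr g c).1 hg χ

theorem Data.of_conj (h : Data χ c) {x : G} (hx : IsConj x c) : Data χ x where
  two_lt := h.two_lt
  ne_one := by
    rintro rfl
    exact h.ne_one (isConj_one_right.1 hx)
  nz g := by
    rw [h.nz]
    exact or_congr Iff.rfl ⟨fun hg => hg.trans hx.symm, fun hg => hg.trans hx⟩

/-- The size of the class of `c`. -/
noncomputable def classSize (c : G) : ℕ := (Subgroup.centralizer ({c} : Set G)).index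

theorem classSize_pos : 0 < classSize c := Nat.pos_of_ne_zero Subgroup.index_ne_zero_of_finite

open scoped Classical in
/-- Sums over the group only see the two classes. -/
theorem Data.sum_eq [Fintype G] (h : Data χ c) (f : G → ℂ) (hf : IsClassFunction G f) :
    ∑ g : G, (χ : G → ℂ) g * f g =
      (χ : G → ℂ) 1 * f 1 + (classSize c : ℂ) * ((χ : G → ℂ) c * f c) := by
  have hχ := isClassFunction_of_isIrr χ.2
  rw [← Finset.add_sum_erase _ _ (Finset.mem_univ (1 : G))]
  congr 1
  rw [← Finset.sum_filter_of_ne (p := fun g => IsConj g c) fun g hg hne => ?_]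
  · rw [Finset.sum_congr rfl (g := fun _ => (χ : G → ℂ) c * f c) fun g hg => ?_]
    · rw [Finset.sum_const, nsmul_eq_mul, classSize, ← card_conjClass_eq_index]
      congr 3
      ext g
      simp only [Finset.mem_filter, Finset.mem_erase, Finset.mem_univ, and_true, true_and,
        and_iff_right_iff_imp]
      rintro hg rfl
      exact h.ne_one (isConj_one_right.1 hg)
    · obtain ⟨k, hk⟩ := isConj_iff.1 (Finset.mem_filter.1 hg).2
      rw [← hk, hχ g k, hf g k]
  · exact ((h.nz g).1 (left_ne_zero_of_mul hne)).resolve_left (Finset.ne_of_mem_erase hg)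

theorem Data.ne_trivial (h : Data χ c) : (χ : G → ℂ) ≠ fun _ => 1 := by
  classical
  intro h1
  have := Fintype.ofFinite G
  have hall : ∀ g : G, g = 1 ∨ IsConj g c := fun g => (h.nz g).1 (by simp [h1])
  have hm : classSize c + 1 = Nat.card G := by
    rw [classSize, ← card_conjClass_eq_index, Nat.card_eq_fintype_card, ← Finset.card_univ,
      ← Finset.card_erase_add_one (Finset.mem_univ (1 : G))]
    congr 2
    ext g
    simp only [Finset.mem_filter, Finset.mem_univ, true_and, Finset.mem_erase, ne_eq, and_true]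
    exact ⟨fun hg hg1 => h.ne_one (isConj_one_right.1 (hg1 ▸ hg)), fun hg => (hall g).resolve_left hg⟩
  have hd : classSize c ∣ Nat.card G := Subgroup.index_dvd_card _
  rw [← hm, Nat.dvd_add_self_left, Nat.dvd_one] at hd
  have := h.two_lt
  omega

theorem Data.degree_eq (h : Data χ c) :
    ∃ e : ℕ, 0 < e ∧ (χ : G → ℂ) c = -(e : ℂ) ∧ (χ : G → ℂ) 1 = (e : ℂ) * (classSize c : ℂ) ∧
      e ^ 2 * (classSize c * (classSize c + 1)) = Nat.card G := by
  classical
  have := Fintype.ofFinite G
  have hc := isCharacter_of_isIrr χ.2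
  have h0 : ∑ g : G, (χ : G → ℂ) g * 1 = 0 := by
    have := classInner_irr_ne χ.2 (isIrrCharacter_one (G := G)) h.ne_trivial
    simpa [classInner, card_ne_zero_complex] using this
  rw [h.sum_eq _ (fun _ _ => rfl)] at h0
  have hm : (classSize c : ℂ) ≠ 0 := Nat.cast_ne_zero.2 classSize_pos.ne'
  have hd := charDegree_eq hc
  have hcv : (χ : G → ℂ) c = -((charDegree (χ : G → ℂ) : ℂ) / (classSize c : ℂ)) := by
    rw [hd, mul_one, mul_one] at h0
    field_simp
    linear_combination h0
  have hint : IsIntegral ℤ ((charDegree (χ : G → ℂ) : ℂ) / (classSize c : ℂ)) := by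
    have := (char_isIntegral hc c).neg
    rwa [hcv, neg_neg] at this
  obtain ⟨e, he⟩ := dvd_of_isIntegral_div classSize_pos.ne' hint
  have hcv' : (χ : G → ℂ) c = -(e : ℂ) := by
    rw [hcv, he, Nat.cast_mul, mul_div_cancel_left₀ _ hm]
  have h1 : (χ : G → ℂ) 1 = (e : ℂ) * (classSize c : ℂ) := by rw [hd, he]; push_cast; ring
  refine ⟨e, Nat.pos_of_ne_zero fun h0' => ?_, hcv', h1, ?_⟩
  · have := charDegree_pos χ.2
    rw [he, h0', mul_zero] at this
    exact lt_irrefl _ this
  · have h2 : ∑ g : G, (χ : G → ℂ) g * conj ((χ : G → ℂ) g) = (Nat.card G : ℂ) := by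
      have := classInner_irr_self χ.2
      rw [classInner, inv_mul_eq_one₀ (card_ne_zero_complex G)] at this
      exact this.symm
    rw [h.sum_eq (fun g => conj ((χ : G → ℂ) g)) fun a b => by
      simp [isClassFunction_of_isIrr χ.2 a b], h1, hcv'] at h2
    simp only [map_mul, map_neg, Complex.conj_natCast] at h2
    exact_mod_cast (by linear_combination h2 :
      ((e : ℂ) ^ 2 * ((classSize c : ℂ) * ((classSize c : ℂ) + 1))) = (Nat.card G : ℂ))

/-- Every other irreducible character has `c` in its kernel. -/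
theorem Data.apply_eq_one (h : Data χ c) {ψ : IrrCharacter G} (hψ : ψ ≠ χ) :
    (ψ : G → ℂ) c = (ψ : G → ℂ) 1 := by
  classical
  have := Fintype.ofFinite G
  obtain ⟨e, he, hc, h1, -⟩ := h.degree_eq
  have h0 : ∑ g : G, (χ : G → ℂ) g * conj ((ψ : G → ℂ) g) = 0 := by
    have := classInner_irr_ne χ.2 ψ.2 (fun e => hψ (Subtype.ext e.symm))
    simpa [classInner, card_ne_zero_complex] using this
  rw [h.sum_eq _ (fun a b => by simp [isClassFunction_of_isIrr ψ.2 a b]), h1, hc] at h0
  have hem : (e : ℂ) * (classSize c : ℂ) ≠ 0 :=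
    mul_ne_zero (Nat.cast_ne_zero.2 he.ne') (Nat.cast_ne_zero.2 classSize_pos.ne')
  have : conj ((ψ : G → ℂ) c) = conj ((ψ : G → ℂ) 1) := by
    apply mul_left_cancel₀ hem
    linear_combination -h0
  exact (starRingEnd ℂ).injective this

theorem Data.faithful (h : Data χ c) {g : G} (hg : (χ : G → ℂ) g = (χ : G → ℂ) 1) : g = 1 := by
  obtain ⟨e, he, hc, h1, -⟩ := h.degree_eq
  have hne : (χ : G → ℂ) g ≠ 0 := by
    have := Fintype.ofFinite G
    rw [hg]
    exact irr_degree_ne_zero χ.2
  refine ((h.nz g).1 hne).resolve_right fun hconj => ?_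
  rw [h.apply_conj hconj, hc, h1] at hg
  have hadd : (e : ℂ) * (classSize c : ℂ) + (e : ℂ) = 0 := by rw [← hg]; ring
  have : e * classSize c + e = 0 := by exact_mod_cast hadd
  omega

/-- An element in the kernel of every other irreducible character lies in the support. -/
theorem Data.nz_of_forall (h : Data χ c) {x : G}
    (hx : ∀ ψ : IrrCharacter G, ψ ≠ χ → (ψ : G → ℂ) x = (ψ : G → ℂ) 1) : (χ : G → ℂ) x ≠ 0 := by
  classical
  intro h0
  have := Fintype.ofFinite G
  have hx1 : x ≠ 1 := fun e => irr_degree_ne_zero χ.2 (e ▸ h0)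
  have hsum := sum_degree_mul (G := G) x
  rw [if_neg hx1, ← Finset.add_sum_erase _ _ (Finset.mem_univ χ), h0, mul_zero, zero_add] at hsum
  rw [Finset.sum_congr rfl (g := fun ψ : IrrCharacter G =>
      ((charDegree (ψ : G → ℂ) * charDegree (ψ : G → ℂ) : ℕ) : ℂ)) fun ψ hψ => by
    rw [hx ψ (Finset.ne_of_mem_erase hψ), charDegree_eq (isCharacter_of_isIrr ψ.2)]
    push_cast; ring] at hsum
  rw [← Nat.cast_sum, Nat.cast_eq_zero, Finset.sum_eq_zero_iff] at hsum
  have := hsum ⟨fun _ => 1, isIrrCharacter_one⟩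
    (Finset.mem_erase.2 ⟨fun e => h.ne_trivial (congrArg Subtype.val e).symm, Finset.mem_univ _⟩)
  simp [charDegree] at this

/-- The support of `χ`, as a normal subgroup. -/
def support (h : Data χ c) : Subgroup G where
  carrier := {g | (χ : G → ℂ) g ≠ 0}
  one_mem' := (h.nz 1).2 (Or.inl rfl)
  mul_mem' := by
    intro a b ha hb
    refine h.nz_of_forall fun ψ hψ => ?_
    have hψc := isCharacter_of_isIrr ψ.2
    have hmem : ∀ y, (χ : G → ℂ) y ≠ 0 → y ∈ kerChar hψc := by
      intro y hy
      rcases (h.nz y).1 hy with rfl | hy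
      · exact one_mem _
      · show (ψ : G → ℂ) y = _
        rw [(isConj_iff_forall_irr y c).1 hy ψ, h.apply_eq_one hψ]
    exact (kerChar hψc).mul_mem (hmem a ha) (hmem b hb)
  inv_mem' := by
    intro a ha
    show (χ : G → ℂ) a⁻¹ ≠ 0
    rw [char_inv (isCharacter_of_isIrr χ.2) a]
    simpa using ha

@[simp] theorem mem_support (h : Data χ c) (g : G) : g ∈ support h ↔ (χ : G → ℂ) g ≠ 0 := Iff.rfl

theorem support_normal (h : Data χ c) : (support h).Normal :=
  ⟨fun g hg x => by
    show (χ : G → ℂ) (x * g * x⁻¹) ≠ 0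
    rw [isClassFunction_of_isIrr χ.2 g x]
    exact hg⟩

theorem Data.mem_support_self (h : Data χ c) : c ∈ support h := (h.nz c).2 (Or.inr (IsConj.refl c))

theorem Data.isConj_of_mem (h : Data χ c) {x : G} (hx : x ∈ support h) (hx1 : x ≠ 1) :
    IsConj x c := ((h.nz x).1 hx).resolve_left hx1

theorem Data.card_support (h : Data χ c) : Nat.card (support h) = classSize c + 1 := by
  classical
  have := Fintype.ofFinite G
  rw [classSize, ← card_conjClass_eq_index, Nat.card_eq_fintype_card, Fintype.card_subtype,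
    show (Finset.univ.filter fun x => x ∈ support h) =
      insert 1 (Finset.univ.filter fun x => IsConj x c) by ext x; simp [h.nz x],
    Finset.card_insert_of_notMem]
  simp only [Finset.mem_filter, Finset.mem_univ, true_and]
  exact fun e => h.ne_one (isConj_one_right.1 e)

theorem Data.support_ne_bot (h : Data χ c) : support h ≠ ⊥ := fun e =>
  h.ne_one (Subgroup.mem_bot.1 (e ▸ h.mem_support_self))

/-- The irreducible characters other than `χ` are those trivial on the support. -/
theorem Data.trivialOn_iff (h : Data χ c) (ψ : IrrCharacter G) :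
    (∀ n ∈ support h, (ψ : G → ℂ) n = (ψ : G → ℂ) 1) ↔ ψ ≠ χ := by
  constructor
  · rintro hψ rfl
    exact h.ne_one (h.faithful (hψ c h.mem_support_self))
  · intro hψ n hn
    rcases (h.nz n).1 hn with rfl | hn
    · rfl
    · rw [(isConj_iff_forall_irr n c).1 hn ψ, h.apply_eq_one hψ]

theorem Data.support_le (h : Data χ c) {K : Subgroup G} (hK : K.Normal) (hK1 : K ≠ ⊥) :
    support h ≤ K := by
  have := hK
  intro x hx
  refine mem_of_forall_irr K fun ψ hψ => ?_
  refine (h.trivialOn_iff ψ).2 ?_ x hx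
  rintro rfl
  exact hK1 (eq_bot_iff.2 fun k hk => Subgroup.mem_bot.2 (h.faithful (hψ k hk)))

theorem Data.exists_prime (h : Data χ c) :
    ∃ p : ℕ, p.Prime ∧ IsPGroup p (support h) ∧ IsElementaryAbelian p (support h) := by
  have hne : Nat.card (support h) ≠ 1 := fun e => h.support_ne_bot (Subgroup.card_eq_one.1 e)
  obtain ⟨p, hp, hpN⟩ := Nat.exists_prime_and_dvd hne
  haveI := Fact.mk hp
  obtain ⟨x, hx⟩ := exists_prime_orderOf_dvd_card' p hpN
  have hx1 : (x : G) ≠ 1 := by
    intro e
    have : x = 1 := Subtype.ext e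
    rw [this, orderOf_one] at hx
    exact hp.ne_one hx.symm
  have hxo : orderOf (x : G) = p := by rw [Subgroup.orderOf_coe, hx]
  have hord : ∀ y ∈ support h, y ^ p = 1 := by
    intro y hy
    by_cases hy1 : y = 1
    · simp [hy1]
    · obtain ⟨k, hk⟩ := isConj_iff.1 ((h.isConj_of_mem x.2 hx1).trans (h.isConj_of_mem hy hy1).symm)
      rw [← hk, conj_pow, ← hxo, pow_orderOf_eq_one]; simp
  have hpg : IsPGroup p (support h) := fun y => ⟨1, by
    apply Subtype.ext
    simpa using hord y y.2⟩
  refine ⟨p, hp, hpg, ?_, hord⟩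
  haveI : Nontrivial (support h) := Finite.one_lt_card_iff_nontrivial.1
    (lt_of_le_of_ne Nat.card_pos (Ne.symm hne))
  haveI := hpg.center_nontrivial
  haveI := support_normal h
  have hle := h.support_le (K := (Subgroup.center (support h)).map (support h).subtype)
    inferInstance (by
      rw [Ne, Subgroup.map_eq_bot_iff_of_injective _ (Subgroup.subtype_injective _)]
      exact (Subgroup.nontrivial_iff_ne_bot _).1 inferInstance)
  refine ⟨⟨fun a b => ?_⟩⟩
  obtain ⟨a', ha', haa⟩ := hle a.2
  obtain rfl : a' = a := Subtype.ext haa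
  exact (Subgroup.mem_center_iff.1 ha' b).symm

section Prime

variable {p : ℕ} [Fact p.Prime]

theorem Data.exists_pow_eq (h : Data χ c) (hp : IsPGroup p (support h)) :
    ∃ n, classSize c + 1 = p ^ n ∧ 0 < n := by
  obtain ⟨n, hn⟩ := hp.exists_card_eq
  rw [h.card_support] at hn
  refine ⟨n, hn, Nat.pos_of_ne_zero fun e => ?_⟩
  rw [e, pow_zero] at hn
  have := classSize_pos (c := c)
  omega

theorem Data.not_dvd_classSize (h : Data χ c) (hp : IsPGroup p (support h)) :
    ¬ p ∣ classSize c := by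
  obtain ⟨n, hn, hn0⟩ := h.exists_pow_eq hp
  intro hd
  have h2 : p ∣ classSize c + 1 := hn ▸ dvd_pow_self p hn0.ne'
  exact (Fact.out : p.Prime).not_dvd_one ((Nat.dvd_add_right hd).1 h2)

/-- The centraliser of `c` is a `p`-group. -/
theorem Data.isPGroup_centralizer (h : Data χ c) (hp : IsPGroup p (support h)) :
    IsPGroup p (Subgroup.centralizer ({c} : Set G)) := by
  classical
  have := Fintype.ofFinite G
  set C := Subgroup.centralizer ({c} : Set G) with hC
  obtain ⟨e, he, hcv, -, hcard⟩ := h.degree_eq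
  obtain ⟨n, hn, -⟩ := h.exists_pow_eq hp
  have hCcard : Nat.card C = e ^ 2 * p ^ n := by
    have h1 : Nat.card C * classSize c = Nat.card G := C.card_mul_index
    rw [← hcard, hn] at h1
    have h2 : Nat.card C * classSize c = (e ^ 2 * p ^ n) * classSize c := by rw [h1]; ring
    exact Nat.eq_of_mul_eq_mul_right classSize_pos h2
  refine IsPGroup.of_card (Nat.eq_prime_pow_of_unique_prime_dvd Nat.card_pos.ne' ?_)
  intro q hqp hqd
  by_contra hne
  haveI := Fact.mk hqp
  let Q : Sylow q C := default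
  let cC : C := ⟨c, by
    rw [hC, Subgroup.mem_centralizer_iff]; intro y hy; rw [Set.mem_singleton_iff.1 hy]⟩
  let H : Subgroup C := (Q : Subgroup C) ⊔ Subgroup.zpowers cC
  have hcent : ∀ y : C, (y : G) * c = c * y := fun y =>
    (Subgroup.mem_centralizer_iff.1 y.2 c rfl).symm
  haveI hQn : ((Q : Subgroup C).subgroupOf H).Normal := by
    rw [Subgroup.normal_subgroupOf_iff_le_normalizer le_sup_left]
    refine sup_le Subgroup.le_normalizer ?_
    rw [Subgroup.zpowers_le, Subgroup.mem_normalizer_iff]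
    intro y
    have : cC * y * cC⁻¹ = y := Subtype.ext (by
      show c * (y : G) * c⁻¹ = (y : G)
      rw [← hcent y, mul_inv_cancel_right])
    rw [this]
  have hψ : IsCharacter H (fun y : H => (χ : G → ℂ) ((y : C) : G)) :=
    isCharacter_comp (isCharacter_of_isIrr χ.2) ((Subgroup.centralizer ({c} : Set G)).subtype.comp H.subtype)
  let c' : H := ⟨cC, Subgroup.mem_sup_right (Subgroup.mem_zpowers _)⟩
  have hint := char_isIntegral (isCharacter_cosetAvg ((Q : Subgroup C).subgroupOf H) hψ)
    (c' : H ⧸ (Q : Subgroup C).subgroupOf H)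
  have := Fintype.ofFinite ↥((Q : Subgroup C).subgroupOf H)
  rw [cosetAvg_apply_mk] at hint
  have hterm : ∀ u : ↥((Q : Subgroup C).subgroupOf H), u ≠ 1 →
      (χ : G → ℂ) (((c' * (u : H) : H) : C) : G) = 0 := by
    intro u hu
    by_contra hnz
    have h1 : c * (((u : H) : C) : G) ∈ support h := hnz
    have h2 : (((u : H) : C) : G) ∈ support h := by
      have := (support h).mul_mem ((support h).inv_mem h.mem_support_self) h1
      simpa using this
    apply hu
    have hord : orderOf (((u : H) : C) : G) = 1 := by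
      obtain ⟨i, hi⟩ := (IsPGroup.iff_orderOf (p := q)).1 Q.isPGroup' ⟨((u : H) : C), u.2⟩
      obtain ⟨j, hj⟩ := (IsPGroup.iff_orderOf (p := p)).1 hp ⟨_, h2⟩
      simp only [Subgroup.orderOf_mk] at hi hj
      have hi' : orderOf (((u : H) : C) : G) = q ^ i := by
        rw [Subgroup.orderOf_coe, ← hi]
        exact (Subgroup.orderOf_coe (⟨((u : H) : C), u.2⟩ : (Q : Subgroup C))).trans rfl
      refine Nat.eq_one_of_dvd_coprimes (Nat.Coprime.pow j i
        ((Nat.coprime_primes (Fact.out : p.Prime) hqp).2 (Ne.symm hne))) ?_ ?_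
      · rw [hj]
      · rw [hi']
    exact Subtype.ext (Subtype.ext (Subtype.ext (orderOf_eq_one_iff.1 hord)))
  rw [Finset.sum_eq_single 1 (fun u _ hu => hterm u hu) (by simp)] at hint
  have hval : (χ : G → ℂ) (((c' * ((1 : ↥((Q : Subgroup C).subgroupOf H)) : H) : H) : C) : G)
      = -(e : ℂ) := by
    simp only [OneMemClass.coe_one, mul_one]
    exact hcv
  rw [hval, mul_neg, IsIntegral.neg_iff, mul_comm, ← div_eq_mul_inv,
    Nat.card_congr (Subgroup.subgroupOfEquivOfLe le_sup_left).toEquiv] at hint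
  have hdvd := dvd_of_isIntegral_div Nat.card_pos.ne' hint
  have hQcard := Q.card_eq_multiplicity
  rw [hQcard] at hdvd
  have hle := (hqp.pow_dvd_iff_le_factorization he.ne').1 hdvd
  have hfe : (Nat.card C).factorization q = 2 * e.factorization q := by
    rw [hCcard, Nat.factorization_mul (pow_ne_zero _ he.ne') (pow_ne_zero _ (Fact.out : p.Prime).ne_zero),
      Finsupp.add_apply, Nat.factorization_pow, Finsupp.smul_apply,
      Nat.Prime.factorization_pow (Fact.out : p.Prime), Finsupp.single_apply, if_neg (Ne.symm hne)]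
    simp
  have hpos := hqp.factorization_pos_of_dvd Nat.card_pos.ne' hqd
  omega

/-- The centraliser of `c` is a Sylow subgroup. -/
theorem Data.exists_sylow (h : Data χ c) (hp : IsPGroup p (support h)) :
    ∃ P : Sylow p G, Subgroup.centralizer ({c} : Set G) = P :=
  ⟨(h.isPGroup_centralizer hp).toSylow (h.not_dvd_classSize hp), rfl⟩

end Prime

end Cfsg.Agent.Lib.TwoClass
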